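import Mathlib

/-!
# S4150-NT: two primes `p + 4 ≤ q` in `(m/2, m]` for `m ≥ 17`

A variant of Bertrand's postulate, by the same proof as Mathlib's: for `n ≥ 512` the interval
`(n, 2n]` contains two primes differing by at least `4` (otherwise it contains at most two
primes, and the central binomial coefficient is too small).
-/

set_option autoImplicit false

namespace Cfsg.Agent.H71.Tw

open Nat

/-- A set of primes bounded by `s ≥ 4` has at most `s - 2` elements. -/
theorem card_primes_le_sub_two (s : ℕ) (hs : 4 ≤ s) (T : Finset ℕ)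
    (hT : ∀ p ∈ T, p.Prime ∧ p ≤ s) : T.card ≤ s - 2 := by
  have hsub : T ⊆ (Finset.Icc 2 s).erase 4 := by
    intro p hp
    obtain ⟨h1, h2⟩ := hT p hp
    rw [Finset.mem_erase, Finset.mem_Icc]
    refine ⟨?_, h1.two_le, h2⟩
    rintro rfl
    exact absurd h1 (by norm_num)
  have hcard : ((Finset.Icc 2 s).erase 4).card = s - 2 := by
    rw [Finset.card_erase_of_mem (Finset.mem_Icc.mpr ⟨by norm_num, hs⟩), Nat.card_Icc]
    omega
  exact (Finset.card_le_card hsub).trans hcard.le

/-- The upper bound of Mathlib's proof of Bertrand's postulate, when `(n, 2n]` contains at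
most two primes. -/
theorem centralBinom_le_of_few_primes (n : ℕ) (n_large : 2 < n) (hs : 4 ≤ sqrt (2 * n))
    (P : Finset ℕ) (hP : ∀ p : ℕ, p.Prime → n < p → p ≤ 2 * n → p ∈ P) (hPc : P.card ≤ 2) :
    centralBinom n ≤ (2 * n) ^ sqrt (2 * n) * 4 ^ (2 * n / 3) := by
  have n_pos : 0 < n := (Nat.zero_le _).trans_lt n_large
  have n2_pos : 1 ≤ 2 * n := mul_pos (zero_lt_two' ℕ) n_pos
  let f : ℕ → ℕ := fun x => x ^ n.centralBinom.factorization x
  have hsplit : centralBinom n = (∏ x ∈ Finset.range (2 * n / 3 + 1), f x) *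
      ∏ x ∈ Finset.Ico (2 * n / 3 + 1) (2 * n + 1), f x := by
    rw [Finset.prod_range_mul_prod_Ico f (by omega)]
    exact n.prod_pow_factorization_centralBinom.symm
  have h1 : ∏ x ∈ Finset.range (2 * n / 3 + 1), f x ≤
      (2 * n) ^ (sqrt (2 * n) - 2) * 4 ^ (2 * n / 3) := by
    let S := {p ∈ Finset.range (2 * n / 3 + 1) | Nat.Prime p}
    have : ∏ x ∈ S, f x = ∏ x ∈ Finset.range (2 * n / 3 + 1), f x := by
      refine Finset.prod_filter_of_ne fun p _ h => ?_
      contrapose h; dsimp only [f]
      rw [factorization_eq_zero_of_not_prime n.centralBinom h, _root_.pow_zero]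
    rw [← this, ← Finset.prod_filter_mul_prod_filter_not S (· ≤ sqrt (2 * n))]
    apply mul_le_mul'
    · refine (Finset.prod_le_prod' fun p _ => (?_ : f p ≤ 2 * n)).trans ?_
      · exact pow_factorization_choose_le (mul_pos two_pos n_pos)
      rw [Finset.prod_const]
      refine pow_right_mono₀ n2_pos (card_primes_le_sub_two _ hs _ ?_)
      intro p hp
      obtain ⟨h1, h2⟩ := Finset.mem_filter.1 hp
      exact ⟨(Finset.mem_filter.1 h1).2, h2⟩
    · refine le_trans ?_ (primorial_le_four_pow (2 * n / 3))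
      refine (Finset.prod_le_prod' fun p hp => (?_ : f p ≤ p)).trans ?_
      · obtain ⟨h1, h2⟩ := Finset.mem_filter.1 hp
        refine (pow_right_mono₀ (Finset.mem_filter.1 h1).2.one_lt.le ?_).trans (pow_one p).le
        exact Nat.factorization_choose_le_one (sqrt_lt'.mp <| not_le.1 h2)
      refine Finset.prod_le_prod_of_subset_of_one_le' (Finset.filter_subset _ _) ?_
      exact fun p hp _ => (Finset.mem_filter.1 hp).2.one_lt.le
  have h2 : ∏ x ∈ Finset.Ico (2 * n / 3 + 1) (2 * n + 1), f x ≤ (2 * n) ^ 2 := by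
    have hf1 : ∀ x ∈ Finset.Ico (2 * n / 3 + 1) (2 * n + 1), f x ≠ 1 → x ∈ P := by
      intro x hx hfx
      rw [Finset.mem_Ico] at hx
      by_contra hxP
      apply hfx
      dsimp only [f]
      by_cases hpr : x.Prime
      · have hxn : x ≤ n := by
          by_contra hlt
          exact hxP (hP x hpr (by omega) (by omega))
        rw [factorization_centralBinom_of_two_mul_self_lt_three_mul n_large hxn (by omega),
          Nat.pow_zero]
      · rw [factorization_eq_zero_of_not_prime n.centralBinom hpr, Nat.pow_zero]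
    calc ∏ x ∈ Finset.Ico (2 * n / 3 + 1) (2 * n + 1), f x
        = ∏ x ∈ (Finset.Ico (2 * n / 3 + 1) (2 * n + 1)).filter (· ∈ P), f x :=
          (Finset.prod_filter_of_ne hf1).symm
      _ ≤ ∏ _x ∈ (Finset.Ico (2 * n / 3 + 1) (2 * n + 1)).filter (· ∈ P), (2 * n) :=
          Finset.prod_le_prod' fun p _ => pow_factorization_choose_le (mul_pos two_pos n_pos)
      _ = (2 * n) ^ ((Finset.Ico (2 * n / 3 + 1) (2 * n + 1)).filter (· ∈ P)).card :=
          Finset.prod_const _
      _ ≤ (2 * n) ^ 2 := by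
          apply pow_right_mono₀ n2_pos
          refine le_trans (Finset.card_le_card ?_) hPc
          intro x hx
          exact (Finset.mem_filter.1 hx).2
  calc centralBinom n = _ := hsplit
    _ ≤ ((2 * n) ^ (sqrt (2 * n) - 2) * 4 ^ (2 * n / 3)) * (2 * n) ^ 2 := Nat.mul_le_mul h1 h2
    _ = (2 * n) ^ sqrt (2 * n) * 4 ^ (2 * n / 3) := by
        have h : sqrt (2 * n) = (sqrt (2 * n) - 2) + 2 := by omega
        conv_rhs => rw [h, pow_add]
        ring

/-- For `n ≥ 512` the interval `(n, 2n]` contains two primes differing by at least `4`. -/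
theorem exists_primes_gap_large (n : ℕ) (n_large : 512 ≤ n) :
    ∃ p q : ℕ, p.Prime ∧ q.Prime ∧ n < p ∧ p + 4 ≤ q ∧ q ≤ 2 * n := by
  by_contra hno
  have hno' : ∀ p q : ℕ, p.Prime → q.Prime → n < p → p + 4 ≤ q → 2 * n < q := by
    intro p q hp hq h1 h2
    by_contra h3
    exact hno ⟨p, q, hp, hq, h1, h2, by omega⟩
  let P : Finset ℕ := {p ∈ Finset.range (2 * n + 1) | p.Prime ∧ n < p}
  have hPmem : ∀ p : ℕ, p.Prime → n < p → p ≤ 2 * n → p ∈ P := by
    intro p hp h1 h2
    exact Finset.mem_filter.mpr ⟨Finset.mem_range.mpr (by omega), hp, h1⟩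
  have hPprop : ∀ p ∈ P, p.Prime ∧ n < p ∧ p ≤ 2 * n := by
    intro p hp
    obtain ⟨h1, h2, h3⟩ := Finset.mem_filter.mp hp
    exact ⟨h2, h3, by have := Finset.mem_range.mp h1; omega⟩
  have hPc : P.card ≤ 2 := by
    by_cases hne : P.Nonempty
    · have hp0 : P.min' hne ∈ P := P.min'_mem hne
      obtain ⟨hp0r, hp0n, hp0l⟩ := hPprop _ hp0
      have hsub : P ⊆ {P.min' hne, P.min' hne + 2} := by
        intro p hp
        have hle : P.min' hne ≤ p := P.min'_le p hp
        obtain ⟨hpr, hpn, hpl⟩ := hPprop p hp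
        have hlt : p < P.min' hne + 4 := by
          by_contra hge
          have := hno' (P.min' hne) p hp0r hpr hp0n (by omega)
          omega
        have hodd : p % 2 = 1 := (hpr.eq_two_or_odd).resolve_left (by omega)
        have hodd0 : P.min' hne % 2 = 1 := (hp0r.eq_two_or_odd).resolve_left (by omega)
        simp only [Finset.mem_insert, Finset.mem_singleton]
        omega
      exact (Finset.card_le_card hsub).trans Finset.card_le_two
    · rw [Finset.not_nonempty_iff_eq_empty] at hne
      simp [hne]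
  have hsqrt : 4 ≤ sqrt (2 * n) := by
    rw [Nat.le_sqrt]
    omega
  have hbound := centralBinom_le_of_few_primes n (by omega) hsqrt P hPmem hPc
  have no_prime : 4 ^ n < n * n.centralBinom :=
    Nat.four_pow_lt_mul_centralBinom n (le_trans (by norm_num1) n_large)
  have hmain := bertrand_main_inequality n_large
  have hle : n * n.centralBinom ≤ 4 ^ n := by
    calc n * n.centralBinom ≤ n * ((2 * n) ^ sqrt (2 * n) * 4 ^ (2 * n / 3)) :=
          Nat.mul_le_mul_left _ hbound
      _ = n * (2 * n) ^ sqrt (2 * n) * 4 ^ (2 * n / 3) := by ring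
      _ ≤ 4 ^ n := hmain
  omega

/-- **S4150-NT**: for `m ≥ 17` there are primes `p`, `q` with `m < 2p`, `p + 4 ≤ q ≤ m`. -/
theorem exists_primes_gap (m : ℕ) (hm : 17 ≤ m) :
    ∃ p q : ℕ, p.Prime ∧ q.Prime ∧ m < 2 * p ∧ p + 4 ≤ q ∧ q ≤ m := by
  rcases le_or_gt 1024 m with h | h
  · obtain ⟨p, q, hp, hq, h1, h2, h3⟩ := exists_primes_gap_large (m / 2) (by omega)
    exact ⟨p, q, hp, hq, by omega, h2, by omega⟩
  · have key : ∀ p q : ℕ, p.Prime → q.Prime → p + 4 ≤ q → q ≤ m → m < 2 * p →
        ∃ p q : ℕ, p.Prime ∧ q.Prime ∧ m < 2 * p ∧ p + 4 ≤ q ∧ q ≤ m :=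
      fun p q hp hq h1 h2 h3 => ⟨p, q, hp, hq, h3, h1, h2⟩
    rcases lt_or_ge m 23 with h1 | h1
    · exact key 13 17 (by norm_num) (by norm_num) (by norm_num) (by omega) (by omega)
    rcases lt_or_ge m 37 with h2 | h2
    · exact key 19 23 (by norm_num) (by norm_num) (by norm_num) (by omega) (by omega)
    rcases lt_or_ge m 59 with h3 | h3
    · exact key 31 37 (by norm_num) (by norm_num) (by norm_num) (by omega) (by omega)
    rcases lt_or_ge m 101 with h4 | h4
    · exact key 53 59 (by norm_num) (by norm_num) (by norm_num) (by omega) (by omega)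
    rcases lt_or_ge m 191 with h5 | h5
    · exact key 97 101 (by norm_num) (by norm_num) (by norm_num) (by omega) (by omega)
    rcases lt_or_ge m 353 with h6 | h6
    · exact key 181 191 (by norm_num) (by norm_num) (by norm_num) (by omega) (by omega)
    rcases lt_or_ge m 691 with h7 | h7
    · exact key 349 353 (by norm_num) (by norm_num) (by norm_num) (by omega) (by omega)
    · exact key 683 691 (by norm_num) (by norm_num) (by norm_num) (by omega) (by omega)

end Cfsg.Agent.H71.Tw
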