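import Mathlib
import Cfsg.Prelude.Def_Blocks
import Cfsg.Prelude.Def_Characters
import Cfsg.Prelude.Def_Solvable
import Cfsg.Prelude.Def_CaseTheorems
import Cfsg.Agent.H21.BRMDefs
import Cfsg.Agent.S4441
import Cfsg.Agent.S0907
import Cfsg.Agent.S0141
import Cfsg.Agent.H82.Irr
import Cfsg.Agent.H81.Degree
import Cfsg.Agent.H81.Reg
import Cfsg.Agent.H21.E2Block
import Cfsg.Agent.H4.IrrCount

/-!
# Piece S4700-DEG (helper71, for helper21): the principal block of defect 1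

Degrees and values on `P \ 1` of the characters of the principal `p`-block when a Sylow
`p`-subgroup `P` has order `p` (no hypothesis on `C(P)`): the data of `S4441` read at `1`, the
column sum from weak block orthogonality `S0907`, and the divisibility of the degrees by
`e (1 + n p) = |G : C(x)|` from the integrality of central characters `S0141`.
-/

set_option autoImplicit false
set_option linter.style.haveILetI false

namespace Cfsg.Agent.H71.BRQ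

open Cfsg Cfsg.Agent.H21.BR
open scoped ComplexConjugate

/-- integrality of the central character, for an `IrrCharacter` -/
theorem central_int {G : Type*} [Group G] [Finite G] (χ : IrrCharacter G) (g : G) :
    IsIntegral ℤ (((Subgroup.centralizer ({g} : Set G)).index : ℂ) * (χ : G → ℂ) g /
      (charDegree (χ : G → ℂ) : ℂ)) := by
  obtain ⟨n, ρ, hirr, hχ, -, -, hdeg⟩ := Cfsg.Agent.H82.irr_rep χ
  haveI := hirr
  have h := Cfsg.Agent.S0141.result ρ g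
  rw [hχ, Module.finrank_fin_fun, ← hdeg] at h
  exact h

theorem b0_degrees {G : Type*} [Group G] [Finite G] (p : ℕ) [Fact p.Prime] (hp2 : p ≠ 2)
    (M : Ideal Cfsg.AlgInt) (hM : Cfsg.IsPModular p M)
    (P : Sylow p G) (hP : Nat.card (P : Subgroup G) = p) (e : ℕ)
    (he : (Subgroup.centralizer ((P : Subgroup G) : Set G)).relIndex
      (Subgroup.normalizer ((P : Subgroup G) : Set G)) = e) (hedvd : e ∣ p - 1)
    (n : ℕ) (hn : Nat.card (Sylow p G) = 1 + n * p) :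
    ∃ (X Y : Finset (IrrCharacter G)) (δ : IrrCharacter G → ℤ) (ε : ℤ),
      (∀ ψ : IrrCharacter G, ψ ∈ principalBlock M G ↔ ψ ∈ X ∨ ψ ∈ Y) ∧
      Disjoint X Y ∧ X.card = e ∧ Y.card * e = p - 1 ∧
      (∀ χ ∈ X, δ χ = 1 ∨ δ χ = -1) ∧
      (∀ χ ∈ X, (charDegree (χ : G → ℂ) : ℤ) ≡ δ χ [ZMOD p]) ∧
      (∀ χ ∈ X, ∀ x ∈ (P : Subgroup G), x ≠ 1 → (χ : G → ℂ) x = (δ χ : ℂ)) ∧
      (ε = 1 ∨ ε = -1) ∧
      (∀ θ ∈ Y, (charDegree (θ : G → ℂ) : ℤ) ≡ ε * (e : ℤ) [ZMOD p]) ∧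
      (∀ θ ∈ Y, ∀ θ' ∈ Y, charDegree (θ : G → ℂ) = charDegree (θ' : G → ℂ)) ∧
      (∀ θ ∈ Y, ε * (charDegree (θ : G → ℂ) : ℤ) =
        ∑ χ ∈ X, δ χ * (charDegree (χ : G → ℂ) : ℤ)) ∧
      (∀ x ∈ (P : Subgroup G), x ≠ 1 → ∑ θ ∈ Y, (θ : G → ℂ) x = -(ε : ℂ)) ∧
      (∀ χ ∈ X, charDegree (χ : G → ℂ) ∣ e * (1 + n * p)) ∧
      (∀ θ ∈ Y, charDegree (θ : G → ℂ) ∣ e * (1 + n * p)) := by
  classical
  have hp : p.Prime := Fact.out
  have hp3 : 3 ≤ p := by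
    have := hp.two_le
    omega
  have he0 : 0 < e := Nat.pos_of_dvd_of_pos hedvd (by omega)
  let _ : Fintype G := Fintype.ofFinite G
  have := Cfsg.Agent.H4.finite_irr G
  obtain ⟨X, Y, hB, hdisj, hX, hY, εX, ε, hXp, hε, hYdeg, hYeq, hYsum⟩ :=
    Cfsg.Agent.S4441.result p M hM hp2 P hP e he
  rw [Nat.card_coe_set_eq] at hX hY
  have hXfin : X.Finite := Set.toFinite _
  have hYfin : Y.Finite := Set.toFinite _
  have hval1 : ∀ ζ : IrrCharacter G, (ζ : G → ℂ) 1 = (charDegree (ζ : G → ℂ) : ℂ) :=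
    fun ζ => (Cfsg.Agent.H81.irr_charDegree ζ).1
  have hpos : ∀ ζ : IrrCharacter G, 0 < charDegree (ζ : G → ℂ) :=
    fun ζ => (Cfsg.Agent.H81.irr_charDegree ζ).2
  have hreg1 : ¬ p ∣ orderOf (1 : G) := by
    rw [orderOf_one]; exact hp.not_dvd_one
  have hXF : ∀ ψ, ψ ∈ hXfin.toFinset ↔ ψ ∈ X := fun ψ => Set.Finite.mem_toFinset _
  have hYF : ∀ ψ, ψ ∈ hYfin.toFinset ↔ ψ ∈ Y := fun ψ => Set.Finite.mem_toFinset _
  have hXFc : hXfin.toFinset.card = e := by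
    rw [← Set.ncard_eq_toFinset_card _ hXfin, hX]
  have hYFc : hYfin.toFinset.card = (p - 1) / e := by
    rw [← Set.ncard_eq_toFinset_card _ hYfin, hY]
  have hval : ∀ χ ∈ hXfin.toFinset, ∀ x ∈ (P : Subgroup G), x ≠ 1 →
      (χ : G → ℂ) x = (εX χ : ℂ) := by
    intro χ hχ x hx hx1
    have h1 := (hXp χ ((hXF χ).mp hχ)).2.2 x hx hx1 1 (Subgroup.one_mem _) hreg1
    rwa [mul_one] at h1
  have hYdegeq : ∀ θ ∈ hYfin.toFinset, ∀ θ' ∈ hYfin.toFinset,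
      charDegree (θ : G → ℂ) = charDegree (θ' : G → ℂ) := by
    intro θ hθ θ' hθ'
    have h1 := hYeq θ ((hYF θ).mp hθ) θ' ((hYF θ').mp hθ') 1 hreg1
    rw [hval1, hval1] at h1
    exact_mod_cast h1
  have hrelC : ∀ θ ∈ hYfin.toFinset, (ε : ℂ) * (charDegree (θ : G → ℂ) : ℂ) =
      ∑ χ ∈ hXfin.toFinset, (εX χ : ℂ) * (charDegree (χ : G → ℂ) : ℂ) := by
    intro θ hθ
    have h1 := hYsum θ ((hYF θ).mp hθ) 1 hreg1
    rw [finsum_mem_eq_finite_toFinset_sum _ hXfin, hval1] at h1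
    rw [h1]
    exact Finset.sum_congr rfl fun χ _ => by rw [hval1]
  have hrel : ∀ θ ∈ hYfin.toFinset, ε * (charDegree (θ : G → ℂ) : ℤ) =
      ∑ χ ∈ hXfin.toFinset, εX χ * (charDegree (χ : G → ℂ) : ℤ) := by
    intro θ hθ
    have h1 := hrelC θ hθ
    exact_mod_cast h1
  have hYne : hYfin.toFinset.Nonempty := by
    rw [← Finset.card_pos, hYFc]
    exact Nat.div_pos (Nat.le_of_dvd (by omega) hedvd) he0
  -- the column sum
  have hcol : ∀ x ∈ (P : Subgroup G), x ≠ 1 →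
      ∑ θ ∈ hYfin.toFinset, (θ : G → ℂ) x = -(ε : ℂ) := by
    intro x hx hx1
    have hord : orderOf x = p :=
      Cfsg.Agent.H21.orderOf_eq_of_mem_card_prime hp (P : Subgroup G) hP x hx hx1
    have hBl : IsPBlock M (principalBlock M G) := ⟨Cfsg.Agent.H21.E2Block.triv G, rfl⟩
    have h0 := Cfsg.Agent.S0907.result p M hM (principalBlock M G) hBl 1 x hreg1
      (dvd_of_eq hord.symm)
    rw [hB, finsum_mem_union hdisj hXfin hYfin, finsum_mem_eq_finite_toFinset_sum _ hXfin,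
      finsum_mem_eq_finite_toFinset_sum _ hYfin] at h0
    obtain ⟨θ₀, hθ₀⟩ := hYne
    have hX1 : ∑ χ ∈ hXfin.toFinset, (χ : G → ℂ) 1 * conj ((χ : G → ℂ) x) =
        (ε : ℂ) * (charDegree (θ₀ : G → ℂ) : ℂ) := by
      rw [hrelC θ₀ hθ₀]
      refine Finset.sum_congr rfl fun χ hχ => ?_
      rw [hval χ hχ x hx hx1, hval1, map_intCast]
      ring
    have hY1 : ∑ θ ∈ hYfin.toFinset, (θ : G → ℂ) 1 * conj ((θ : G → ℂ) x) =
        (charDegree (θ₀ : G → ℂ) : ℂ) * conj (∑ θ ∈ hYfin.toFinset, (θ : G → ℂ) x) := by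
      rw [map_sum, Finset.mul_sum]
      refine Finset.sum_congr rfl fun θ hθ => ?_
      rw [hval1, hYdegeq θ hθ θ₀ hθ₀]
    rw [hX1, hY1] at h0
    have hd0 : (charDegree (θ₀ : G → ℂ) : ℂ) ≠ 0 := by
      exact_mod_cast (hpos θ₀).ne'
    have h3 : conj (∑ θ ∈ hYfin.toFinset, (θ : G → ℂ) x) = -(ε : ℂ) := by
      have h4 : (charDegree (θ₀ : G → ℂ) : ℂ) *
          ((ε : ℂ) + conj (∑ θ ∈ hYfin.toFinset, (θ : G → ℂ) x)) = 0 := by
        linear_combination h0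
      rcases mul_eq_zero.mp h4 with h | h
      · exact absurd h hd0
      · linear_combination h
    have h5 := congrArg conj h3
    rw [Complex.conj_conj, map_neg, map_intCast] at h5
    exact h5
  -- the class size of a non-identity element of `P`
  obtain ⟨x, hx, hx1⟩ : ∃ x ∈ (P : Subgroup G), x ≠ 1 := by
    by_contra hcon
    push Not at hcon
    have h1 : (P : Subgroup G) = ⊥ := (Subgroup.eq_bot_iff_forall _).mpr hcon
    have h2 : Nat.card (P : Subgroup G) = 1 := by rw [h1]; exact Subgroup.card_bot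
    omega
  have hidx : (Subgroup.centralizer ({x} : Set G)).index = e * (1 + n * p) := by
    have h1 : Nat.card (Sylow p G) =
        (Subgroup.normalizer ((P : Subgroup G) : Set G)).index :=
      Sylow.card_eq_index_normalizer P
    rw [Cfsg.Agent.H21.E2Block.centralizer_singleton_eq p P hP x hx hx1,
      ← Subgroup.relIndex_mul_index (Subgroup.centralizer_le_normalizer _), he, ← h1, hn]
  have hidx0 : e * (1 + n * p) ≠ 0 := by positivity
  have hdvdX : ∀ χ ∈ hXfin.toFinset, charDegree (χ : G → ℂ) ∣ e * (1 + n * p) := by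
    intro χ hχ
    have h1 := central_int χ x
    rw [hidx, hval χ hχ x hx hx1] at h1
    apply Cfsg.Agent.H81.nat_dvd_of_isIntegral_div (hpos χ).ne'
    rcases (hXp χ ((hXF χ).mp hχ)).1 with h2 | h2
    · rw [h2] at h1
      convert h1 using 1
      push_cast
      ring
    · rw [h2] at h1
      convert h1.neg using 1
      push_cast
      ring
  have hdvdY : ∀ θ ∈ hYfin.toFinset, charDegree (θ : G → ℂ) ∣ e * (1 + n * p) := by
    intro θ₀ hθ₀
    have h1 : IsIntegral ℤ (∑ θ ∈ hYfin.toFinset,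
        ((Subgroup.centralizer ({x} : Set G)).index : ℂ) * (θ : G → ℂ) x /
          (charDegree (θ : G → ℂ) : ℂ)) :=
      IsIntegral.sum _ fun θ _ => central_int θ x
    have h2 : ∑ θ ∈ hYfin.toFinset,
        ((Subgroup.centralizer ({x} : Set G)).index : ℂ) * (θ : G → ℂ) x /
          (charDegree (θ : G → ℂ) : ℂ) =
        ((e * (1 + n * p) : ℕ) : ℂ) * (-(ε : ℂ)) / (charDegree (θ₀ : G → ℂ) : ℂ) := by
      rw [← hcol x hx hx1, Finset.mul_sum, Finset.sum_div]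
      refine Finset.sum_congr rfl fun θ hθ => ?_
      rw [hidx, hYdegeq θ hθ θ₀ hθ₀]
    rw [h2] at h1
    apply Cfsg.Agent.H81.nat_dvd_of_isIntegral_div (hpos θ₀).ne'
    rcases hε with h3 | h3
    · rw [h3] at h1
      convert h1.neg using 1
      push_cast
      ring
    · rw [h3] at h1
      convert h1 using 1
      push_cast
      ring
  refine ⟨hXfin.toFinset, hYfin.toFinset, εX, ε, ?_, ?_, hXFc, ?_, ?_, ?_, hval, hε, ?_,
    hYdegeq, hrel, hcol, hdvdX, hdvdY⟩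
  · intro ψ
    rw [hB, hXF, hYF]
    exact Set.mem_union ψ X Y
  · rw [Set.Finite.disjoint_toFinset]
    exact hdisj
  · rw [hYFc]
    exact Nat.div_mul_cancel hedvd
  · intro χ hχ
    exact (hXp χ ((hXF χ).mp hχ)).1
  · intro χ hχ
    exact (hXp χ ((hXF χ).mp hχ)).2.1
  · intro θ hθ
    exact hYdeg θ ((hYF θ).mp hθ)

end Cfsg.Agent.H71.BRQ

example {G : Type*} [Group G] [Finite G] (p : ℕ) [Fact p.Prime] (hp2 : p ≠ 2)
    (M : Ideal Cfsg.AlgInt) (hM : Cfsg.IsPModular p M)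
    (P : Sylow p G) (hP : Nat.card (P : Subgroup G) = p) (e : ℕ)
    (he : (Subgroup.centralizer ((P : Subgroup G) : Set G)).relIndex
      (Subgroup.normalizer ((P : Subgroup G) : Set G)) = e) (hedvd : e ∣ p - 1)
    (n : ℕ) (hn : Nat.card (Sylow p G) = 1 + n * p) :
    ∃ (X Y : Finset (Cfsg.IrrCharacter G)) (δ : Cfsg.IrrCharacter G → ℤ) (ε : ℤ),
      (∀ ψ : Cfsg.IrrCharacter G, ψ ∈ Cfsg.principalBlock M G ↔ ψ ∈ X ∨ ψ ∈ Y) ∧
      Disjoint X Y ∧ X.card = e ∧ Y.card * e = p - 1 ∧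
      (∀ χ ∈ X, δ χ = 1 ∨ δ χ = -1) ∧
      (∀ χ ∈ X, (Cfsg.charDegree (χ : G → ℂ) : ℤ) ≡ δ χ [ZMOD p]) ∧
      (∀ χ ∈ X, ∀ x ∈ (P : Subgroup G), x ≠ 1 → (χ : G → ℂ) x = (δ χ : ℂ)) ∧
      (ε = 1 ∨ ε = -1) ∧
      (∀ θ ∈ Y, (Cfsg.charDegree (θ : G → ℂ) : ℤ) ≡ ε * (e : ℤ) [ZMOD p]) ∧
      (∀ θ ∈ Y, ∀ θ' ∈ Y, Cfsg.charDegree (θ : G → ℂ) = Cfsg.charDegree (θ' : G → ℂ)) ∧
      (∀ θ ∈ Y, ε * (Cfsg.charDegree (θ : G → ℂ) : ℤ) =
        ∑ χ ∈ X, δ χ * (Cfsg.charDegree (χ : G → ℂ) : ℤ)) ∧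
      (∀ x ∈ (P : Subgroup G), x ≠ 1 → ∑ θ ∈ Y, (θ : G → ℂ) x = -(ε : ℂ)) ∧
      (∀ χ ∈ X, Cfsg.charDegree (χ : G → ℂ) ∣ e * (1 + n * p)) ∧
      (∀ θ ∈ Y, Cfsg.charDegree (θ : G → ℂ) ∣ e * (1 + n * p)) :=
  Cfsg.Agent.H71.BRQ.b0_degrees p hp2 M hM P hP e he hedvd n hn
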