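import Mathlib

set_option autoImplicit false

namespace Cfsg.Agent.H71

/-- The size of a conjugacy class is the index of the centralizer. -/
theorem ncard_carrier_eq_index {G : Type*} [Group G] (x : G) :
    (ConjClasses.mk x).carrier.ncard = (Subgroup.centralizer ({x} : Set G)).index := by
  rw [← ConjAct.orbit_eq_carrier_conjClasses, ← MulAction.index_stabilizer,
    ConjAct.stabilizer_eq_centralizer]
  rfl

/-- A finite group is not the union of the conjugates of a proper subgroup. -/
theorem eq_top_of_forall_conj_mem {G : Type*} [Group G] [Finite G] (N : Subgroup G)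
    (h : ∀ z : G, ∃ w : G, w⁻¹ * z * w ∈ N) : N = ⊤ := by
  classical
  have : Fintype G := Fintype.ofFinite G
  have hB := MulAction.sum_card_fixedBy_eq_card_orbits_mul_card_group G (G ⧸ N)
  have horb : Fintype.card (Quotient (MulAction.orbitRel G (G ⧸ N))) = 1 := by
    rw [Fintype.card_eq_one_iff]
    refine ⟨Quotient.mk _ (QuotientGroup.mk 1), fun q => ?_⟩
    induction q using Quotient.inductionOn with
    | _ a =>
      apply Quotient.sound
      change MulAction.orbitRel G (G ⧸ N) _ _
      rw [MulAction.orbitRel_apply, MulAction.mem_orbit_iff]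
      obtain ⟨g, hg⟩ := MulAction.exists_smul_eq G (QuotientGroup.mk 1 : G ⧸ N) a
      exact ⟨g, hg⟩
  rw [horb, one_mul] at hB
  have hpos : ∀ z : G, 1 ≤ Fintype.card (MulAction.fixedBy (G ⧸ N) z) := by
    intro z
    obtain ⟨w, hw⟩ := h z
    rw [Nat.succ_le_iff, Fintype.card_pos_iff]
    refine ⟨⟨QuotientGroup.mk w, ?_⟩⟩
    rw [MulAction.mem_fixedBy, MulAction.Quotient.smul_mk, QuotientGroup.eq, smul_eq_mul]
    have : (z * w)⁻¹ * w = (w⁻¹ * z * w)⁻¹ := by group
    rw [this]
    exact N.inv_mem hw
  have hone : Fintype.card (MulAction.fixedBy (G ⧸ N) (1 : G)) = Fintype.card (G ⧸ N) := by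
    apply Fintype.card_congr
    refine ⟨fun y => y.1, fun q => ⟨q, ?_⟩, fun y => rfl, fun q => rfl⟩
    rw [MulAction.mem_fixedBy, one_smul]
  have h1 : Fintype.card (G ⧸ N) +
      ∑ z ∈ Finset.univ.erase (1 : G), Fintype.card (MulAction.fixedBy (G ⧸ N) z)
      = Fintype.card G := by
    rw [← hB, ← Finset.add_sum_erase Finset.univ _ (Finset.mem_univ (1 : G)), hone]
  have h2 : Fintype.card G - 1 ≤
      ∑ z ∈ Finset.univ.erase (1 : G), Fintype.card (MulAction.fixedBy (G ⧸ N) z) := by
    calc Fintype.card G - 1 = (Finset.univ.erase (1 : G)).card := by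
          rw [Finset.card_erase_of_mem (Finset.mem_univ _), Finset.card_univ]
      _ = ∑ z ∈ Finset.univ.erase (1 : G), 1 := by simp
      _ ≤ _ := Finset.sum_le_sum (fun z _ => hpos z)
  have hG : 0 < Fintype.card G := Fintype.card_pos
  have hidx : N.index = 1 := by
    rw [Subgroup.index_eq_card, Nat.card_eq_fintype_card]
    have : 0 < Fintype.card (G ⧸ N) := Fintype.card_pos
    omega
  exact Subgroup.index_eq_one.1 hidx

end Cfsg.Agent.H71
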