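import Mathlib
import Cfsg.Agent.H74.DihDefs

set_option autoImplicit false
set_option linter.unusedSectionVars false

/-!
# S3572-FG (helper71, for helper74): the Schur ring of a primitive group with a regular
dihedral subgroup.

`RSetup G Ω K`: a homomorphism `ι : K →* G` and a bijection `e : K ≃ Ω` with
`ι k • e h = e (k * h)` (a regular subgroup isomorphic to `K`).
-/

namespace Cfsg.Agent.H71.Dih

open Cfsg.Agent.H74.Dih
open scoped Pointwise

/-- regular setup. -/
structure RSetup (G Ω K : Type*) [Group G] [MulAction G Ω] [Group K] where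
  ι : K →* G
  e : K ≃ Ω
  he : ∀ k h : K, ι k • e h = e (k * h)

namespace RSetup

variable {G Ω K : Type*} [Group G] [MulAction G Ω] [Group K] (S : RSetup G Ω K)

/-- transported action on `K`. -/
def act (x : G) (h : K) : K := S.e.symm (x • S.e h)

lemma e_act (x : G) (h : K) : S.e (S.act x h) = x • S.e h := by
  simp [act]

lemma act_one (h : K) : S.act 1 h = h := by simp [act]

lemma act_mul (x y : G) (h : K) : S.act (x * y) h = S.act x (S.act y h) := by
  simp [act, mul_smul]

lemma act_inv_act (x : G) (h : K) : S.act x⁻¹ (S.act x h) = h := by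
  rw [← act_mul]; simp [act_one]

lemma act_act_inv (x : G) (h : K) : S.act x (S.act x⁻¹ h) = h := by
  rw [← act_mul]; simp [act_one]

lemma act_injective (x : G) : Function.Injective (S.act x) := by
  intro i j h
  have := congrArg (S.act x⁻¹) h
  simpa [act_inv_act] using this

/-- `act x` as an equivalence. -/
def actEquiv (x : G) : K ≃ K where
  toFun := S.act x
  invFun := S.act x⁻¹
  left_inv := S.act_inv_act x
  right_inv := S.act_act_inv x

@[simp] lemma actEquiv_apply (x : G) (h : K) : S.actEquiv x h = S.act x h := rfl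

lemma act_ι (k h : K) : S.act (S.ι k) h = k * h := by
  simp [act, S.he]

/-- the basic lemma. -/
lemma L0 (g : G) (a : K) :
    ∃ y : G, S.act y 1 = 1 ∧ ∀ b, S.act g (a * b) = S.act g a * S.act y b := by
  have key : ∀ b, S.act ((S.ι (S.act g a))⁻¹ * g * S.ι a) b = (S.act g a)⁻¹ * S.act g (a * b) := by
    intro b
    rw [act_mul, act_mul, act_ι, ← map_inv, act_ι]
  refine ⟨(S.ι (S.act g a))⁻¹ * g * S.ι a, ?_, ?_⟩
  · rw [key, mul_one, inv_mul_cancel]
  · intro b
    rw [key, mul_inv_cancel_left]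

/-- invariance under the stabilizer of `1`. -/
def Inv (T : Set K) : Prop := ∀ x : G, S.act x 1 = 1 → ∀ i ∈ T, S.act x i ∈ T

/-- the orbit relation of the stabilizer of `1`. -/
def rel (h h' : K) : Prop := ∃ g : G, S.act g 1 = 1 ∧ S.act g h = h'

variable {S}

lemma act_inv_one {x : G} (hx : S.act x 1 = 1) : S.act x⁻¹ 1 = 1 := by
  have := S.act_inv_act x 1
  rwa [hx] at this

lemma rel_refl (h : K) : S.rel h h := ⟨1, S.act_one 1, S.act_one h⟩

lemma rel_symm {h h' : K} (hh : S.rel h h') : S.rel h' h := by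
  obtain ⟨g, hg1, hg⟩ := hh
  exact ⟨g⁻¹, act_inv_one hg1, by rw [← hg, act_inv_act]⟩

lemma rel_trans {a b c : K} (h1 : S.rel a b) (h2 : S.rel b c) : S.rel a c := by
  obtain ⟨g, hg1, hg⟩ := h1
  obtain ⟨g', hg'1, hg'⟩ := h2
  exact ⟨g' * g, by rw [act_mul, hg1, hg'1], by rw [act_mul, hg, hg']⟩

lemma rel_one {h : K} (hh : S.rel h 1) : h = 1 := by
  obtain ⟨g, hg1, hg⟩ := hh
  exact S.act_injective g (hg.trans hg1.symm)

lemma rel_inv {h h' : K} (hh : S.rel h h') : S.rel h⁻¹ h'⁻¹ := by
  obtain ⟨g, hg1, hg⟩ := hh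
  refine ⟨(S.ι h')⁻¹ * g * S.ι h, ?_, ?_⟩
  · rw [act_mul, act_mul, act_ι, mul_one, hg, ← map_inv, act_ι, inv_mul_cancel]
  · rw [act_mul, act_mul, act_ι, mul_inv_cancel, hg1, ← map_inv, act_ι, mul_one]

lemma inv_of_rel_closed {T : Set K} (hT : ∀ h h', S.rel h h' → h ∈ T → h' ∈ T) : S.Inv T :=
  fun x hx i hi => hT i _ ⟨x, hx, rfl⟩ hi

/-- an invariant subgroup gives a block; so it is trivial when the action is primitive. -/
lemma prim_subgroup [MulAction.IsPreprimitive G Ω] (M : Subgroup K)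
    (hM : S.Inv (M : Set K)) : M = ⊥ ∨ M = ⊤ := by
  have hsub : ∀ x : G, ∀ i' j' : K, i' ∈ M → j' ∈ M → S.act x i' = j' →
      x • (S.e '' (M : Set K)) ⊆ S.e '' (M : Set K) := by
    intro x i' j' hi' hj' hx
    rintro _ ⟨_, ⟨k, hk, rfl⟩, rfl⟩
    refine ⟨S.act x k, ?_, S.e_act x k⟩
    obtain ⟨y, hy1, hy⟩ := S.L0 x i'
    have h1 : S.act x k = j' * S.act y (i'⁻¹ * k) := by
      have := hy (i'⁻¹ * k)
      rwa [mul_inv_cancel_left, hx] at this
    rw [SetLike.mem_coe, h1]
    exact M.mul_mem hj' (hM y hy1 _ (M.mul_mem (M.inv_mem hi') hk))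
  have hblock : MulAction.IsBlock G (S.e '' (M : Set K)) := by
    rw [MulAction.isBlock_iff_smul_eq_of_mem]
    rintro g a ⟨i, hi, rfl⟩ hga
    obtain ⟨j, hj, hj'⟩ := hga
    have hact : S.act g i = j := by
      rw [act, ← hj']; simp
    apply Set.Subset.antisymm (hsub g i j hi hj hact)
    have h2 := hsub g⁻¹ j i hj hi (by rw [← hact, act_inv_act])
    intro a ha
    have := h2 (Set.smul_mem_smul_set (a := g⁻¹) ha)
    have h3 := Set.smul_mem_smul_set (a := g) this
    simpa using h3
  rcases MulAction.IsPreprimitive.isTrivialBlock_of_isBlock hblock with h | h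
  · left
    rw [eq_bot_iff]
    intro k hk
    have := h (Set.mem_image_of_mem S.e hk) (Set.mem_image_of_mem S.e (M.one_mem))
    rw [Subgroup.mem_bot]
    exact S.e.injective this
  · right
    rw [eq_top_iff]
    intro k _
    have : S.e k ∈ S.e '' (M : Set K) := by rw [h]; trivial
    obtain ⟨k', hk', hkk⟩ := this
    rwa [← S.e.injective hkk]

/-- the subgroup generated by an invariant set is invariant. -/
lemma Inv.closure {T : Set K} (hT : S.Inv T) :
    S.Inv ((Subgroup.closure T : Subgroup K) : Set K) := by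
  intro x hx k hk
  have key : ∀ k ∈ Subgroup.closure T, ∀ x : G, S.act x 1 = 1 →
      S.act x k ∈ Subgroup.closure T := by
    intro k hk
    induction hk using Subgroup.closure_induction with
    | mem t ht => intro x hx; exact Subgroup.subset_closure (hT x hx t ht)
    | one => intro x hx; rw [hx]; exact Subgroup.one_mem _
    | mul a b _ _ iha ihb =>
      intro x hx
      obtain ⟨y, hy1, hy⟩ := S.L0 x a
      rw [hy b]
      exact Subgroup.mul_mem _ (iha x hx) (ihb y hy1)
    | inv a _ iha =>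
      intro x hx
      obtain ⟨y, hy1, hy⟩ := S.L0 x a⁻¹
      have h1 := hy a
      rw [inv_mul_cancel, hx] at h1
      have : S.act x a⁻¹ = (S.act y a)⁻¹ := eq_inv_of_mul_eq_one_left h1.symm
      rw [this]
      exact Subgroup.inv_mem _ (iha y hy1)
  exact key k hk x hx

/-- the left stabilizer of a finite invariant set is an invariant subgroup. -/
lemma stab_trivial [MulAction.IsPreprimitive G Ω] [Finite K] {T : Set K} (hT : S.Inv T)
    (hne : T.Nonempty) (huniv : T ≠ Set.univ) (h : K) (hh : ∀ x ∈ T, h * x ∈ T) : h = 1 := by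
  -- the stabilizer as a subgroup
  have hinvmem : ∀ k : K, (∀ x ∈ T, k * x ∈ T) → ∀ x ∈ T, k⁻¹ * x ∈ T := by
    intro k hk x hx
    let F : T → T := fun y => ⟨k * y.1, hk y.1 y.2⟩
    have hFinj : Function.Injective F := fun a b hab =>
      Subtype.ext (mul_left_cancel (congrArg Subtype.val hab))
    obtain ⟨y, hy⟩ := (Finite.injective_iff_surjective.1 hFinj) ⟨x, hx⟩
    have hyx : k * y.1 = x := congrArg Subtype.val hy
    have : k⁻¹ * x = y.1 := by rw [← hyx]; simp
    rw [this]; exact y.2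
  let M : Subgroup K :=
    { carrier := {k | ∀ x ∈ T, k * x ∈ T}
      mul_mem' := by
        intro a b ha hb x hx
        rw [mul_assoc]
        exact ha _ (hb x hx)
      one_mem' := by intro x hx; rwa [one_mul]
      inv_mem' := by intro k hk; exact hinvmem k hk }
  have hMinv : S.Inv (M : Set K) := by
    intro g hg k hk x hx
    obtain ⟨y, hy1, hy⟩ := S.L0 g k
    have hb : S.act y⁻¹ x ∈ T := hT y⁻¹ (act_inv_one hy1) x hx
    have h1 := hy (S.act y⁻¹ x)
    rw [act_act_inv] at h1
    rw [← h1]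
    exact hT g hg _ (hk _ hb)
  rcases prim_subgroup M hMinv with hM | hM
  · have : h ∈ M := hh
    rw [hM, Subgroup.mem_bot] at this
    exact this
  · exfalso
    apply huniv
    obtain ⟨x₀, hx₀⟩ := hne
    ext z
    simp only [Set.mem_univ, iff_true]
    have : z * x₀⁻¹ ∈ M := by rw [hM]; trivial
    have := this x₀ hx₀
    simpa using this

end RSetup

/-- transitivity of the stabilizer of `1` on non-identity elements gives 2-transitivity. -/
lemma two_trans_of {G Ω K : Type*} [Group G] [MulAction G Ω] [Group K] (S : RSetup G Ω K)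
    (h : ∀ i j : K, i ≠ 1 → j ≠ 1 → S.rel i j) :
    MulAction.IsMultiplyPretransitive G Ω 2 := by
  rw [MulAction.isMultiplyPretransitive_iff]
  intro a b
  set i₀ := S.e.symm (a 0) with hi₀
  set i₁ := S.e.symm (a 1) with hi₁
  set j₀ := S.e.symm (b 0) with hj₀
  set j₁ := S.e.symm (b 1) with hj₁
  have hi : i₀⁻¹ * i₁ ≠ 1 := by
    intro h0
    have h1 : i₁ = i₀ := by
      have := congrArg (fun t => i₀ * t) h0
      simpa using this
    have h2 : a 1 = a 0 := S.e.symm.injective h1
    have := a.injective h2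
    exact absurd this (by decide)
  have hj : j₀⁻¹ * j₁ ≠ 1 := by
    intro h0
    have h1 : j₁ = j₀ := by
      have := congrArg (fun t => j₀ * t) h0
      simpa using this
    have h2 : b 1 = b 0 := S.e.symm.injective h1
    have := b.injective h2
    exact absurd this (by decide)
  obtain ⟨x, hx1, hx⟩ := h _ _ hi hj
  refine ⟨S.ι j₀ * x * (S.ι i₀)⁻¹, ?_⟩
  have hg0 : S.act (S.ι j₀ * x * (S.ι i₀)⁻¹) i₀ = j₀ := by
    rw [RSetup.act_mul, RSetup.act_mul, ← map_inv, RSetup.act_ι, RSetup.act_ι, inv_mul_cancel,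
      hx1, mul_one]
  have hg1 : S.act (S.ι j₀ * x * (S.ι i₀)⁻¹) i₁ = j₁ := by
    rw [RSetup.act_mul, RSetup.act_mul, ← map_inv, RSetup.act_ι, RSetup.act_ι, hx,
      mul_inv_cancel_left]
  ext k
  rw [Function.Embedding.smul_apply]
  have ha0 : a 0 = S.e i₀ := by rw [hi₀]; simp
  have ha1 : a 1 = S.e i₁ := by rw [hi₁]; simp
  have hb0 : b 0 = S.e j₀ := by rw [hj₀]; simp
  have hb1 : b 1 = S.e j₁ := by rw [hj₁]; simp
  fin_cases k
  · show (S.ι j₀ * x * (S.ι i₀)⁻¹) • a 0 = b 0
    rw [ha0, hb0, ← S.e_act, hg0]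
  · show (S.ι j₀ * x * (S.ι i₀)⁻¹) • a 1 = b 1
    rw [ha1, hb1, ← S.e_act, hg1]

/-- building a setup from a regular subgroup isomorphic to `K`. -/
lemma exists_rsetup {G Ω K : Type*} [Group G] [MulAction G Ω] [Group K] (D : Subgroup G)
    (φ : ↥D ≃* K) (ω : Ω) (htr : MulAction.IsPretransitive ↥D Ω)
    (hst : ∀ a : Ω, MulAction.stabilizer ↥D a = ⊥) : Nonempty (RSetup G Ω K) := by
  have hinj : Function.Injective (fun h : K => ((φ.symm h : ↥D) : G) • ω) := by
    intro h h' hhh
    have h1 : ((φ.symm h')⁻¹ * φ.symm h : ↥D) ∈ MulAction.stabilizer ↥D ω := by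
      rw [MulAction.mem_stabilizer_iff]
      have e1 : (φ.symm h : ↥D) • ω = (φ.symm h' : ↥D) • ω := hhh
      rw [mul_smul, e1, inv_smul_smul]
    rw [hst ω, Subgroup.mem_bot, inv_mul_eq_one] at h1
    exact φ.symm.injective h1.symm
  have hsurj : Function.Surjective (fun h : K => ((φ.symm h : ↥D) : G) • ω) := by
    intro a
    obtain ⟨d, hd⟩ := MulAction.exists_smul_eq ↥D ω a
    refine ⟨φ d, ?_⟩
    show ((φ.symm (φ d) : ↥D) : G) • ω = a
    rw [MulEquiv.symm_apply_apply]
    exact hd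
  refine ⟨{ ι := D.subtype.comp φ.symm.toMonoidHom
            e := Equiv.ofBijective _ ⟨hinj, hsurj⟩
            he := ?_ }⟩
  intro k h
  show ((φ.symm k : ↥D) : G) • (((φ.symm h : ↥D) : G) • ω) = ((φ.symm (k * h) : ↥D) : G) • ω
  rw [map_mul, Subgroup.coe_mul, mul_smul]

variable {n : ℕ} [NeZero n]

/-- the Schur ring of a regular setup in a primitive group. -/
noncomputable def psrOf {G Ω : Type*} [Group G] [MulAction G Ω]
    [MulAction.IsPreprimitive G Ω] (S : RSetup G Ω (DihedralGroup n)) : PSR n where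
  rel := S.rel
  equiv := ⟨RSetup.rel_refl, RSetup.rel_symm, RSetup.rel_trans⟩
  one_class := fun _ hh => RSetup.rel_one hh
  inv_closed := fun _ _ hh => RSetup.rel_inv hh
  conv_closed := by
    rintro f g hf hg h h' ⟨γ, hγ1, rfl⟩
    show (∑ x : DihedralGroup n, f x * g (x⁻¹ * h)) =
      ∑ x : DihedralGroup n, f x * g (x⁻¹ * S.act γ h)
    rw [← Equiv.sum_comp (S.actEquiv γ) (fun x => f x * g (x⁻¹ * S.act γ h))]
    apply Finset.sum_congr rfl
    intro x _
    obtain ⟨y, hy1, hy⟩ := S.L0 γ x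
    have h1 : S.act γ h = S.act γ x * S.act y (x⁻¹ * h) := by
      have := hy (x⁻¹ * h)
      rwa [mul_inv_cancel_left] at this
    rw [RSetup.actEquiv_apply, h1, inv_mul_cancel_left,
      hf x (S.act γ x) ⟨γ, hγ1, rfl⟩, hg (x⁻¹ * h) (S.act y (x⁻¹ * h)) ⟨y, hy1, rfl⟩]
  gen := by
    intro T hT ⟨h, hhT, hh1⟩
    have hinv := (RSetup.inv_of_rel_closed hT).closure
    rcases RSetup.prim_subgroup _ hinv with hbot | htop
    · exfalso
      have : h ∈ Subgroup.closure T := Subgroup.subset_closure hhT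
      rw [hbot, Subgroup.mem_bot] at this
      exact hh1 this
    · exact htop
  stab := by
    intro T hT hne huniv h hh
    exact RSetup.stab_trivial (RSetup.inv_of_rel_closed hT) hne huniv h hh

lemma psrOf_rel {G Ω : Type*} [Group G] [MulAction G Ω]
    [MulAction.IsPreprimitive G Ω] (S : RSetup G Ω (DihedralGroup n)) :
    (psrOf S).rel = S.rel := rfl

/-- **S3572-FG**: a primitive group with a regular dihedral subgroup carries a primitive Schur
ring over the dihedral group whose triviality gives 2-transitivity. -/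
theorem exists_PSR_of_regular {G Ω : Type*} [Group G] [Finite G] [MulAction G Ω]
    [FaithfulSMul G Ω] [Finite Ω] (hprim : MulAction.IsPreprimitive G Ω) (D : Subgroup G)
    (hD : Nonempty (↥D ≃* DihedralGroup n))
    (hDreg : MulAction.IsPretransitive ↥D Ω ∧ ∀ a : Ω, MulAction.stabilizer ↥D a = ⊥) :
    ∃ P : PSR n, P.Triv → MulAction.IsMultiplyPretransitive G Ω 2 := by
  obtain ⟨φ⟩ := hD
  -- `Ω` is nonempty
  have hΩ : Nonempty Ω := by
    by_contra hcon
    rw [not_nonempty_iff] at hcon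
    have hsub : ∀ a b : G, a = b := fun a b => eq_of_smul_eq_smul (α := Ω) (fun x => isEmptyElim x)
    have h1 : φ.symm (DihedralGroup.sr 0) = φ.symm (DihedralGroup.r 0) :=
      Subtype.ext (hsub _ _)
    have h2 := φ.symm.injective h1
    cases h2
  obtain ⟨ω⟩ := hΩ
  obtain ⟨S⟩ := exists_rsetup D φ ω hDreg.1 hDreg.2
  refine ⟨psrOf S, fun htriv => two_trans_of S ?_⟩
  intro i j hi hj
  exact htriv i j hi hj

end Cfsg.Agent.H71.Dih
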