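import Mathlib
import Cfsg.Agent.H1.SZConj
import Cfsg.Agent.H14.Cores

set_option autoImplicit false

namespace Cfsg.Agent.H71

open Pointwise

section basics
variable {G : Type*} [Group G]

theorem mem_map_conj_iff (H : Subgroup G) (g z : G) :
    z ∈ H.map (MulAut.conj g).toMonoidHom ↔ g⁻¹ * z * g ∈ H := by
  constructor
  · rintro ⟨h, hh, rfl⟩
    have : g⁻¹ * ((MulAut.conj g).toMonoidHom h) * g = h := by
      show g⁻¹ * (g * h * g⁻¹) * g = h
      group
    rw [this]; exact hh
  · intro h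
    refine ⟨g⁻¹ * z * g, h, ?_⟩
    show g * (g⁻¹ * z * g) * g⁻¹ = z
    group

theorem map_conj_eq_of_normal (N : Subgroup G) [hN : N.Normal] (g : G) :
    N.map (MulAut.conj g).toMonoidHom = N := by
  ext z
  rw [mem_map_conj_iff]
  constructor
  · intro h
    have := hN.conj_mem _ h g
    simpa [mul_assoc] using this
  · intro h
    have := hN.conj_mem _ h g⁻¹
    simpa [mul_assoc] using this

theorem map_conj_map_conj (H : Subgroup G) (x y : G) :
    (H.map (MulAut.conj x).toMonoidHom).map (MulAut.conj y).toMonoidHom =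
      H.map (MulAut.conj (y * x)).toMonoidHom := by
  ext z
  rw [mem_map_conj_iff, mem_map_conj_iff, mem_map_conj_iff]
  have : x⁻¹ * (y⁻¹ * z * y) * x = (y * x)⁻¹ * z * (y * x) := by group
  rw [this]

theorem card_map_conj (H : Subgroup G) (g : G) :
    Nat.card (H.map (MulAut.conj g).toMonoidHom) = Nat.card H :=
  Subgroup.card_map_of_injective (MulAut.conj g).injective

theorem map_conj_mono {H K : Subgroup G} (h : H ≤ K) (g : G) :
    H.map (MulAut.conj g).toMonoidHom ≤ K.map (MulAut.conj g).toMonoidHom :=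
  Subgroup.map_mono h

theorem map_conj_inf (H K : Subgroup G) (g : G) :
    (H ⊓ K).map (MulAut.conj g).toMonoidHom =
      H.map (MulAut.conj g).toMonoidHom ⊓ K.map (MulAut.conj g).toMonoidHom :=
  Subgroup.map_inf H K _ (MulAut.conj g).injective

theorem eq_map_conj_symm {H K : Subgroup G} {g : G}
    (h : K.map (MulAut.conj g).toMonoidHom = H) : K = H.map (MulAut.conj g⁻¹).toMonoidHom := by
  rw [← h, map_conj_map_conj, inv_mul_cancel]
  ext z
  rw [mem_map_conj_iff]
  simp

theorem card_map_mk' (N : Subgroup G) [N.Normal] (H : Subgroup G) :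
    Nat.card (H.map (QuotientGroup.mk' N)) = N.relIndex H := by
  rw [← Subgroup.relIndex_bot_left, ← Subgroup.relIndex_comap, MonoidHom.comap_bot,
    QuotientGroup.ker_mk']

theorem card_inf_mul_relIndex (N H : Subgroup G) :
    Nat.card (N ⊓ H : Subgroup G) * N.relIndex H = Nat.card H := by
  have h := Subgroup.relIndex_inf_mul_relIndex (⊥ : Subgroup G) N H
  rw [Subgroup.relIndex_bot_left, bot_inf_eq, Subgroup.relIndex_bot_left] at h
  exact h

/-- `|π(H)| * |H ∩ N| = |H|`. -/
theorem card_map_mk'_mul (N : Subgroup G) [N.Normal] (H : Subgroup G) :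
    Nat.card (H.map (QuotientGroup.mk' N)) * Nat.card (N ⊓ H : Subgroup G) = Nat.card H := by
  rw [card_map_mk', mul_comm]
  exact card_inf_mul_relIndex N H

/-- Lifting a conjugacy in the quotient. -/
theorem conj_sup_of_quot (N : Subgroup G) [N.Normal] (H K : Subgroup G) (x : G)
    (h : K.map (QuotientGroup.mk' N) =
      (H.map (QuotientGroup.mk' N)).map (MulAut.conj (QuotientGroup.mk' N x)).toMonoidHom) :
    K ⊔ N = H.map (MulAut.conj x).toMonoidHom ⊔ N := by
  have h1 : (H.map (QuotientGroup.mk' N)).map (MulAut.conj (QuotientGroup.mk' N x)).toMonoidHom =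
      (H.map (MulAut.conj x).toMonoidHom).map (QuotientGroup.mk' N) := by
    ext z
    constructor
    · rintro ⟨_, ⟨a, ha, rfl⟩, rfl⟩
      refine ⟨x * a * x⁻¹, ⟨a, ha, rfl⟩, ?_⟩
      show QuotientGroup.mk' N (x * a * x⁻¹) =
        QuotientGroup.mk' N x * QuotientGroup.mk' N a * (QuotientGroup.mk' N x)⁻¹
      rw [map_mul, map_mul, map_inv]
    · rintro ⟨_, ⟨a, ha, rfl⟩, rfl⟩
      refine ⟨QuotientGroup.mk' N a, ⟨a, ha, rfl⟩, ?_⟩
      show QuotientGroup.mk' N x * QuotientGroup.mk' N a * (QuotientGroup.mk' N x)⁻¹ =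
        QuotientGroup.mk' N (x * a * x⁻¹)
      rw [map_mul, map_mul, map_inv]
  rw [h1] at h
  have h2 := congrArg (Subgroup.comap (QuotientGroup.mk' N)) h
  rw [Subgroup.comap_map_eq, Subgroup.comap_map_eq, QuotientGroup.ker_mk'] at h2
  exact h2

end basics

universe u

/-- Schur–Zassenhaus conjugacy, ambient form: two subgroups of the same order coprime to `|N|`
with the same product with the solvable normal subgroup `N` are conjugate. -/
theorem conj_of_coprime_sup_eq {X : Type u} [Group X] [Finite X] (N : Subgroup X) [hN : N.Normal]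
    (hNs : Group.IsSolvable N) (H K : Subgroup X) (hsup : H ⊔ N = K ⊔ N)
    (hcard : Nat.card H = Nat.card K) (hcop : (Nat.card H).Coprime (Nat.card N)) :
    ∃ x : X, K = H.map (MulAut.conj x).toMonoidHom := by
  have hHL : H ≤ H ⊔ N := le_sup_left
  have hNL : N ≤ H ⊔ N := le_sup_right
  have hKL : K ≤ H ⊔ N := by rw [hsup]; exact le_sup_left
  have hN' : (N.subgroupOf (H ⊔ N)).Normal := hN.subgroupOf (H ⊔ N)
  have c1 : Nat.card (N.subgroupOf (H ⊔ N)) = Nat.card N :=
    Nat.card_congr (Subgroup.subgroupOfEquivOfLe hNL).toEquiv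
  have c2 : Nat.card (H.subgroupOf (H ⊔ N)) = Nat.card H :=
    Nat.card_congr (Subgroup.subgroupOfEquivOfLe hHL).toEquiv
  have c3 : Nat.card (K.subgroupOf (H ⊔ N)) = Nat.card K :=
    Nat.card_congr (Subgroup.subgroupOfEquivOfLe hKL).toEquiv
  have hinf : N ⊓ H = ⊥ := (Subgroup.disjoint_of_coprime_natCard hcop.symm).eq_bot
  have cL : Nat.card (H ⊔ N : Subgroup X) = Nat.card N * Nat.card H := by
    have h1 := H14.card_sup_of_normal_left N H
    have h2 := card_inf_mul_relIndex N H
    rw [hinf, Subgroup.card_bot, one_mul] at h2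
    rw [sup_comm, h1, h2]
  have hidx : (N.subgroupOf (H ⊔ N)).index = Nat.card H := by
    have h3 := Subgroup.card_mul_index (N.subgroupOf (H ⊔ N))
    rw [c1, cL] at h3
    exact Nat.eq_of_mul_eq_mul_left Nat.card_pos h3
  have hcop' : (Nat.card (N.subgroupOf (H ⊔ N))).Coprime (N.subgroupOf (H ⊔ N)).index := by
    rw [c1, hidx]; exact hcop.symm
  have hsolv : Group.IsSolvable (N.subgroupOf (H ⊔ N)) :=
    Group.isSolvable_of_surjective (f := (Subgroup.subgroupOfEquivOfLe hNL).symm.toMonoidHom)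
      (Subgroup.subgroupOfEquivOfLe hNL).symm.surjective
  obtain ⟨l, hl⟩ := H1.sz_conj_card (N.subgroupOf (H ⊔ N)) (H.subgroupOf (H ⊔ N))
    (K.subgroupOf (H ⊔ N)) hcop' (Or.inl hsolv) (by rw [c2, hidx]) (by rw [c3, hidx, hcard])
  refine ⟨(l : X), ?_⟩
  ext z
  rw [mem_map_conj_iff]
  constructor
  · intro hz
    have hzL : z ∈ H ⊔ N := hKL hz
    have h1 : (⟨z, hzL⟩ : (H ⊔ N : Subgroup X)) ∈ K.subgroupOf (H ⊔ N) := by
      rw [Subgroup.mem_subgroupOf]; exact hz
    rw [← hl, H1.mem_conj_smul_iff, Subgroup.mem_subgroupOf] at h1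
    exact h1
  · intro hz
    have hzL : z ∈ H ⊔ N := by
      have h4 : z = (l : X) * ((l : X)⁻¹ * z * (l : X)) * (l : X)⁻¹ := by group
      rw [h4]
      exact (H ⊔ N).mul_mem ((H ⊔ N).mul_mem l.2 (hHL hz)) ((H ⊔ N).inv_mem l.2)
    have h1 : (⟨z, hzL⟩ : (H ⊔ N : Subgroup X)) ∈ MulAut.conj l • H.subgroupOf (H ⊔ N) := by
      rw [H1.mem_conj_smul_iff, Subgroup.mem_subgroupOf]
      exact hz
    rw [hl, Subgroup.mem_subgroupOf] at h1
    exact h1

end Cfsg.Agent.H71
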