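import Mathlib
import Cfsg.Agent.H71.EqOrdA
import Cfsg.Agent.H29.Basic
import Cfsg.Agent.H71.SylowConj

set_option autoImplicit false

namespace Cfsg.Agent.H71

/-- Any two `p`-subgroups of the same order are conjugate, for every prime `p`. -/
def DProp (G : Type*) [Group G] : Prop :=
  ∀ p : ℕ, p.Prime → ∀ H K : Subgroup G, IsPGroup p H → IsPGroup p K →
    Nat.card H = Nat.card K → ∃ g : G, K = H.map (MulAut.conj g).toMonoidHom

/-- Every `p`-subgroup is cyclic. -/
def CycP (p : ℕ) (G : Type*) [Group G] : Prop := ∀ Q : Subgroup G, IsPGroup p Q → IsCyclic Q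

theorem cycP_of_sylow {G : Type*} [Group G] [Finite G] {p : ℕ} [Fact p.Prime]
    (h : ∀ P : Sylow p G, IsCyclic P) : CycP p G := by
  intro Q hQ
  obtain ⟨P, hP⟩ := hQ.exists_le_sylow
  have := h P
  exact Subgroup.isCyclic_of_le hP

theorem cycP_subgroup {G : Type*} [Group G] {p : ℕ} (h : CycP p G) (M : Subgroup G) :
    CycP p M := by
  intro Q hQ
  have h1 : IsCyclic (Q.map M.subtype) := h _ (hQ.map M.subtype)
  exact isCyclic_of_surjective (Q.equivMapOfInjective M.subtype M.subtype_injective).symm.toMonoidHom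
    (Q.equivMapOfInjective M.subtype M.subtype_injective).symm.surjective

theorem map_mk'_map_conj {G : Type*} [Group G] (N : Subgroup G) [N.Normal] (H : Subgroup G)
    (x : G) :
    (H.map (MulAut.conj x).toMonoidHom).map (QuotientGroup.mk' N) =
      (H.map (QuotientGroup.mk' N)).map (MulAut.conj (QuotientGroup.mk' N x)).toMonoidHom := by
  ext z
  constructor
  · rintro ⟨_, ⟨a, ha, rfl⟩, rfl⟩
    refine ⟨QuotientGroup.mk' N a, ⟨a, ha, rfl⟩, ?_⟩
    show QuotientGroup.mk' N x * QuotientGroup.mk' N a * (QuotientGroup.mk' N x)⁻¹ =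
      QuotientGroup.mk' N (x * a * x⁻¹)
    rw [map_mul, map_mul, map_inv]
  · rintro ⟨_, ⟨a, ha, rfl⟩, rfl⟩
    refine ⟨x * a * x⁻¹, ⟨a, ha, rfl⟩, ?_⟩
    show QuotientGroup.mk' N (x * a * x⁻¹) =
      QuotientGroup.mk' N x * QuotientGroup.mk' N a * (QuotientGroup.mk' N x)⁻¹
    rw [map_mul, map_mul, map_inv]

/-- A `p`-subgroup of a quotient is the image of a `p`-subgroup of a canonical order. -/
theorem exists_pgroup_map_eq {G : Type*} [Group G] [Finite G] (N : Subgroup G) [N.Normal] {p : ℕ}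
    [hp : Fact p.Prime] (Hb : Subgroup (G ⧸ N)) (h : IsPGroup p Hb) :
    ∃ P : Subgroup G, IsPGroup p P ∧ P.map (QuotientGroup.mk' N) = Hb ∧
      Nat.card P = p ^ ((Nat.card Hb * Nat.card N).factorization p) := by
  classical
  have hNX : N ≤ Hb.comap (QuotientGroup.mk' N) := by
    intro n hn
    rw [Subgroup.mem_comap, QuotientGroup.mk'_apply, (QuotientGroup.eq_one_iff n).2 hn]
    exact Hb.one_mem
  have hXmap : (Hb.comap (QuotientGroup.mk' N)).map (QuotientGroup.mk' N) = Hb :=
    Subgroup.map_comap_eq_self_of_surjective (QuotientGroup.mk'_surjective N) Hb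
  have cX : Nat.card (Hb.comap (QuotientGroup.mk' N)) = Nat.card Hb * Nat.card N := by
    have h1 := card_map_mk'_mul N (Hb.comap (QuotientGroup.mk' N))
    rw [hXmap, inf_eq_left.2 hNX] at h1
    exact h1.symm
  obtain ⟨P₀⟩ : Nonempty (Sylow p (Hb.comap (QuotientGroup.mk' N))) := inferInstance
  refine ⟨(P₀ : Subgroup (Hb.comap (QuotientGroup.mk' N))).map
    (Hb.comap (QuotientGroup.mk' N)).subtype, P₀.isPGroup'.map _, ?_, ?_⟩
  · have hf : Function.Surjective ((QuotientGroup.mk' N).subgroupComap Hb) :=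
      MonoidHom.subgroupComap_surjective_of_surjective _ _ (QuotientGroup.mk'_surjective N)
    have h2 : ((P₀.mapSurjective hf : Sylow p Hb) : Subgroup Hb) = ⊤ := by
      apply Subgroup.eq_top_of_card_eq
      rw [Sylow.card_eq_multiplicity]
      obtain ⟨a, ha⟩ := IsPGroup.iff_card.1 h
      rw [ha, Nat.factorization_pow_self hp.out]
    rw [Sylow.coe_mapSurjective] at h2
    apply le_antisymm
    · rintro _ ⟨_, ⟨x, hx, rfl⟩, rfl⟩
      exact x.2
    · intro y hy
      have h3 : (⟨y, hy⟩ : Hb) ∈ (P₀ : Subgroup (Hb.comap (QuotientGroup.mk' N))).map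
          ((QuotientGroup.mk' N).subgroupComap Hb) := by rw [h2]; exact Subgroup.mem_top _
      obtain ⟨x, hx, hxy⟩ := h3
      refine ⟨x.1, ⟨x, hx, rfl⟩, ?_⟩
      exact congrArg Subtype.val hxy
  · rw [Subgroup.card_map_of_injective (Subgroup.subtype_injective _), Sylow.card_eq_multiplicity,
      cX]

theorem dProp_quotient {G : Type*} [Group G] [Finite G] (hD : DProp G) (N : Subgroup G)
    [N.Normal] : DProp (G ⧸ N) := by
  intro p hp Hb Kb hHb hKb hcard
  have hpf : Fact p.Prime := ⟨hp⟩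
  obtain ⟨P, hP, hPm, hPc⟩ := exists_pgroup_map_eq N Hb hHb
  obtain ⟨Q, hQ, hQm, hQc⟩ := exists_pgroup_map_eq N Kb hKb
  obtain ⟨g, hg⟩ := hD p hp P Q hP hQ (by rw [hPc, hQc, hcard])
  refine ⟨QuotientGroup.mk' N g, ?_⟩
  rw [← hPm, ← hQm, hg, map_mk'_map_conj]

theorem cycP_quotient {G : Type*} [Group G] [Finite G] {p : ℕ} [Fact p.Prime] (h : CycP p G)
    (N : Subgroup G) [N.Normal] : CycP p (G ⧸ N) := by
  intro Qb hQb
  obtain ⟨P, hP, hPm, -⟩ := exists_pgroup_map_eq N Qb hQb
  have hc : IsCyclic P := h P hP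
  subst hPm
  exact isCyclic_of_surjective ((QuotientGroup.mk' N).subgroupMap P)
    ((QuotientGroup.mk' N).subgroupMap_surjective P)

/-- A finite group all of whose `p`-subgroups are cyclic (all `p`) has the D-property. -/
theorem dProp_of_cycP {E : Type*} [Group E] [Finite E] (h : ∀ p : ℕ, p.Prime → CycP p E) :
    DProp E := by
  intro p hp H K hH hK hcard
  have hpf : Fact p.Prime := ⟨hp⟩
  obtain ⟨P, hHP⟩ := hH.exists_le_sylow
  obtain ⟨P', hKP'⟩ := hK.exists_le_sylow
  obtain ⟨g, hg⟩ := MulAction.exists_smul_eq E P' P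
  have hK' : K.map (MulAut.conj g).toMonoidHom ≤ P := by
    intro z hz
    rw [mem_map_conj_iff] at hz
    have h1 := hKP' hz
    have h2 : z ∈ g • P' := (mem_smul_sylow_iff g P' z).2 h1
    rw [hg] at h2
    exact h2
  have hPc : IsCyclic (P : Subgroup E) := h p hp P P.isPGroup'
  have heq : H.subgroupOf P = (K.map (MulAut.conj g).toMonoidHom).subgroupOf P := by
    apply H29.eq_of_card_eq_of_isCyclic
    rw [Nat.card_congr (Subgroup.subgroupOfEquivOfLe hHP).toEquiv,
      Nat.card_congr (Subgroup.subgroupOfEquivOfLe hK').toEquiv, card_map_conj, hcard]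
  have heq' : H = K.map (MulAut.conj g).toMonoidHom := by
    have h3 := congrArg (Subgroup.map (P : Subgroup E).subtype) heq
    rw [Subgroup.subgroupOf_map_subtype, Subgroup.subgroupOf_map_subtype, inf_eq_left.2 hHP,
      inf_eq_left.2 hK'] at h3
    exact h3
  exact ⟨g⁻¹, eq_map_conj_symm heq'.symm⟩

end Cfsg.Agent.H71
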