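import Mathlib
import Cfsg.Agent.H71.EqOrdB
import Cfsg.Agent.H71.RealInv
import Cfsg.Agent.H71.SylowMisc

set_option autoImplicit false

namespace Cfsg.Agent.H71

universe u

/-- Transport of a conjugacy from a subgroup to the ambient group. -/
theorem conj_of_subgroupOf {G : Type*} [Group G] (M H K : Subgroup G) (hH : H ≤ M) (hK : K ≤ M)
    (x : M) (h : K.subgroupOf M = (H.subgroupOf M).map (MulAut.conj x).toMonoidHom) :
    K = H.map (MulAut.conj (x : G)).toMonoidHom := by
  ext z
  rw [mem_map_conj_iff]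
  constructor
  · intro hz
    have h1 : (⟨z, hK hz⟩ : M) ∈ K.subgroupOf M := by rw [Subgroup.mem_subgroupOf]; exact hz
    rw [h, mem_map_conj_iff, Subgroup.mem_subgroupOf] at h1
    exact h1
  · intro hz
    have hzM : z ∈ M := by
      have h4 : z = (x : G) * ((x : G)⁻¹ * z * (x : G)) * (x : G)⁻¹ := by group
      rw [h4]
      exact M.mul_mem (M.mul_mem x.2 (hH hz)) (M.inv_mem x.2)
    have h1 : (⟨z, hzM⟩ : M) ∈ (H.subgroupOf M).map (MulAut.conj x).toMonoidHom := by
      rw [mem_map_conj_iff, Subgroup.mem_subgroupOf]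
      exact hz
    rw [← h, Subgroup.mem_subgroupOf] at h1
    exact h1

/-- The final step: two subgroups with the same intersection `A` with an abelian normal subgroup
`N`, where `A` is normal, of the same order, of index in them coprime to `|N|`, are conjugate
provided equal-order subgroups of the quotient by `N` are conjugate. -/
theorem conj_of_common_inf {X : Type u} [Group X] [Finite X] (N : Subgroup X) [hN : N.Normal]
    (hNab : ∀ a ∈ N, ∀ b ∈ N, a * b = b * a)
    (A : Subgroup X) [hA : A.Normal] (H K : Subgroup X)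
    (hHA : N ⊓ H = A) (hKA : N ⊓ K = A) (hcard : Nat.card H = Nat.card K)
    (hcop : ∀ m : ℕ, m * Nat.card A = Nat.card H → m.Coprime (Nat.card N))
    (hQ : ∀ H' K' : Subgroup (X ⧸ N), Nat.card H' = Nat.card K' →
      ∃ x : X ⧸ N, K' = H'.map (MulAut.conj x).toMonoidHom) :
    ∃ x : X, K = H.map (MulAut.conj x).toMonoidHom := by
  have hAK : A ≤ K := hKA ▸ inf_le_right
  have c1 : Nat.card (H.map (QuotientGroup.mk' N)) = Nat.card (K.map (QuotientGroup.mk' N)) := by
    have h1 := card_map_mk'_mul N H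
    have h2 := card_map_mk'_mul N K
    rw [hHA] at h1
    rw [hKA] at h2
    exact Nat.eq_of_mul_eq_mul_right Nat.card_pos (by rw [h1, h2, hcard])
  obtain ⟨xb, hxb⟩ := hQ _ _ c1
  obtain ⟨x, rfl⟩ := QuotientGroup.mk'_surjective N xb
  have hsup := conj_sup_of_quot N H K x hxb
  have hH₁A : N ⊓ H.map (MulAut.conj x).toMonoidHom = A := by
    have h3 := map_conj_inf N H x
    rw [hHA, map_conj_eq_of_normal A x, map_conj_eq_of_normal N x] at h3
    exact h3.symm
  have hAH₁ : A ≤ H.map (MulAut.conj x).toMonoidHom := hH₁A ▸ inf_le_right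
  have cH₁ : Nat.card (H.map (MulAut.conj x).toMonoidHom) = Nat.card H := card_map_conj H x
  have hNY : (N.map (QuotientGroup.mk' A)).Normal :=
    Subgroup.Normal.map hN _ (QuotientGroup.mk'_surjective A)
  have hNYs : Group.IsSolvable (N.map (QuotientGroup.mk' A)) := by
    have hNs : Group.IsSolvable N :=
      Group.isSolvable_of_comm (fun a b => Subtype.ext (hNab a.1 a.2 b.1 b.2))
    exact Group.isSolvable_of_surjective ((QuotientGroup.mk' A).subgroupMap_surjective N)
  have hsupY : (H.map (MulAut.conj x).toMonoidHom).map (QuotientGroup.mk' A) ⊔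
      N.map (QuotientGroup.mk' A) =
      K.map (QuotientGroup.mk' A) ⊔ N.map (QuotientGroup.mk' A) := by
    rw [← Subgroup.map_sup, ← Subgroup.map_sup, hsup]
  have e1 : Nat.card ((H.map (MulAut.conj x).toMonoidHom).map (QuotientGroup.mk' A)) *
      Nat.card A = Nat.card H := by
    have h1 := card_map_mk'_mul A (H.map (MulAut.conj x).toMonoidHom)
    rw [inf_eq_left.2 hAH₁, cH₁] at h1
    exact h1
  have e2 : Nat.card (K.map (QuotientGroup.mk' A)) * Nat.card A = Nat.card H := by
    have h1 := card_map_mk'_mul A K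
    rw [inf_eq_left.2 hAK, ← hcard] at h1
    exact h1
  have ccard : Nat.card ((H.map (MulAut.conj x).toMonoidHom).map (QuotientGroup.mk' A)) =
      Nat.card (K.map (QuotientGroup.mk' A)) :=
    Nat.eq_of_mul_eq_mul_right Nat.card_pos (e1.trans e2.symm)
  have ccop : (Nat.card ((H.map (MulAut.conj x).toMonoidHom).map (QuotientGroup.mk' A))).Coprime
      (Nat.card (N.map (QuotientGroup.mk' A))) :=
    Nat.Coprime.coprime_dvd_right (Subgroup.card_map_dvd _ _) (hcop _ e1)
  obtain ⟨yb, hyb⟩ :=
    conj_of_coprime_sup_eq (N.map (QuotientGroup.mk' A)) hNYs _ _ hsupY ccard ccop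
  obtain ⟨y, rfl⟩ := QuotientGroup.mk'_surjective A yb
  have hsup2 := conj_sup_of_quot A (H.map (MulAut.conj x).toMonoidHom) K y hyb
  refine ⟨y * x, ?_⟩
  rw [← map_conj_map_conj]
  have h5 : A ≤ (H.map (MulAut.conj x).toMonoidHom).map (MulAut.conj y).toMonoidHom := by
    have h6 := map_conj_mono hAH₁ y
    rw [map_conj_eq_of_normal A y] at h6
    exact h6
  rw [sup_eq_left.2 hAK, sup_eq_left.2 h5] at hsup2
  exact hsup2

end Cfsg.Agent.H71
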