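import Mathlib
import Cfsg.Agent.H71.EqOrdC

set_option autoImplicit false
set_option maxHeartbeats 800000

namespace Cfsg.Agent.H71

universe u

/-- In a finite solvable group with the D-property in which the `p`-subgroups are cyclic for all
primes `p ≠ r`, any two subgroups of the same order are conjugate. -/
theorem eq_order_conj (r : ℕ) (n : ℕ) : ∀ (G : Type u) [Group G] [Finite G] [Group.IsSolvable G],
    Nat.card G = n → DProp G → (∀ p : ℕ, p.Prime → p ≠ r → CycP p G) →
    ∀ H K : Subgroup G, Nat.card H = Nat.card K →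
      ∃ g : G, K = H.map (MulAut.conj g).toMonoidHom := by
  induction n using Nat.strong_induction_on with
  | _ n ih =>
  intro G _ _ _ hG hD hC H K hHK
  classical
  rcases subsingleton_or_nontrivial G with hsub | hnt
  · refine ⟨1, ?_⟩
    rw [Subgroup.eq_bot_of_subsingleton K, Subgroup.eq_bot_of_subsingleton H, Subgroup.map_bot]
  obtain ⟨q, N, hq, hNn, hNbot, hNab, hNexp⟩ := exists_normal_elem_ab (Q := G)
  have hqf : Fact q.Prime := ⟨hq⟩
  have hNq : IsPGroup q N := by
    intro x
    refine ⟨1, ?_⟩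
    rw [pow_one]
    exact Subtype.ext (hNexp x.1 x.2)
  -- all elements of order dividing `q` lie in `N`
  have hall : ∀ x : G, x ^ q = 1 → x ∈ N := by
    intro x hx
    by_cases hx1 : x = 1
    · rw [hx1]; exact N.one_mem
    obtain ⟨⟨y, hyN⟩, hy1⟩ := Subgroup.ne_bot_iff_exists_ne_one.1 hNbot
    have hy1' : y ≠ 1 := fun h => hy1 (Subtype.ext h)
    have hox : orderOf x = q := orderOf_eq_prime hx hx1
    have hoy : orderOf y = q := orderOf_eq_prime (hNexp y hyN) hy1'
    have cx : Nat.card (Subgroup.zpowers x) = q ^ 1 := by rw [Nat.card_zpowers, hox, pow_one]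
    have cy : Nat.card (Subgroup.zpowers y) = q ^ 1 := by rw [Nat.card_zpowers, hoy, pow_one]
    obtain ⟨g, hg⟩ := hD q hq (Subgroup.zpowers y) (Subgroup.zpowers x) (IsPGroup.of_card cy)
      (IsPGroup.of_card cx) (cy.trans cx.symm)
    have h1 : x ∈ (Subgroup.zpowers y).map (MulAut.conj g).toMonoidHom :=
      hg ▸ Subgroup.mem_zpowers x
    have h2 := map_conj_mono ((Subgroup.zpowers_le).2 hyN) g h1
    rw [map_conj_eq_of_normal N g] at h2
    exact h2
  have hcardN : 1 < Nat.card N := (Subgroup.one_lt_card_iff_ne_bot N).2 hNbot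
  by_cases hNc : IsCyclic N
  · -- cyclic case: `|N| = q`
    have hlt : Nat.card (G ⧸ N) < n := by
      have h1 := Subgroup.card_eq_card_quotient_mul_card_subgroup N
      rw [hG] at h1
      have hpos : 0 < Nat.card (G ⧸ N) := Nat.card_pos
      nlinarith
    have cN : Nat.card N = q := by
      obtain ⟨c, hc⟩ := IsCyclic.exists_ofOrder_eq_natCard (α := N)
      have hcq : c ^ q = 1 := Subtype.ext (hNexp c.1 c.2)
      have hc1 : c ≠ 1 := by
        intro h
        rw [h, orderOf_one] at hc
        omega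
      rw [← hc]
      exact orderOf_eq_prime hcq hc1
    have hiff : ∀ S : Subgroup G, q ∣ Nat.card S → N ≤ S := by
      intro S hS
      obtain ⟨z, hz⟩ := exists_prime_orderOf_dvd_card' q hS
      have hz' : orderOf (z : G) = q := by rw [Subgroup.orderOf_coe]; exact hz
      have hzN : (z : G) ∈ N := hall z (by rw [← hz']; exact pow_orderOf_eq_one _)
      have hle : Subgroup.zpowers (z : G) ≤ N := (Subgroup.zpowers_le).2 hzN
      have heq : Subgroup.zpowers (z : G) = N :=
        Subgroup.eq_of_le_of_card_ge hle (by rw [cN, Nat.card_zpowers, hz'])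
      rw [← heq]
      exact (Subgroup.zpowers_le).2 z.2
    have hIH : ∀ H' K' : Subgroup (G ⧸ N), Nat.card H' = Nat.card K' →
        ∃ x, K' = H'.map (MulAut.conj x).toMonoidHom :=
      ih _ hlt (G ⧸ N) rfl (dProp_quotient hD N) (fun p hp hpr => by
        have : Fact p.Prime := ⟨hp⟩
        exact cycP_quotient (hC p hp hpr) N)
    by_cases hqH : q ∣ Nat.card H
    · have hNH : N ≤ H := hiff H hqH
      have hNK : N ≤ K := hiff K (hHK ▸ hqH)
      have c1 : Nat.card (H.map (QuotientGroup.mk' N)) =
          Nat.card (K.map (QuotientGroup.mk' N)) := by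
        have h1 := card_map_mk'_mul N H
        have h2 := card_map_mk'_mul N K
        rw [inf_eq_left.2 hNH] at h1
        rw [inf_eq_left.2 hNK] at h2
        exact Nat.eq_of_mul_eq_mul_right Nat.card_pos (by rw [h1, h2, hHK])
      obtain ⟨xb, hxb⟩ := hIH _ _ c1
      obtain ⟨x, rfl⟩ := QuotientGroup.mk'_surjective N xb
      have hsup := conj_sup_of_quot N H K x hxb
      refine ⟨x, ?_⟩
      have h5 : N ≤ H.map (MulAut.conj x).toMonoidHom := by
        have h6 := map_conj_mono hNH x
        rw [map_conj_eq_of_normal N x] at h6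
        exact h6
      rw [sup_eq_left.2 hNK, sup_eq_left.2 h5] at hsup
      exact hsup
    · have hcopH : (Nat.card H).Coprime (Nat.card N) := by
        rw [cN]
        exact Nat.Coprime.symm ((Nat.Prime.coprime_iff_not_dvd hq).2 hqH)
      have hcopK : (Nat.card K).Coprime (Nat.card N) := hHK ▸ hcopH
      have iH : N ⊓ H = ⊥ := (Subgroup.disjoint_of_coprime_natCard hcopH.symm).eq_bot
      have iK : N ⊓ K = ⊥ := (Subgroup.disjoint_of_coprime_natCard hcopK.symm).eq_bot
      have c1 : Nat.card (H.map (QuotientGroup.mk' N)) =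
          Nat.card (K.map (QuotientGroup.mk' N)) := by
        have h1 := card_map_mk'_mul N H
        have h2 := card_map_mk'_mul N K
        rw [iH, Subgroup.card_bot, mul_one] at h1
        rw [iK, Subgroup.card_bot, mul_one] at h2
        rw [h1, h2, hHK]
      obtain ⟨xb, hxb⟩ := hIH _ _ c1
      obtain ⟨x, rfl⟩ := QuotientGroup.mk'_surjective N xb
      have hsup := conj_sup_of_quot N H K x hxb
      have hNs : Group.IsSolvable N := inferInstance
      obtain ⟨y, hy⟩ := conj_of_coprime_sup_eq N hNs (H.map (MulAut.conj x).toMonoidHom) K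
        hsup.symm (by rw [card_map_conj, hHK]) (by rw [card_map_conj]; exact hcopH)
      exact ⟨y * x, by rw [← map_conj_map_conj]; exact hy⟩
  · -- non-cyclic case
    have hqr : q = r := by
      by_contra hne
      exact hNc (hC q hq hne N hNq)
    have hq2 : q ^ 2 ∣ Nat.card N := by
      obtain ⟨k, hk⟩ := IsPGroup.iff_card.1 hNq
      rcases k with _ | _ | k
      · rw [pow_zero] at hk; omega
      · exfalso
        apply hNc
        rw [zero_add, pow_one] at hk
        exact isCyclic_of_prime_card hk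
      · rw [hk]; exact pow_dvd_pow q (by omega)
    obtain ⟨V₀, hV₀⟩ := Sylow.exists_subgroup_card_pow_prime q hq2
    have hno : ∀ z : G, orderOf z ≠ q ^ 2 := by
      intro z hz
      have cz : Nat.card (Subgroup.zpowers z) = q ^ 2 := by rw [Nat.card_zpowers, hz]
      have cV : Nat.card (V₀.map N.subtype) = q ^ 2 := by
        rw [Subgroup.card_map_of_injective N.subtype_injective, hV₀]
      obtain ⟨g, hg⟩ := hD q hq (Subgroup.zpowers z) (V₀.map N.subtype) (IsPGroup.of_card cz)
        (IsPGroup.of_card cV) (cz.trans cV.symm)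
      have h1 : g * z * g⁻¹ ∈ V₀.map N.subtype := by
        rw [hg]; exact ⟨z, Subgroup.mem_zpowers z, rfl⟩
      have h2 : g * z * g⁻¹ ∈ N := by
        obtain ⟨v, -, hv⟩ := h1
        rw [← hv]; exact v.2
      have h3 := hNexp _ h2
      rw [conj_pow] at h3
      have h4 : z ^ q = 1 := by
        have h5 : z ^ q = g⁻¹ * (g * z ^ q * g⁻¹) * g := by group
        rw [h5, h3]; group
      have h6 := orderOf_dvd_of_pow_eq_one h4
      rw [hz] at h6
      have h7 := Nat.le_of_dvd hq.pos h6
      have h8 := hq.two_le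
      nlinarith
    have hqel : ∀ x : G, (∃ k, orderOf x = q ^ k) → x ∈ N := by
      rintro x ⟨k, hk⟩
      apply hall
      rcases k with _ | _ | k
      · rw [pow_zero] at hk; rw [orderOf_eq_one_iff.1 hk, one_pow]
      · rw [zero_add, pow_one] at hk; rw [← hk]; exact pow_orderOf_eq_one x
      · exfalso
        apply hno (x ^ q ^ k)
        rw [orderOf_pow_of_dvd (pow_ne_zero _ hq.ne_zero)
          (by rw [hk]; exact pow_dvd_pow q (by omega)), hk, Nat.pow_div (by omega) hq.pos]
        congr 1
        omega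
    have hinfcard : ∀ S : Subgroup G,
        Nat.card (N ⊓ S : Subgroup G) = q ^ (Nat.card S).factorization q := by
      intro S
      obtain ⟨Q₀⟩ : Nonempty (Sylow q S) := inferInstance
      have hQle : (Q₀ : Subgroup S).map S.subtype ≤ N ⊓ S := by
        rintro _ ⟨z, hz, rfl⟩
        refine ⟨hqel _ ?_, z.2⟩
        obtain ⟨k, hk⟩ := (IsPGroup.iff_orderOf.1 Q₀.isPGroup') ⟨z, hz⟩
        refine ⟨k, ?_⟩
        rw [← hk, Subgroup.orderOf_mk]
        exact Subgroup.orderOf_coe z
      have c1 : Nat.card ((Q₀ : Subgroup S).map S.subtype) = q ^ (Nat.card S).factorization q := by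
        rw [Subgroup.card_map_of_injective S.subtype_injective, Sylow.card_eq_multiplicity]
      have hqg : IsPGroup q (N ⊓ S : Subgroup G) := hNq.to_le inf_le_left
      obtain ⟨j, hj⟩ := IsPGroup.iff_card.1 hqg
      have hdvd : q ^ j ∣ Nat.card S := hj ▸ Subgroup.card_dvd_of_le inf_le_right
      have hj' : j ≤ (Nat.card S).factorization q :=
        (hq.pow_dvd_iff_le_factorization (Nat.card_pos.ne')).1 hdvd
      apply le_antisymm
      · rw [hj]; exact Nat.pow_le_pow_right hq.pos hj'
      · rw [← c1]; exact Subgroup.card_le_of_le hQle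
    have cAB : Nat.card (N ⊓ H : Subgroup G) = Nat.card (N ⊓ K : Subgroup G) := by
      rw [hinfcard, hinfcard, hHK]
    obtain ⟨g, hg⟩ := hD q hq (N ⊓ H) (N ⊓ K) (hNq.to_le inf_le_left) (hNq.to_le inf_le_left) cAB
    have hA : N ⊓ H.map (MulAut.conj g).toMonoidHom = N ⊓ K := by
      have h1 := map_conj_inf N H g
      rw [map_conj_eq_of_normal N g] at h1
      rw [hg, h1]
    have cH₁ : Nat.card (H.map (MulAut.conj g).toMonoidHom) = Nat.card K := by
      rw [card_map_conj, hHK]
    suffices hsuff : ∃ m : G, K = (H.map (MulAut.conj g).toMonoidHom).map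
        (MulAut.conj m).toMonoidHom by
      obtain ⟨m, hm⟩ := hsuff
      exact ⟨m * g, by rw [← map_conj_map_conj]; exact hm⟩
    generalize H.map (MulAut.conj g).toMonoidHom = H₁ at hA cH₁ ⊢
    -- the normalizer of `A = N ⊓ K`
    have hKM : K ≤ Subgroup.normalizer ((N ⊓ K : Subgroup G) : Set G) := by
      intro k hk
      apply mem_normalizer_of_conj_le
      intro u hu
      exact ⟨hNn.conj_mem u hu.1 k, K.mul_mem (K.mul_mem hk hu.2) (K.inv_mem hk)⟩
    have hH₁M : H₁ ≤ Subgroup.normalizer ((N ⊓ K : Subgroup G) : Set G) := by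
      intro k hk
      apply mem_normalizer_of_conj_le
      intro u hu
      rw [← hA] at hu ⊢
      exact ⟨hNn.conj_mem u hu.1 k, H₁.mul_mem (H₁.mul_mem hk hu.2) (H₁.inv_mem hk)⟩
    have hNM : N ≤ Subgroup.normalizer ((N ⊓ K : Subgroup G) : Set G) := by
      intro k hk
      apply mem_normalizer_of_conj_le
      intro u hu
      have h1 : k * u * k⁻¹ = u := by
        rw [hNab k hk u hu.1, mul_assoc, mul_inv_cancel, mul_one]
      rw [h1]; exact hu
    obtain ⟨M, hKM, hH₁M, hNM, hAn⟩ : ∃ M : Subgroup G, K ≤ M ∧ H₁ ≤ M ∧ N ≤ M ∧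
        ((N ⊓ K).subgroupOf M).Normal := ⟨_, hKM, hH₁M, hNM, Subgroup.normal_in_normalizer⟩
    have hN' : (N.subgroupOf M).Normal := hNn.subgroupOf M
    have hNab' : ∀ a ∈ N.subgroupOf M, ∀ b ∈ N.subgroupOf M, a * b = b * a := by
      intro a ha b hb
      exact Subtype.ext (hNab a.1 (Subgroup.mem_subgroupOf.1 ha) b.1 (Subgroup.mem_subgroupOf.1 hb))
    have hHA' : N.subgroupOf M ⊓ H₁.subgroupOf M = (N ⊓ K).subgroupOf M := by
      ext z
      rw [Subgroup.mem_inf, Subgroup.mem_subgroupOf, Subgroup.mem_subgroupOf,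
        Subgroup.mem_subgroupOf, ← hA, Subgroup.mem_inf]
    have hKA' : N.subgroupOf M ⊓ K.subgroupOf M = (N ⊓ K).subgroupOf M := by
      ext z
      rw [Subgroup.mem_inf, Subgroup.mem_subgroupOf, Subgroup.mem_subgroupOf,
        Subgroup.mem_subgroupOf, Subgroup.mem_inf]
    have cN' : Nat.card (N.subgroupOf M) = Nat.card N :=
      Nat.card_congr (Subgroup.subgroupOfEquivOfLe hNM).toEquiv
    have cH' : Nat.card (H₁.subgroupOf M) = Nat.card H₁ :=
      Nat.card_congr (Subgroup.subgroupOfEquivOfLe hH₁M).toEquiv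
    have cK' : Nat.card (K.subgroupOf M) = Nat.card K :=
      Nat.card_congr (Subgroup.subgroupOfEquivOfLe hKM).toEquiv
    have cA' : Nat.card ((N ⊓ K).subgroupOf M) = Nat.card (N ⊓ K : Subgroup G) :=
      Nat.card_congr (Subgroup.subgroupOfEquivOfLe (inf_le_right.trans hKM)).toEquiv
    obtain ⟨kN, hkN⟩ := IsPGroup.iff_card.1 hNq
    have hcop' : ∀ m : ℕ, m * Nat.card ((N ⊓ K).subgroupOf M) = Nat.card (H₁.subgroupOf M) →
        m.Coprime (Nat.card (N.subgroupOf M)) := by
      intro m hm
      rw [cA', cH', cH₁, hinfcard K] at hm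
      rw [cN', hkN]
      apply Nat.Coprime.pow_right
      have h1 : m = Nat.card K / q ^ (Nat.card K).factorization q :=
        (Nat.div_eq_of_eq_mul_left (pow_pos hq.pos _) hm.symm).symm
      rw [h1]
      exact (Nat.coprime_ordCompl hq Nat.card_pos.ne').symm
    have hQ' : ∀ H' K' : Subgroup (M ⧸ N.subgroupOf M), Nat.card H' = Nat.card K' →
        ∃ x, K' = H'.map (MulAut.conj x).toMonoidHom := by
      have hcq : Nat.card (M ⧸ N.subgroupOf M) * q ^ (Nat.card M).factorization q =
          Nat.card M := by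
        have h1 := Subgroup.card_eq_card_quotient_mul_card_subgroup (N.subgroupOf M)
        rw [cN'] at h1
        have h3 := hinfcard M
        rw [inf_eq_left.2 hNM] at h3
        rw [h3] at h1
        exact h1.symm
      have hltM : Nat.card (M ⧸ N.subgroupOf M) < n := by
        have h1 := Subgroup.card_eq_card_quotient_mul_card_subgroup (N.subgroupOf M)
        rw [cN'] at h1
        have h2 : Nat.card M ≤ n := hG ▸ Subgroup.card_le_card_group M
        have hpos : 0 < Nat.card (M ⧸ N.subgroupOf M) := Nat.card_pos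
        nlinarith
      have hcopq : (Nat.card (M ⧸ N.subgroupOf M)).Coprime q := by
        have h1 : Nat.card (M ⧸ N.subgroupOf M) =
            Nat.card M / q ^ (Nat.card M).factorization q :=
          (Nat.div_eq_of_eq_mul_left (pow_pos hq.pos _) hcq.symm).symm
        rw [h1]
        exact (Nat.coprime_ordCompl hq Nat.card_pos.ne').symm
      have hcyc : ∀ p : ℕ, p.Prime → CycP p (M ⧸ N.subgroupOf M) := by
        intro p hp
        have hpf : Fact p.Prime := ⟨hp⟩
        by_cases hpq : p = q
        · intro Qb hQb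
          rw [hpq] at hQb
          obtain ⟨j, hj⟩ := IsPGroup.iff_card.1 hQb
          have hd : Nat.card Qb ∣ Nat.card (M ⧸ N.subgroupOf M) :=
            Subgroup.card_subgroup_dvd_card Qb
          have h1 : Nat.card Qb = 1 := by
            have h2 : (Nat.card Qb).Coprime (Nat.card Qb) := by
              apply Nat.Coprime.coprime_dvd_left hd
              rw [hj]; exact Nat.Coprime.pow_right j hcopq
            exact (Nat.coprime_self _).1 h2
          have hss : Subsingleton Qb := (Nat.card_eq_one_iff_unique.1 h1).1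
          exact isCyclic_of_subsingleton
        · exact cycP_quotient (cycP_subgroup (hC p hp (by rw [← hqr]; exact hpq)) M)
            (N.subgroupOf M)
      exact ih _ hltM (M ⧸ N.subgroupOf M) rfl (dProp_of_cycP hcyc) (fun p hp _ => hcyc p hp)
    obtain ⟨x, hx⟩ := conj_of_common_inf (N.subgroupOf M) hNab' ((N ⊓ K).subgroupOf M)
      (H₁.subgroupOf M) (K.subgroupOf M) hHA' hKA' (by rw [cH', cK', cH₁]) hcop' hQ'
    exact ⟨(x : G), conj_of_subgroupOf M H₁ K hH₁M hKM x hx⟩

end Cfsg.Agent.H71
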