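import Mathlib
import Cfsg.Agent.H72.Fg7Defs

/-!
# S4118-Q9b: a perfect subgroup of the centralizer of `H` lies in `O`

`C = C_G(H)`; `C ⊓ H` is a central Hall subgroup of `C`, so by Schur–Zassenhaus it has a
complement `K`, and `⁅C, C⁆ ≤ K` has order prime to `|H|`.  `O ⊔ ⁅C, C⁆` is normal in
`G = O ⊔ N_G(H)`, so it lies in `O`; a perfect subgroup of `C` lies in `⁅C, C⁆`.
-/

set_option autoImplicit false

namespace Cfsg.Agent.H71.Zas

open Cfsg.Agent.H72.Zas
open scoped commutatorElement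

universe u

/-- Commutators are unchanged by central factors. -/
theorem commutatorElement_central_mul {G : Type*} [Group G] (z₁ z₂ a b : G)
    (h₁ : ∀ c, z₁ * c = c * z₁) (h₂ : ∀ c, z₂ * c = c * z₂) :
    ⁅z₁ * a, z₂ * b⁆ = ⁅a, b⁆ := by
  rw [commutatorElement_def, commutatorElement_def]
  calc z₁ * a * (z₂ * b) * (z₁ * a)⁻¹ * (z₂ * b)⁻¹
      = z₁ * (a * (z₂ * b) * a⁻¹) * z₁⁻¹ * (z₂ * b)⁻¹ := by group
    _ = (a * (z₂ * b) * a⁻¹) * z₁ * z₁⁻¹ * (z₂ * b)⁻¹ := by rw [h₁]
    _ = a * z₂ * (b * a⁻¹ * b⁻¹) * z₂⁻¹ := by group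
    _ = z₂ * a * (b * a⁻¹ * b⁻¹) * z₂⁻¹ := by rw [← h₂ a]
    _ = z₂ * (a * (b * a⁻¹ * b⁻¹)) * z₂⁻¹ := by group
    _ = (a * (b * a⁻¹ * b⁻¹)) * z₂ * z₂⁻¹ := by rw [h₂]
    _ = a * b * a⁻¹ * b⁻¹ := by group

/-- The commutator subgroup of the centralizer `C` of `H` has order prime to `|H|` when `H` is
a Hall subgroup of its normalizer. -/
theorem card_commutator_centralizer_coprime {G : Type u} [Group G] [Finite G] (H : Subgroup G)
    (h1 : (Nat.card H).Coprime (H.subgroupOf (Subgroup.normalizer (H : Set G))).index) :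
    (Nat.card ↥⁅Subgroup.centralizer (H : Set G), Subgroup.centralizer (H : Set G)⁆).Coprime
      (Nat.card H) := by
  classical
  have hCN : Subgroup.centralizer (H : Set G) ≤ Subgroup.normalizer (H : Set G) := by
    intro c hc
    rw [Subgroup.mem_normalizer_iff]
    intro x
    have hcx : ∀ y ∈ H, c * y * c⁻¹ = y := by
      intro y hy
      have := Subgroup.mem_centralizer_iff.mp hc y hy
      rw [← this]; group
    constructor
    · intro hx
      rw [hcx x hx]; exact hx
    · intro hx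
      have h2 := Subgroup.mem_centralizer_iff.mp hc _ hx
      have h3 : x = c⁻¹ * ((c * x * c⁻¹) * c) := by group
      rw [h3, h2]
      have h4 : c⁻¹ * (c * (c * x * c⁻¹)) = c * x * c⁻¹ := by group
      rw [h4]; exact hx
  have hCH : ∀ c ∈ Subgroup.centralizer (H : Set G), ∀ x ∈ H, c * x = x * c :=
    fun c hc x hx => ((Subgroup.mem_centralizer_iff.mp hc) x hx).symm
  -- the central subgroup `C ⊓ H` of `C`
  have hcentral : ∀ z ∈ H.subgroupOf (Subgroup.centralizer (H : Set G)),
      ∀ c : ↥(Subgroup.centralizer (H : Set G)), z * c = c * z := by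
    intro z hz c
    rw [Subgroup.mem_subgroupOf] at hz
    apply Subtype.ext
    rw [Subgroup.coe_mul, Subgroup.coe_mul]
    exact (hCH c c.2 z hz).symm
  have hZn : (H.subgroupOf (Subgroup.centralizer (H : Set G))).Normal := by
    refine ⟨fun z hz c => ?_⟩
    have : c * z * c⁻¹ = z := by
      rw [← hcentral z hz c]; group
    rw [this]; exact hz
  have hidx : (H.subgroupOf (Subgroup.centralizer (H : Set G))).index ∣
      (H.subgroupOf (Subgroup.normalizer (H : Set G))).index := by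
    let φ : ↥(Subgroup.centralizer (H : Set G)) →*
        ↥(Subgroup.normalizer (H : Set G)) ⧸ H.subgroupOf (Subgroup.normalizer (H : Set G)) :=
      (QuotientGroup.mk' (H.subgroupOf (Subgroup.normalizer (H : Set G)))).comp
        (Subgroup.inclusion hCN)
    have hker : φ.ker = H.subgroupOf (Subgroup.centralizer (H : Set G)) := by
      ext x
      rw [MonoidHom.mem_ker]
      show ((Subgroup.inclusion hCN x : ↥(Subgroup.normalizer (H : Set G))) :
        ↥(Subgroup.normalizer (H : Set G)) ⧸ H.subgroupOf (Subgroup.normalizer (H : Set G))) = 1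
          ↔ _
      rw [QuotientGroup.eq_one_iff, Subgroup.mem_subgroupOf, Subgroup.mem_subgroupOf]
      rfl
    rw [← hker, Subgroup.index_ker]
    exact Subgroup.card_subgroup_dvd_card _
  have hcardZ : Nat.card ↥(H.subgroupOf (Subgroup.centralizer (H : Set G))) ∣ Nat.card H := by
    let ψ : ↥(H.subgroupOf (Subgroup.centralizer (H : Set G))) →* ↥H :=
      { toFun := fun x => ⟨x.1.1, Subgroup.mem_subgroupOf.mp x.2⟩
        map_one' := rfl
        map_mul' := fun _ _ => rfl }
    apply Subgroup.card_dvd_of_injective ψ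
    intro x y hxy
    apply Subtype.ext
    apply Subtype.ext
    exact congrArg (fun t : ↥H => (t : G)) hxy
  have hcop : (Nat.card ↥(H.subgroupOf (Subgroup.centralizer (H : Set G)))).Coprime
      (H.subgroupOf (Subgroup.centralizer (H : Set G))).index :=
    (h1.coprime_dvd_left hcardZ).coprime_dvd_right hidx
  obtain ⟨K', hK'⟩ := Subgroup.exists_right_complement'_of_coprime hcop
  have hK'card : Nat.card K' = (H.subgroupOf (Subgroup.centralizer (H : Set G))).index :=
    (Subgroup.IsComplement'.index_eq_card hK'.symm).symm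
  have hcomm : ⁅Subgroup.centralizer (H : Set G), Subgroup.centralizer (H : Set G)⁆ ≤
      K'.map (Subgroup.centralizer (H : Set G)).subtype := by
    rw [Subgroup.commutator_le]
    intro g₁ hg₁ g₂ hg₂
    obtain ⟨⟨z₁, k₁⟩, hx₁, -⟩ := Subgroup.isComplement_iff_existsUnique.mp hK' ⟨g₁, hg₁⟩
    obtain ⟨⟨z₂, k₂⟩, hx₂, -⟩ := Subgroup.isComplement_iff_existsUnique.mp hK' ⟨g₂, hg₂⟩
    simp only at hx₁ hx₂
    have hmem : ⁅(⟨g₁, hg₁⟩ : ↥(Subgroup.centralizer (H : Set G))), ⟨g₂, hg₂⟩⁆ ∈ K' := by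
      rw [← hx₁, ← hx₂, commutatorElement_central_mul _ _ _ _ (hcentral z₁.1 z₁.2)
        (hcentral z₂.1 z₂.2)]
      exact Subgroup.commutator_mem_commutator k₁.2 k₂.2 |> fun h => by
        have hle : ⁅K', K'⁆ ≤ K' := by
          rw [Subgroup.commutator_le]
          intro a ha b hb
          rw [commutatorElement_def]
          exact mul_mem (mul_mem (mul_mem ha hb) (inv_mem ha)) (inv_mem hb)
        exact hle h
    refine ⟨_, hmem, ?_⟩
    rfl
  have hdvd : Nat.card ↥⁅Subgroup.centralizer (H : Set G), Subgroup.centralizer (H : Set G)⁆ ∣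
      (H.subgroupOf (Subgroup.centralizer (H : Set G))).index := by
    rw [← hK'card, ← Subgroup.card_map_of_injective
      (Subgroup.subtype_injective (Subgroup.centralizer (H : Set G)))]
    exact Subgroup.card_dvd_of_le hcomm
  exact (h1.coprime_dvd_right (hdvd.trans hidx)).symm

theorem stQ9b : StQ9b.{u} := by
  intro G _ _ H O A h1 hO hOc hmax hON hA hAH
  classical
  have hcop := card_commutator_centralizer_coprime H h1
  -- `A ≤ ⁅C, C⁆`
  have hAC : A ≤ Subgroup.centralizer (H : Set G) := by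
    intro a ha
    rw [Subgroup.mem_centralizer_iff]
    intro x hx
    exact (hAH a ha x hx).symm
  have hAW : A ≤ ⁅Subgroup.centralizer (H : Set G), Subgroup.centralizer (H : Set G)⁆ := by
    intro a ha
    have h2 : (⟨a, ha⟩ : ↥A) ∈ commutator ↥A := by rw [hA]; trivial
    rw [commutator_def] at h2
    have h3 : a ∈ Subgroup.map A.subtype ⁅(⊤ : Subgroup ↥A), (⊤ : Subgroup ↥A)⁆ :=
      ⟨⟨a, ha⟩, h2, rfl⟩
    rw [Subgroup.map_commutator] at h3
    have h4 : Subgroup.map A.subtype (⊤ : Subgroup ↥A) ≤ Subgroup.centralizer (H : Set G) := by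
      rintro _ ⟨x, -, rfl⟩
      exact hAC x.2
    exact Subgroup.commutator_mono h4 h4 h3
  -- `N` normalizes `⁅C, C⁆`
  have hNC : ∀ n ∈ Subgroup.normalizer (H : Set G), ∀ c ∈ Subgroup.centralizer (H : Set G),
      n * c * n⁻¹ ∈ Subgroup.centralizer (H : Set G) := by
    intro n hn c hc
    rw [Subgroup.mem_centralizer_iff]
    intro x hx
    have hx' : n⁻¹ * x * n ∈ H := (Subgroup.mem_normalizer_iff''.mp hn x).mp hx
    have h2 := Subgroup.mem_centralizer_iff.mp hc _ hx'
    calc x * (n * c * n⁻¹) = n * ((n⁻¹ * x * n) * c) * n⁻¹ := by group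
      _ = n * (c * (n⁻¹ * x * n)) * n⁻¹ := by rw [h2]
      _ = n * c * n⁻¹ * x := by group
  have hNW : ∀ n ∈ Subgroup.normalizer (H : Set G),
      ∀ w ∈ ⁅Subgroup.centralizer (H : Set G), Subgroup.centralizer (H : Set G)⁆,
      n * w * n⁻¹ ∈ ⁅Subgroup.centralizer (H : Set G), Subgroup.centralizer (H : Set G)⁆ := by
    intro n hn w hw
    have h2 : n * w * n⁻¹ ∈ Subgroup.map (MulAut.conj n).toMonoidHom
        ⁅Subgroup.centralizer (H : Set G), Subgroup.centralizer (H : Set G)⁆ :=
      ⟨w, hw, by simp [MulAut.conj_apply]⟩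
    rw [Subgroup.map_commutator] at h2
    have h3 : Subgroup.map (MulAut.conj n).toMonoidHom (Subgroup.centralizer (H : Set G)) ≤
        Subgroup.centralizer (H : Set G) := by
      rintro _ ⟨c, hc, rfl⟩
      have := hNC n hn c hc
      simpa [MulAut.conj_apply] using this
    exact Subgroup.commutator_mono h3 h3 h2
  -- `O ⊔ ⁅C, C⁆` is normal
  have hmemL : ∀ x : G, x ∈ O ⊔ ⁅Subgroup.centralizer (H : Set G),
      Subgroup.centralizer (H : Set G)⁆ ↔ ∃ o ∈ O, ∃ w ∈ ⁅Subgroup.centralizer (H : Set G),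
        Subgroup.centralizer (H : Set G)⁆, o * w = x := by
    intro x
    rw [← SetLike.mem_coe, Subgroup.normal_mul, Set.mem_mul]
    rfl
  have hmemT : ∀ g : G, ∃ o ∈ O, ∃ n ∈ Subgroup.normalizer (H : Set G), o * n = g := by
    intro g
    have hg : g ∈ O ⊔ Subgroup.normalizer (H : Set G) := by rw [hON]; trivial
    rw [← SetLike.mem_coe, Subgroup.normal_mul, Set.mem_mul] at hg
    exact hg
  have hLn : (O ⊔ ⁅Subgroup.centralizer (H : Set G),
      Subgroup.centralizer (H : Set G)⁆).Normal := by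
    refine ⟨fun x hx g => ?_⟩
    obtain ⟨o, ho, n, hn, rfl⟩ := hmemT g
    obtain ⟨o', ho', w, hw, rfl⟩ := (hmemL x).mp hx
    have h2 : n * (o' * w) * n⁻¹ ∈ O ⊔ ⁅Subgroup.centralizer (H : Set G),
        Subgroup.centralizer (H : Set G)⁆ := by
      rw [hmemL]
      refine ⟨n * o' * n⁻¹, hO.conj_mem o' ho' n, n * w * n⁻¹, hNW n hn w hw, by group⟩
    have ho2 : o ∈ O ⊔ ⁅Subgroup.centralizer (H : Set G),
        Subgroup.centralizer (H : Set G)⁆ := (le_sup_left : O ≤ _) ho
    have h3 := mul_mem (mul_mem ho2 h2) (inv_mem ho2)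
    have h4 : o * n * (o' * w) * (o * n)⁻¹ = o * (n * (o' * w) * n⁻¹) * o⁻¹ := by group
    rw [h4]
    exact h3
  -- its order is prime to `|H|`
  have hLc : (Nat.card ↥(O ⊔ ⁅Subgroup.centralizer (H : Set G),
      Subgroup.centralizer (H : Set G)⁆)).Coprime (Nat.card H) := by
    have h2 := Subgroup.relIndex_mul_relIndex (⊥ : Subgroup G) O
      (O ⊔ ⁅Subgroup.centralizer (H : Set G), Subgroup.centralizer (H : Set G)⁆) bot_le
      le_sup_left
    rw [Subgroup.relIndex_bot_left, Subgroup.relIndex_bot_left, Subgroup.relIndex_sup_left] at h2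
    rw [← h2]
    exact Nat.Coprime.mul_left hOc (hcop.coprime_dvd_left (Subgroup.relIndex_dvd_card _ _))
  have hLO := hmax _ hLn hLc
  exact hAW.trans (le_sup_right.trans hLO)

end Cfsg.Agent.H71.Zas
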