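import Mathlib

set_option autoImplicit false

/-!
# Coprime action: fixed points of automorphisms (helper71)

Tools for the product inequality of fixed-point orders under a coprime action of a `p`-group
on a solvable `p'`-group (used for counting `p`-elements in `p`-solvable groups).
-/

namespace Cfsg.Agent.H71

variable {R : Type*} [Group R]

/-- The subgroup of fixed points of an automorphism. -/
def gfix (β : MulAut R) : Subgroup R where
  carrier := {r | β r = r}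
  mul_mem' := by
    intro a b ha hb
    simp only [Set.mem_ofPred_eq] at *
    rw [map_mul, ha, hb]
  one_mem' := map_one β
  inv_mem' := by
    intro a ha
    simp only [Set.mem_ofPred_eq] at *
    rw [map_inv, ha]

theorem mem_gfix {β : MulAut R} {r : R} : r ∈ gfix β ↔ β r = r := Iff.rfl

/-- Lifting fixed points: if `β` has `p`-power order, `K` is a `β`-invariant `p'`-subgroup and the
coset `n K` is `β`-invariant, then this coset contains a fixed point of `β`. -/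
theorem gh_lift [Finite R] {p : ℕ} [Fact p.Prime] (β : MulAut R) (K : Subgroup R)
    (hK : ∀ m ∈ K, β m ∈ K) (hp : ¬ p ∣ Nat.card K) (e : ℕ) (hβ : β ^ p ^ e = 1)
    (n : R) (hn : n⁻¹ * β n ∈ K) : ∃ m ∈ K, β (n * m) = n * m := by
  classical
  have : Fintype K := Fintype.ofFinite K
  let f : Function.End K := fun m => ⟨n⁻¹ * β (n * m), by
    have : n⁻¹ * β (n * m) = (n⁻¹ * β n) * β m := by rw [map_mul]; group
    rw [this]; exact mul_mem hn (hK _ m.2)⟩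
  have key : ∀ (j : ℕ) (m : K), (((f ^ j : Function.End K) m : K) : R) =
      n⁻¹ * (β ^ j) (n * m) := by
    intro j
    induction j with
    | zero =>
      intro m
      rw [pow_zero, pow_zero]
      show (m : R) = n⁻¹ * (n * (m : R))
      rw [inv_mul_cancel_left]
    | succ j ih =>
      intro m
      rw [pow_succ]
      show (((f ^ j : Function.End K) (f m) : K) : R) = _
      rw [ih]
      show n⁻¹ * (β ^ j) (n * (n⁻¹ * β (n * m))) = _
      rw [mul_inv_cancel_left, pow_succ, MulAut.mul_apply]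
  have hf : f ^ p ^ e = 1 := by
    funext m
    apply Subtype.ext
    rw [key, hβ]
    show n⁻¹ * (n * (m : R)) = (m : R)
    rw [inv_mul_cancel_left]
  have h1 := Equiv.Perm.card_fixedPoints_modEq (p := p) (n := e) hf
  have h2 : Fintype.card (Function.fixedPoints f) ≠ 0 := by
    intro h0
    rw [h0] at h1
    apply hp
    rw [Nat.card_eq_fintype_card]
    exact (Nat.modEq_zero_iff_dvd.1 h1)
  obtain ⟨⟨m, hm⟩⟩ := Fintype.card_pos_iff.1 (Nat.pos_of_ne_zero h2)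
  refine ⟨m, m.2, ?_⟩
  have h3 : ((f m : K) : R) = m := congrArg Subtype.val hm
  have h4 : n⁻¹ * β (n * m) = m := h3
  exact eq_mul_of_inv_mul_eq h4

/-- Counting lemma: if `A, K ≤ M`, `K` is normalized by `M` and every coset of `K` in `M` meets
`A`, then `|A| |K| = |M| |A ∩ K|`. -/
theorem gh_count [Finite R] (M K A : Subgroup R) (hKM : K ≤ M) (hAM : A ≤ M)
    (hnorm : ∀ m ∈ M, ∀ k ∈ K, m * k * m⁻¹ ∈ K)
    (hsurj : ∀ n ∈ M, ∃ m ∈ K, n * m ∈ A) :
    Nat.card A * Nat.card K = Nat.card M * Nat.card ↥(A ⊓ K) := by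
  have hN : (K.subgroupOf M).Normal := ⟨fun k hk m => by
    rw [Subgroup.mem_subgroupOf] at hk ⊢
    simpa using hnorm m m.2 k hk⟩
  have hsup : A.subgroupOf M ⊔ K.subgroupOf M = ⊤ := by
    rw [eq_top_iff]
    intro n _
    obtain ⟨m, hm, hnm⟩ := hsurj n n.2
    have e : n = (⟨n * m, hAM hnm⟩ : M) * (⟨m, hKM hm⟩ : M)⁻¹ := by
      apply Subtype.ext; simp
    rw [e]
    exact mul_mem (Subgroup.mem_sup_left (Subgroup.mem_subgroupOf.2 hnm))
      (inv_mem (Subgroup.mem_sup_right (Subgroup.mem_subgroupOf.2 hm)))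
  have h1 := Subgroup.relIndex_sup_right (A.subgroupOf M) (K.subgroupOf M)
  rw [hsup, Subgroup.relIndex_top_right, Subgroup.relIndex_subgroupOf hAM] at h1
  have h2 : Nat.card K * K.relIndex M = Nat.card M := by
    have := Subgroup.relIndex_mul_relIndex ⊥ K M bot_le hKM
    rwa [Subgroup.relIndex_bot_left, Subgroup.relIndex_bot_left] at this
  have h3 : Nat.card ↥(A ⊓ K) * K.relIndex A = Nat.card A := by
    have := Subgroup.relIndex_mul_relIndex ⊥ (A ⊓ K) A bot_le inf_le_left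
    rwa [Subgroup.relIndex_bot_left, Subgroup.relIndex_bot_left, Subgroup.inf_relIndex_left]
      at this
  have h4 : (K.subgroupOf M).index = K.relIndex M := rfl
  rw [h4] at h1
  rw [← h2, ← h3, h1]
  ring

/-- An automorphism mapping a finite subgroup into itself maps it onto itself. -/
theorem gh_inv_iff [Finite R] (β : MulAut R) (M : Subgroup R) (h : ∀ m ∈ M, β m ∈ M) (m : R) :
    β m ∈ M ↔ m ∈ M := by
  refine ⟨fun hm => ?_, h m⟩
  let f : M → M := fun x => ⟨β x, h x x.2⟩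
  have hinj : Function.Injective f := fun x y hxy =>
    Subtype.ext (β.injective (congrArg Subtype.val hxy))
  obtain ⟨x, hx⟩ := (Finite.injective_iff_surjective.1 hinj) ⟨β m, hm⟩
  have hx' : β x = β m := congrArg Subtype.val hx
  rw [← β.injective hx']
  exact x.2

/-- Dichotomy: for a maximal invariant subgroup `K` of `M` containing the commutators of `M`,
an automorphism `β` commuting with the acting automorphisms either acts trivially on `M / K`
or has all its fixed cosets inside `K`. -/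
theorem gh_dich [Finite R] (α ζ β : MulAut R) (hβα : Commute β α) (hβζ : Commute β ζ)
    (M K : Subgroup R) (hKM : K ≤ M)
    (hβK : ∀ m ∈ K, β m ∈ K)
    (hαM : ∀ m ∈ M, α m ∈ M) (hζM : ∀ m ∈ M, ζ m ∈ M)
    (hαK : ∀ m ∈ K, α m ∈ K) (hζK : ∀ m ∈ K, ζ m ∈ K)
    (hcomm : ∀ a ∈ M, ∀ b ∈ M, a * b * a⁻¹ * b⁻¹ ∈ K)
    (hmax : ∀ K' : Subgroup R, K ≤ K' → K' ≤ M → K' ≠ M → (∀ m ∈ K', α m ∈ K') →
      (∀ m ∈ K', ζ m ∈ K') → K' = K) :
    (∀ n ∈ M, n⁻¹ * β n ∈ K) ∨ (∀ n ∈ M, n⁻¹ * β n ∈ K → n ∈ K) := by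
  have hconj : ∀ m ∈ M, ∀ k ∈ K, m * k * m⁻¹ ∈ K := by
    intro m hm k hk
    have := mul_mem (hcomm m hm k (hKM hk)) hk
    simpa using this
  let T : Subgroup R :=
    { carrier := {n | n ∈ M ∧ n⁻¹ * β n ∈ K}
      mul_mem' := by
        rintro a b ⟨ha, ha'⟩ ⟨hb, hb'⟩
        refine ⟨mul_mem ha hb, ?_⟩
        have e : (a * b)⁻¹ * β (a * b) = (b⁻¹ * (a⁻¹ * β a) * b⁻¹⁻¹) * (b⁻¹ * β b) := by
          rw [map_mul]; group
        rw [e]
        exact mul_mem (hconj _ (inv_mem hb) _ ha') hb'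
      one_mem' := ⟨one_mem _, by simp⟩
      inv_mem' := by
        rintro a ⟨ha, ha'⟩
        refine ⟨inv_mem ha, ?_⟩
        have e : a⁻¹⁻¹ * β a⁻¹ = a * (a⁻¹ * β a)⁻¹ * a⁻¹ := by
          rw [map_inv]; group
        rw [e]
        exact hconj _ ha _ (inv_mem ha') }
  have hT : ∀ n, n ∈ T ↔ n ∈ M ∧ n⁻¹ * β n ∈ K := fun n => Iff.rfl
  have hKT : K ≤ T := fun k hk => (hT k).2 ⟨hKM hk, mul_mem (inv_mem hk) (hβK k hk)⟩
  have hTM : T ≤ M := fun n hn => ((hT n).1 hn).1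
  have hinv : ∀ γ : MulAut R, Commute β γ → (∀ m ∈ M, γ m ∈ M) → (∀ m ∈ K, γ m ∈ K) →
      ∀ m ∈ T, γ m ∈ T := by
    intro γ hγ hγM hγK m hm
    obtain ⟨hmM, hmK⟩ := (hT m).1 hm
    refine (hT _).2 ⟨hγM m hmM, ?_⟩
    have e1 : β (γ m) = γ (β m) := by
      have := congrArg (fun δ : MulAut R => δ m) hγ.eq
      simpa [MulAut.mul_apply] using this
    have e : (γ m)⁻¹ * β (γ m) = γ (m⁻¹ * β m) := by
      rw [e1, map_mul, map_inv]
    rw [e]
    exact hγK _ hmK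
  by_cases hTeq : T = M
  · left
    intro n hn
    have : n ∈ T := hTeq ▸ hn
    exact ((hT n).1 this).2
  · right
    have hTK : T = K := hmax T hKT hTM hTeq (hinv α hβα hαM hαK) (hinv ζ hβζ hζM hζK)
    intro n hn hn'
    rw [← hTK]
    exact (hT n).2 ⟨hn, hn'⟩


/-- Arithmetic for the case where all members of the family act trivially on `M / K`. -/
theorem gh_arith1 (f g : ℕ → ℕ) (mM mK dM dK p : ℕ) (hmK : 0 < mK)
    (h1 : ∀ j ∈ Finset.range (p + 1), f j * mK = mM * g j) (h2 : dM * mK = mM * dK)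
    (hIH : ∏ j ∈ Finset.range (p + 1), g j ≤ mK * dK ^ p) :
    ∏ j ∈ Finset.range (p + 1), f j ≤ mM * dM ^ p := by
  have h3 : (∏ j ∈ Finset.range (p + 1), f j) * mK ^ (p + 1) =
      mM ^ (p + 1) * ∏ j ∈ Finset.range (p + 1), g j := by
    have := Finset.prod_congr rfl h1
    rw [Finset.prod_mul_distrib, Finset.prod_mul_distrib, Finset.prod_const, Finset.prod_const,
      Finset.card_range] at this
    exact this
  have h4 : (∏ j ∈ Finset.range (p + 1), f j) * mK ^ (p + 1) ≤ (mM * dM ^ p) * mK ^ (p + 1) := by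
    rw [h3]
    calc mM ^ (p + 1) * ∏ j ∈ Finset.range (p + 1), g j
        ≤ mM ^ (p + 1) * (mK * dK ^ p) := Nat.mul_le_mul_left _ hIH
      _ = mM * mK * (mM * dK) ^ p := by ring
      _ = mM * mK * (dM * mK) ^ p := by rw [h2]
      _ = (mM * dM ^ p) * mK ^ (p + 1) := by ring
  exact Nat.le_of_mul_le_mul_right h4 (pow_pos hmK _)

/-- Arithmetic for the case where at most one member of the family acts trivially on `M / K`. -/
theorem gh_arith2 (f g : ℕ → ℕ) (mM mK dM dK p : ℕ) (hmK : 0 < mK) (j₀ : ℕ)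
    (hj₀ : j₀ ∈ Finset.range (p + 1)) (h1 : f j₀ * mK ≤ mM * g j₀)
    (h2 : ∀ j ∈ Finset.range (p + 1), j ≠ j₀ → f j = g j) (hd : dK ≤ dM)
    (hIH : ∏ j ∈ Finset.range (p + 1), g j ≤ mK * dK ^ p) :
    ∏ j ∈ Finset.range (p + 1), f j ≤ mM * dM ^ p := by
  have h2' : ∏ j ∈ (Finset.range (p + 1)).erase j₀, f j =
      ∏ j ∈ (Finset.range (p + 1)).erase j₀, g j := by
    apply Finset.prod_congr rfl
    intro j hj
    exact h2 j (Finset.mem_of_mem_erase hj) (Finset.ne_of_mem_erase hj)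
  have h3 : (∏ j ∈ Finset.range (p + 1), f j) * mK ≤ (mM * dM ^ p) * mK := by
    rw [← Finset.mul_prod_erase _ f hj₀, h2']
    calc (f j₀ * ∏ j ∈ (Finset.range (p + 1)).erase j₀, g j) * mK
        = (f j₀ * mK) * ∏ j ∈ (Finset.range (p + 1)).erase j₀, g j := by ring
      _ ≤ (mM * g j₀) * ∏ j ∈ (Finset.range (p + 1)).erase j₀, g j :=
          Nat.mul_le_mul_right _ h1
      _ = mM * ∏ j ∈ Finset.range (p + 1), g j := by
          rw [mul_assoc, Finset.mul_prod_erase _ g hj₀]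
      _ ≤ mM * (mK * dK ^ p) := Nat.mul_le_mul_left _ hIH
      _ ≤ mM * (mK * dM ^ p) :=
          Nat.mul_le_mul_left _ (Nat.mul_le_mul_left _ (Nat.pow_le_pow_left hd p))
      _ = (mM * dM ^ p) * mK := by ring
  exact Nat.le_of_mul_le_mul_right h3 hmK

/-- **Claim A.** Let `α, ζ` be commuting automorphisms of `p`-power order of a finite solvable
group, with `ζ ^ p = 1`, and `M` an invariant `p'`-subgroup.  Then
`∏_{i<p} |C_M(α ζ^i)| · |C_M(ζ)| ≤ |M| · |C_M(α, ζ)|^p`. -/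
theorem gh_claimA [Finite R] [Group.IsSolvable R] (p : ℕ) [Fact p.Prime] (α ζ : MulAut R)
    (hc : Commute α ζ) (hζ : ζ ^ p = 1) (k : ℕ) (hα : α ^ p ^ k = 1) :
    ∀ (M : Subgroup R), (∀ m ∈ M, α m ∈ M) → (∀ m ∈ M, ζ m ∈ M) → ¬ p ∣ Nat.card M →
      (∏ i ∈ Finset.range p, Nat.card ↥(M ⊓ gfix (α * ζ ^ i))) * Nat.card ↥(M ⊓ gfix ζ) ≤
        Nat.card M * Nat.card ↥(M ⊓ gfix α ⊓ gfix ζ) ^ p := by
  have hp : p.Prime := Fact.out
  obtain ⟨b, hb⟩ : ∃ b : ℕ → MulAut R, b = fun j => if j < p then α * ζ ^ j else ζ := ⟨_, rfl⟩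
  have hb1 : ∀ j, j < p → b j = α * ζ ^ j := fun j hj => by rw [hb]; exact if_pos hj
  have hb2 : ∀ j, ¬ j < p → b j = ζ := fun j hj => by rw [hb]; exact if_neg hj
  have hbα : ∀ j, Commute (b j) α := by
    intro j
    by_cases hj : j < p
    · rw [hb1 j hj]; exact (Commute.refl α).mul_left (hc.symm.pow_left j)
    · rw [hb2 j hj]; exact hc.symm
  have hbζ : ∀ j, Commute (b j) ζ := by
    intro j
    by_cases hj : j < p
    · rw [hb1 j hj]; exact hc.mul_left ((Commute.refl ζ).pow_left j)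
    · rw [hb2 j hj]
  have hbpow : ∀ j, (b j) ^ p ^ (k + 1) = 1 := by
    intro j
    by_cases hj : j < p
    · rw [hb1 j hj, (hc.pow_right j).mul_pow, pow_succ, pow_mul, hα, one_pow, one_mul, ← pow_mul,
        show j * (p ^ k * p) = p * (j * p ^ k) by ring, pow_mul, hζ, one_pow]
    · rw [hb2 j hj, pow_succ', pow_mul, hζ, one_pow]
  have hζpowinv : ∀ (M : Subgroup R), (∀ m ∈ M, ζ m ∈ M) → ∀ (i : ℕ), ∀ m ∈ M, (ζ ^ i) m ∈ M := by
    intro M hζM i
    induction i with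
    | zero => intro m hm; simpa using hm
    | succ i ih =>
      intro m hm
      rw [pow_succ, MulAut.mul_apply]
      exact ih _ (hζM m hm)
  have hbinv : ∀ j (M : Subgroup R), (∀ m ∈ M, α m ∈ M) → (∀ m ∈ M, ζ m ∈ M) →
      ∀ m ∈ M, b j m ∈ M := by
    intro j M hαM hζM m hm
    by_cases hj : j < p
    · rw [hb1 j hj, MulAut.mul_apply]; exact hαM _ (hζpowinv M hζM j m hm)
    · rw [hb2 j hj]; exact hζM m hm
  have hprod : ∀ M : Subgroup R,
      (∏ i ∈ Finset.range p, Nat.card ↥(M ⊓ gfix (α * ζ ^ i))) * Nat.card ↥(M ⊓ gfix ζ) =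
        ∏ j ∈ Finset.range (p + 1), Nat.card ↥(M ⊓ gfix (b j)) := by
    intro M
    rw [Finset.prod_range_succ, hb2 p (lt_irrefl p)]
    congr 1
    apply Finset.prod_congr rfl
    intro i hi
    rw [hb1 i (Finset.mem_range.1 hi)]
  have hcz : ∀ r, ζ (α r) = α (ζ r) := by
    intro r
    have := congrArg (fun δ : MulAut R => δ r) hc.eq
    simp only [MulAut.mul_apply] at this
    exact this.symm
  intro M
  induction' hn : Nat.card M using Nat.strong_induction_on with n ih generalizing M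
  subst hn
  intro hαM hζM hpM
  by_cases hM : M = ⊥
  · simp [hM]
  have hlt : ⁅M, M⁆ < M := Group.IsSolvable.commutator_lt_of_ne_bot hM
  have hcommInv : ∀ γ : MulAut R, (∀ m ∈ M, γ m ∈ M) → ∀ m ∈ ⁅M, M⁆, γ m ∈ ⁅M, M⁆ := by
    intro γ hγ
    have : ⁅M, M⁆ ≤ (⁅M, M⁆).comap γ.toMonoidHom := by
      rw [Subgroup.commutator_le]
      intro g₁ h₁ g₂ h₂
      rw [Subgroup.mem_comap]
      have h3 := Subgroup.commutator_mem_commutator (hγ _ h₁) (hγ _ h₂)
      rw [← map_commutatorElement] at h3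
      exact h3
    exact fun m hm => this hm
  obtain ⟨K, hKS, hKmax⟩ := Set.exists_max_image
    {K' : Subgroup R | ⁅M, M⁆ ≤ K' ∧ K' ≤ M ∧ K' ≠ M ∧ (∀ m ∈ K', α m ∈ K') ∧
      (∀ m ∈ K', ζ m ∈ K')} (fun K' => Nat.card K') (Set.toFinite _)
    ⟨⁅M, M⁆, le_rfl, hlt.le, hlt.ne, hcommInv α hαM, hcommInv ζ hζM⟩
  obtain ⟨hDK, hKM, hKne, hαK, hζK⟩ := hKS
  have hcomm : ∀ a ∈ M, ∀ b ∈ M, a * b * a⁻¹ * b⁻¹ ∈ K := fun a ha b hb =>
    hDK (Subgroup.commutator_mem_commutator ha hb)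
  have hmax : ∀ K' : Subgroup R, K ≤ K' → K' ≤ M → K' ≠ M → (∀ m ∈ K', α m ∈ K') →
      (∀ m ∈ K', ζ m ∈ K') → K' = K := by
    intro K' h1 h2 h3 h4 h5
    exact (Subgroup.eq_of_le_of_card_ge h1 (hKmax K' ⟨hDK.trans h1, h2, h3, h4, h5⟩)).symm
  have hconj : ∀ m ∈ M, ∀ k ∈ K, m * k * m⁻¹ ∈ K := by
    intro m hm k hk
    have := mul_mem (hcomm m hm k (hKM hk)) hk
    simpa using this
  have hpK : ¬ p ∣ Nat.card K := fun h => hpM (h.trans (Subgroup.card_dvd_of_le hKM))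
  have hKlt : Nat.card K < Nat.card M := by
    by_contra hcon
    push Not at hcon
    exact hKne (Subgroup.eq_of_le_of_card_ge hKM hcon)
  have hIH := ih (Nat.card K) hKlt K rfl hαK hζK hpK
  rw [hprod] at hIH ⊢
  -- trivial action on `M / K`
  have hT1 : ∀ j, (∀ n ∈ M, n⁻¹ * b j n ∈ K) →
      Nat.card ↥(M ⊓ gfix (b j)) * Nat.card K = Nat.card M * Nat.card ↥(K ⊓ gfix (b j)) := by
    intro j hj
    have hbK := hbinv j K hαK hζK
    have := gh_count M K (M ⊓ gfix (b j)) hKM inf_le_left hconj (by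
      intro n hn
      obtain ⟨m, hm, hfix⟩ := gh_lift (b j) K hbK hpK (k + 1) (hbpow j) n (hj n hn)
      exact ⟨m, hm, Subgroup.mem_inf.2 ⟨mul_mem hn (hKM hm), hfix⟩⟩)
    have e : M ⊓ gfix (b j) ⊓ K = K ⊓ gfix (b j) := by
      rw [inf_right_comm, inf_eq_right.2 hKM]
    rwa [e] at this
  have hT2 : ∀ j, ¬ (∀ n ∈ M, n⁻¹ * b j n ∈ K) → M ⊓ gfix (b j) = K ⊓ gfix (b j) := by
    intro j hj
    rcases gh_dich α ζ (b j) (hbα j) (hbζ j) M K hKM (hbinv j K hαK hζK) hαM hζM hαK hζK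
      hcomm hmax with hd | hd
    · exact absurd hd hj
    · apply le_antisymm
      · intro n hn
        obtain ⟨hnM, hnf⟩ := Subgroup.mem_inf.1 hn
        refine Subgroup.mem_inf.2 ⟨hd n hnM ?_, hnf⟩
        rw [mem_gfix.1 hnf, inv_mul_cancel]
        exact one_mem K
      · exact inf_le_inf_right _ hKM
  have hT3 : (∀ n ∈ M, n⁻¹ * α n ∈ K) → (∀ n ∈ M, n⁻¹ * ζ n ∈ K) →
      Nat.card ↥(M ⊓ gfix α ⊓ gfix ζ) * Nat.card K =
        Nat.card M * Nat.card ↥(K ⊓ gfix α ⊓ gfix ζ) := by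
    intro hta htz
    have hζpow : ζ ^ p ^ 1 = 1 := by rw [pow_one]; exact hζ
    have := gh_count M K (M ⊓ gfix α ⊓ gfix ζ) hKM (inf_le_left.trans inf_le_left) hconj (by
      intro n hn
      obtain ⟨m₁, hm₁, hfix₁⟩ := gh_lift ζ K hζK hpK 1 hζpow n (htz n hn)
      have hn' : n * m₁ ∈ M := mul_mem hn (hKM hm₁)
      have hK'inv : ∀ m ∈ K ⊓ gfix ζ, α m ∈ K ⊓ gfix ζ := by
        intro m hm
        obtain ⟨hmK, hmf⟩ := Subgroup.mem_inf.1 hm
        refine Subgroup.mem_inf.2 ⟨hαK m hmK, ?_⟩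
        rw [mem_gfix] at hmf ⊢
        rw [hcz, hmf]
      have hpK' : ¬ p ∣ Nat.card ↥(K ⊓ gfix ζ) := fun h =>
        hpK (h.trans (Subgroup.card_dvd_of_le inf_le_left))
      have hmem : (n * m₁)⁻¹ * α (n * m₁) ∈ K ⊓ gfix ζ := by
        refine Subgroup.mem_inf.2 ⟨hta _ hn', ?_⟩
        rw [mem_gfix, map_mul, map_inv, hcz, hfix₁]
      obtain ⟨m₂, hm₂, hfix₂⟩ := gh_lift α (K ⊓ gfix ζ) hK'inv hpK' k hα (n * m₁) hmem
      obtain ⟨hm₂K, hm₂f⟩ := Subgroup.mem_inf.1 hm₂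
      refine ⟨m₁ * m₂, mul_mem hm₁ hm₂K, ?_⟩
      rw [← mul_assoc]
      refine Subgroup.mem_inf.2 ⟨Subgroup.mem_inf.2 ⟨mul_mem hn' (hKM hm₂K), hfix₂⟩, ?_⟩
      rw [mem_gfix, map_mul, hfix₁, mem_gfix.1 hm₂f])
    have e : M ⊓ gfix α ⊓ gfix ζ ⊓ K = K ⊓ gfix α ⊓ gfix ζ := by
      ext r
      simp only [Subgroup.mem_inf]
      constructor
      · rintro ⟨⟨⟨_, h2⟩, h3⟩, h4⟩
        exact ⟨⟨h4, h2⟩, h3⟩
      · rintro ⟨⟨h4, h2⟩, h3⟩
        exact ⟨⟨⟨hKM h4, h2⟩, h3⟩, h4⟩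
    rwa [e] at this
  -- the subgroup of automorphisms acting trivially on `M / K`
  let TT : Subgroup (MulAut R) :=
    { carrier := {β | (∀ n, β n ∈ M ↔ n ∈ M) ∧ ∀ n ∈ M, n⁻¹ * β n ∈ K}
      mul_mem' := by
        rintro β γ ⟨hβ1, hβ2⟩ ⟨hγ1, hγ2⟩
        refine ⟨fun n => by rw [MulAut.mul_apply, hβ1, hγ1], fun n hn => ?_⟩
        have e : n⁻¹ * (β * γ) n = (n⁻¹ * γ n) * ((γ n)⁻¹ * β (γ n)) := by
          rw [MulAut.mul_apply]; group
        rw [e]
        exact mul_mem (hγ2 n hn) (hβ2 _ ((hγ1 n).2 hn))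
      one_mem' := ⟨fun n => Iff.rfl, fun n hn => by simp⟩
      inv_mem' := by
        rintro β ⟨hβ1, hβ2⟩
        have h1 : ∀ n, β⁻¹ n ∈ M ↔ n ∈ M := by
          intro n
          rw [← hβ1 (β⁻¹ n), MulAut.apply_inv_self]
        refine ⟨h1, fun n hn => ?_⟩
        have h2 := hβ2 (β⁻¹ n) ((h1 n).2 hn)
        have e : n⁻¹ * β⁻¹ n = ((β⁻¹ n)⁻¹ * β (β⁻¹ n))⁻¹ := by
          rw [MulAut.apply_inv_self]; group
        rw [e]
        exact inv_mem h2 }
  have hTT : ∀ β, β ∈ TT ↔ (∀ n, β n ∈ M ↔ n ∈ M) ∧ ∀ n ∈ M, n⁻¹ * β n ∈ K := fun β => Iff.rfl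
  have hαTT : α ∈ TT ↔ ∀ n ∈ M, n⁻¹ * α n ∈ K :=
    ⟨fun h => ((hTT α).1 h).2, fun h => (hTT α).2 ⟨gh_inv_iff α M hαM, h⟩⟩
  have hζTT : ζ ∈ TT ↔ ∀ n ∈ M, n⁻¹ * ζ n ∈ K :=
    ⟨fun h => ((hTT ζ).1 h).2, fun h => (hTT ζ).2 ⟨gh_inv_iff ζ M hζM, h⟩⟩
  have hbTT : ∀ j, b j ∈ TT ↔ ∀ n ∈ M, n⁻¹ * b j n ∈ K := fun j =>
    ⟨fun h => ((hTT _).1 h).2, fun h => (hTT _).2 ⟨gh_inv_iff (b j) M (hbinv j M hαM hζM), h⟩⟩
  have hall : α ∈ TT → ζ ∈ TT → ∀ j, b j ∈ TT := by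
    intro h1 h2 j
    by_cases hj : j < p
    · rw [hb1 j hj]; exact mul_mem h1 (pow_mem h2 j)
    · rw [hb2 j hj]; exact h2
  have htwo : ∀ j j', j < j' → j' < p + 1 → b j ∈ TT → b j' ∈ TT → α ∈ TT ∧ ζ ∈ TT := by
    intro j j' hjj' hj'p hbj hbj'
    have hj : j < p := by omega
    rw [hb1 j hj] at hbj
    have hζmem : ζ ∈ TT := by
      by_cases hj' : j' < p
      · rw [hb1 j' hj'] at hbj'
        have e : (α * ζ ^ j)⁻¹ * (α * ζ ^ j') = ζ ^ (j' - j) := by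
          have : ζ ^ j' = ζ ^ j * ζ ^ (j' - j) := by
            rw [← pow_add]; congr 1; omega
          rw [this]; group
        have h3 : ζ ^ (j' - j) ∈ TT := e ▸ mul_mem (inv_mem hbj) hbj'
        have hcop : Nat.Coprime (j' - j) (orderOf ζ) := by
          rcases (Nat.dvd_prime hp).1 (orderOf_dvd_of_pow_eq_one hζ) with h | h
          · rw [h]; exact Nat.coprime_one_right _
          · rw [h]
            exact Nat.Coprime.symm ((Nat.Prime.coprime_iff_not_dvd hp).2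
              (Nat.not_dvd_of_pos_of_lt (by omega) (by omega)))
        obtain ⟨m, hm⟩ := exists_pow_eq_self_of_coprime hcop
        rw [← hm]
        exact pow_mem h3 m
      · rw [hb2 j' hj'] at hbj'
        exact hbj'
    refine ⟨?_, hζmem⟩
    have e : α = (α * ζ ^ j) * (ζ ^ j)⁻¹ := (mul_inv_cancel_right _ _).symm
    rw [e]
    exact mul_mem hbj (inv_mem (pow_mem hζmem j))
  by_cases hcase : α ∈ TT ∧ ζ ∈ TT
  · exact gh_arith1 (fun j => Nat.card ↥(M ⊓ gfix (b j))) (fun j => Nat.card ↥(K ⊓ gfix (b j)))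
      _ _ _ _ p Nat.card_pos
      (fun j _ => hT1 j ((hbTT j).1 (hall hcase.1 hcase.2 j)))
      (hT3 (hαTT.1 hcase.1) (hζTT.1 hcase.2)) hIH
  · have hex : ∃ j₀ ∈ Finset.range (p + 1), ∀ j ∈ Finset.range (p + 1), j ≠ j₀ → b j ∉ TT := by
      by_cases hnone : ∃ j₀ ∈ Finset.range (p + 1), b j₀ ∈ TT
      · obtain ⟨j₀, hj₀, ht⟩ := hnone
        refine ⟨j₀, hj₀, fun j hj hne htj => hcase ?_⟩
        rcases lt_or_gt_of_ne hne with h | h
        · exact htwo j j₀ h (Finset.mem_range.1 hj₀) htj ht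
        · exact htwo j₀ j h (Finset.mem_range.1 hj) ht htj
      · push Not at hnone
        exact ⟨0, Finset.mem_range.2 (Nat.succ_pos p), fun j hj _ => hnone j hj⟩
    obtain ⟨j₀, hj₀, hrest⟩ := hex
    refine gh_arith2 (fun j => Nat.card ↥(M ⊓ gfix (b j))) (fun j => Nat.card ↥(K ⊓ gfix (b j)))
      _ _ _ _ p Nat.card_pos j₀ hj₀ ?_ ?_
      (Subgroup.card_le_of_le (inf_le_inf_right _ (inf_le_inf_right _ hKM))) hIH
    · by_cases ht : b j₀ ∈ TT
      · exact (hT1 j₀ ((hbTT j₀).1 ht)).le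
      · have h5 := hT2 j₀ (fun h => ht ((hbTT j₀).2 h))
        show Nat.card ↥(M ⊓ gfix (b j₀)) * Nat.card K ≤ Nat.card M * Nat.card ↥(K ⊓ gfix (b j₀))
        rw [h5, mul_comm]
        exact Nat.mul_le_mul_right _ hKlt.le
    · intro j hj hne
      have h5 := hT2 j (fun h => hrest j hj hne ((hbTT j).2 h))
      show Nat.card ↥(M ⊓ gfix (b j)) = Nat.card ↥(K ⊓ gfix (b j))
      rw [h5]

end Cfsg.Agent.H71
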