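import Mathlib
import Cfsg.Agent.H71.GheriA

set_option autoImplicit false

/-!
# Coprime action of a `p`-group on a solvable `p'`-group: the product inequality (helper71)

`(∏_{x ∈ P} |C_M(x)|)^p ≤ |M|^{|P|} · |C_M(P)|^{(p-1)|P|}`.
-/

namespace Cfsg.Agent.H71

universe u v

variable {R : Type*} [Group R] {P : Type*} [Group P]

/-- The common fixed points of a group of automorphisms. -/
def fixAll (φ : P →* MulAut R) : Subgroup R where
  carrier := {r | ∀ x, φ x r = r}
  mul_mem' := by
    intro a b ha hb x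
    rw [map_mul, ha x, hb x]
  one_mem' := fun x => map_one _
  inv_mem' := by
    intro a ha x
    rw [map_inv, ha x]

theorem mem_fixAll {φ : P →* MulAut R} {r : R} : r ∈ fixAll φ ↔ ∀ x, φ x r = r := Iff.rfl

/-- Restriction of an action by automorphisms to an invariant subgroup. -/
def restrictHom (φ : P →* MulAut R) (U : Subgroup R) (hU : ∀ x : P, ∀ u ∈ U, φ x u ∈ U) :
    P →* MulAut U where
  toFun x :=
    { toFun := fun u => ⟨φ x u, hU x u u.2⟩
      invFun := fun u => ⟨φ x⁻¹ u, hU x⁻¹ u u.2⟩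
      left_inv := fun u => Subtype.ext (by
        show φ x⁻¹ (φ x u) = u
        rw [← MulAut.mul_apply, ← map_mul, inv_mul_cancel, map_one]; rfl)
      right_inv := fun u => Subtype.ext (by
        show φ x (φ x⁻¹ u) = u
        rw [← MulAut.mul_apply, ← map_mul, mul_inv_cancel, map_one]; rfl)
      map_mul' := fun a b => Subtype.ext (map_mul (φ x) (a : R) (b : R)) }
  map_one' := by
    ext u
    show φ 1 u = u
    rw [map_one]; rfl
  map_mul' := by
    intro x y
    ext u
    show φ (x * y) u = φ x (φ y u)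
    rw [map_mul]; rfl

theorem restrictHom_apply (φ : P →* MulAut R) (U : Subgroup R)
    (hU : ∀ x : P, ∀ u ∈ U, φ x u ∈ U) (x : P) (u : U) :
    ((restrictHom φ U hU x u : U) : R) = φ x u := rfl

theorem card_gfix_restrict (φ : P →* MulAut R) (U : Subgroup R)
    (hU : ∀ x : P, ∀ u ∈ U, φ x u ∈ U) (x : P) :
    Nat.card (gfix (restrictHom φ U hU x)) = Nat.card ↥(U ⊓ gfix (φ x)) := by
  have e : (gfix (restrictHom φ U hU x)).map U.subtype = U ⊓ gfix (φ x) := by
    ext r
    simp only [Subgroup.mem_map, Subgroup.mem_inf, mem_gfix]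
    constructor
    · rintro ⟨u, hu, rfl⟩
      exact ⟨u.2, congrArg Subtype.val hu⟩
    · rintro ⟨hr, hfix⟩
      exact ⟨⟨r, hr⟩, Subtype.ext hfix, rfl⟩
  rw [← e, Subgroup.card_map_of_injective U.subtype_injective]

theorem card_fixAll_restrict (φ : P →* MulAut R) (U : Subgroup R)
    (hU : ∀ x : P, ∀ u ∈ U, φ x u ∈ U) :
    Nat.card (fixAll (restrictHom φ U hU)) = Nat.card ↥(U ⊓ fixAll φ) := by
  have e : (fixAll (restrictHom φ U hU)).map U.subtype = U ⊓ fixAll φ := by
    ext r
    simp only [Subgroup.mem_map, Subgroup.mem_inf, mem_fixAll]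
    constructor
    · rintro ⟨u, hu, rfl⟩
      exact ⟨u.2, fun x => congrArg Subtype.val (hu x)⟩
    · rintro ⟨hr, hfix⟩
      exact ⟨⟨r, hr⟩, fun x => Subtype.ext (hfix x), rfl⟩
  rw [← e, Subgroup.card_map_of_injective U.subtype_injective]

/-- A non-trivial homomorphic image of a finite `p`-group contains a central element of
order `p`. -/
theorem gh_central_elt (p : ℕ) [Fact p.Prime] [Finite P] (hP : IsPGroup p P) {H : Type*} [Group H]
    (φ : P →* H) (hne : ∃ x, φ x ≠ 1) :
    ∃ z : P, φ z ≠ 1 ∧ φ z ^ p = 1 ∧ ∀ x, Commute (φ x) (φ z) := by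
  have hr : IsPGroup p φ.range := hP.of_surjective φ.rangeRestrict φ.rangeRestrict_surjective
  have : Finite φ.range := Finite.of_surjective φ.rangeRestrict φ.rangeRestrict_surjective
  have : Nontrivial φ.range := by
    obtain ⟨x, hx⟩ := hne
    refine ⟨⟨⟨φ x, x, rfl⟩, 1, fun h => hx ?_⟩⟩
    exact congrArg Subtype.val h
  have hcn : Nontrivial (Subgroup.center φ.range) := hr.center_nontrivial
  have hcp : IsPGroup p (Subgroup.center φ.range) := hr.to_subgroup _
  have hdvd : p ∣ Nat.card (Subgroup.center φ.range) := by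
    rcases hcp.card_eq_or_dvd with h | h
    · exact absurd h (Finite.one_lt_card).ne'
    · exact h
  obtain ⟨c, hc⟩ := exists_prime_orderOf_dvd_card' p hdvd
  obtain ⟨z, hz⟩ := (c : φ.range).2
  have hc1 : c ≠ 1 := by
    intro h
    rw [h, orderOf_one] at hc
    exact (Fact.out : p.Prime).one_lt.ne hc
  have hcp' : c ^ p = 1 := hc ▸ pow_orderOf_eq_one c
  refine ⟨z, ?_, ?_, ?_⟩
  · intro h
    apply hc1
    apply Subtype.ext
    apply Subtype.ext
    rw [← hz, h]; rfl
  · rw [hz]
    have := congrArg (fun t : Subgroup.center φ.range => ((t : φ.range) : H)) hcp'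
    simpa using this
  · intro x
    have hmem := Subgroup.mem_center_iff.1 c.2 ⟨φ x, x, rfl⟩
    have := congrArg (fun t : φ.range => (t : H)) hmem
    simp only [Subgroup.coe_mul] at this
    rw [hz]
    exact this

/-- **Product inequality for coprime actions.** A finite `p`-group `P` acting on a finite
solvable `p'`-group `M`. -/
theorem gh_Lsol (p : ℕ) [Fact p.Prime] {P : Type v} [Group P] [Fintype P] (hP : IsPGroup p P) :
    ∀ (n : ℕ) (M : Type u) [Group M] [Finite M] [Group.IsSolvable M] (φ : P →* MulAut M),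
      Nat.card M = n → ¬ p ∣ Nat.card M →
      (∏ x : P, Nat.card (gfix (φ x))) ^ p ≤
        Nat.card M ^ Fintype.card P * Nat.card (fixAll φ) ^ ((p - 1) * Fintype.card P) := by
  have hp : p.Prime := Fact.out
  intro n
  induction n using Nat.strong_induction_on with
  | _ n ih =>
  intro M _ _ _ φ hn hpM
  subst hn
  by_cases htriv : ∀ x, φ x = 1
  · have h1 : ∀ x : P, gfix (φ x) = ⊤ := by
      intro x
      rw [htriv x]
      ext r
      simp [mem_gfix]
    have h2 : fixAll φ = ⊤ := by
      ext r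
      simp [mem_fixAll, htriv]
    simp only [h1, h2, Subgroup.card_top, Finset.prod_const, Finset.card_univ]
    rw [← pow_mul, ← pow_add]
    apply le_of_eq
    congr 1
    obtain ⟨q, rfl⟩ : ∃ q, p = q + 1 := ⟨p - 1, by have := hp.one_lt; omega⟩
    simp only [Nat.add_sub_cancel]
    ring
  · push Not at htriv
    obtain ⟨z, hz1, hzp, hzc⟩ := gh_central_elt p hP φ htriv
    have hU : ∀ x : P, ∀ u ∈ gfix (φ z), φ x u ∈ gfix (φ z) := by
      intro x u hu
      rw [mem_gfix] at hu ⊢
      have := congrArg (fun δ : MulAut M => δ u) (hzc x).eq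
      simp only [MulAut.mul_apply] at this
      rw [← this, hu]
    have hUlt : Nat.card (gfix (φ z)) < Nat.card M := by
      by_contra hcon
      push Not at hcon
      have htop : gfix (φ z) = ⊤ := by
        apply Subgroup.eq_top_of_le_card
        exact hcon
      apply hz1
      ext r
      have : r ∈ gfix (φ z) := htop ▸ Subgroup.mem_top r
      exact this
    have hpU : ¬ p ∣ Nat.card (gfix (φ z)) := fun h =>
      hpM (h.trans (Subgroup.card_subgroup_dvd_card _))
    have hIH := ih _ hUlt (gfix (φ z)) (restrictHom φ (gfix (φ z)) hU) rfl hpU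
    have hfle : fixAll φ ≤ gfix (φ z) := fun r hr => hr z
    rw [card_fixAll_restrict, inf_eq_right.2 hfle] at hIH
    simp only [card_gfix_restrict] at hIH
    -- Claim A for each `x`
    have hA : ∀ x : P, (∏ i ∈ Finset.range p, Nat.card (gfix (φ (x * z ^ i)))) *
        Nat.card (gfix (φ z)) ≤
        Nat.card M * Nat.card ↥(gfix (φ z) ⊓ gfix (φ x)) ^ p := by
      intro x
      obtain ⟨k, hk⟩ := hP x
      have hα : φ x ^ p ^ k = 1 := by rw [← map_pow, hk, map_one]
      have := gh_claimA p (φ x) (φ z) (hzc x) hzp k hα ⊤ (fun _ _ => Subgroup.mem_top _)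
        (fun _ _ => Subgroup.mem_top _) (by rwa [Subgroup.card_top])
      simp only [top_inf_eq, Subgroup.card_top] at this
      rw [inf_comm]
      have e : ∀ i, φ (x * z ^ i) = φ x * φ z ^ i := fun i => by rw [map_mul, map_pow]
      simp only [e]
      exact this
    -- reindexing
    have hre : (∏ x : P, Nat.card (gfix (φ x))) ^ p =
        ∏ x : P, ∏ i ∈ Finset.range p, Nat.card (gfix (φ (x * z ^ i))) := by
      rw [Finset.prod_comm]
      have : ∀ i ∈ Finset.range p, ∏ x : P, Nat.card (gfix (φ (x * z ^ i))) =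
          ∏ x : P, Nat.card (gfix (φ x)) := by
        intro i _
        exact Equiv.prod_comp (Equiv.mulRight (z ^ i)) (fun x => Nat.card (gfix (φ x)))
      rw [Finset.prod_congr rfl this, Finset.prod_const, Finset.card_range]
    have hupos : 0 < Nat.card (gfix (φ z)) := Nat.card_pos
    have hfin : (∏ x : P, Nat.card (gfix (φ x))) ^ p * Nat.card (gfix (φ z)) ^ Fintype.card P ≤
        (Nat.card M ^ Fintype.card P * Nat.card (fixAll φ) ^ ((p - 1) * Fintype.card P)) *
          Nat.card (gfix (φ z)) ^ Fintype.card P := by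
      calc (∏ x : P, Nat.card (gfix (φ x))) ^ p * Nat.card (gfix (φ z)) ^ Fintype.card P
          = ∏ x : P, ((∏ i ∈ Finset.range p, Nat.card (gfix (φ (x * z ^ i)))) *
              Nat.card (gfix (φ z))) := by
            rw [hre, Finset.prod_mul_distrib, Finset.prod_const, Finset.card_univ]
        _ ≤ ∏ x : P, (Nat.card M * Nat.card ↥(gfix (φ z) ⊓ gfix (φ x)) ^ p) :=
            Finset.prod_le_prod' (fun x _ => hA x)
        _ = Nat.card M ^ Fintype.card P *
              (∏ x : P, Nat.card ↥(gfix (φ z) ⊓ gfix (φ x))) ^ p := by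
            rw [Finset.prod_mul_distrib, Finset.prod_const, Finset.card_univ,
              Finset.prod_pow]
        _ ≤ Nat.card M ^ Fintype.card P * (Nat.card (gfix (φ z)) ^ Fintype.card P *
              Nat.card (fixAll φ) ^ ((p - 1) * Fintype.card P)) :=
            Nat.mul_le_mul_left _ hIH
        _ = _ := by ring
    exact Nat.le_of_mul_le_mul_right hfin (pow_pos hupos _)

/-- Internal form: a `p`-subgroup `P` normalizing a solvable `p'`-subgroup `Q`. -/
theorem gh_internal_sol {G : Type u} [Group G] [Finite G] (p : ℕ) [Fact p.Prime]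
    (P Q : Subgroup G) [Fintype P] (hP : IsPGroup p P)
    (hPQ : ∀ x ∈ P, ∀ q ∈ Q, x * q * x⁻¹ ∈ Q) [Group.IsSolvable Q] (hQ : ¬ p ∣ Nat.card Q) :
    (∏ x : P, Nat.card ↥(Q ⊓ Subgroup.centralizer {(x : G)})) ^ p ≤
      Nat.card Q ^ Nat.card P *
        Nat.card ↥(Q ⊓ Subgroup.centralizer (P : Set G)) ^ ((p - 1) * Nat.card P) := by
  let φ₀ : P →* MulAut G := (MulAut.conj).comp P.subtype
  have hφ₀ : ∀ (x : P) (r : G), φ₀ x r = (x : G) * r * (x : G)⁻¹ := fun x r => rfl
  have hinv : ∀ x : P, ∀ u ∈ Q, φ₀ x u ∈ Q := fun x u hu => hPQ x x.2 u hu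
  have h := gh_Lsol p hP (Nat.card Q) Q (restrictHom φ₀ Q hinv) rfl hQ
  rw [card_fixAll_restrict] at h
  simp only [card_gfix_restrict] at h
  have e1 : ∀ x : P, gfix (φ₀ x) = Subgroup.centralizer {(x : G)} := by
    intro x
    ext r
    rw [mem_gfix, hφ₀, Subgroup.mem_centralizer_singleton_iff, mul_inv_eq_iff_eq_mul]
    exact eq_comm
  have e2 : fixAll φ₀ = Subgroup.centralizer (P : Set G) := by
    ext r
    rw [mem_fixAll, Subgroup.mem_centralizer_iff]
    constructor
    · intro h1 y hy
      have := h1 ⟨y, hy⟩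
      rw [hφ₀, mul_inv_eq_iff_eq_mul] at this
      exact this
    · intro h1 x
      rw [hφ₀, mul_inv_eq_iff_eq_mul]
      exact h1 x x.2
  simp only [e1] at h
  rw [e2, ← Nat.card_eq_fintype_card] at h
  exact h

end Cfsg.Agent.H71
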