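import Mathlib
import Cfsg.Agent.H71.GheriB
import Cfsg.Agent.H58.SylInv

set_option autoImplicit false

/-!
# The product inequality for a `p`-subgroup normalizing a `p'`-subgroup (helper71)

Reduction to invariant Sylow subgroups of the `p'`-subgroup.
-/

namespace Cfsg.Agent.H71

universe u

/-- `P` normalizes the centralizer of `P`. -/
theorem gh_le_normalizer_centralizer {G : Type*} [Group G] (P : Subgroup G) :
    P ≤ Subgroup.normalizer ((Subgroup.centralizer (P : Set G) : Subgroup G) : Set G) := by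
  intro x hx
  rw [Subgroup.mem_normalizer_iff]
  intro h
  simp only [Subgroup.mem_centralizer_iff]
  constructor
  · intro hh y hy
    have h1 := hh (x⁻¹ * y * x) (mul_mem (mul_mem (inv_mem hx) hy) hx)
    have e1 : y * (x * h * x⁻¹) = x * ((x⁻¹ * y * x) * h) * x⁻¹ := by group
    have e2 : x * h * x⁻¹ * y = x * (h * (x⁻¹ * y * x)) * x⁻¹ := by group
    rw [e1, e2, h1]
  · intro hh y hy
    have h1 := hh (x * y * x⁻¹) (mul_mem (mul_mem hx hy) (inv_mem hx))
    have e1 : y * h = x⁻¹ * ((x * y * x⁻¹) * (x * h * x⁻¹)) * x := by group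
    have e2 : h * y = x⁻¹ * ((x * h * x⁻¹) * (x * y * x⁻¹)) * x := by group
    rw [e1, e2, h1]

/-- The intersection of two subgroups normalized by `x` is normalized by `x`. -/
theorem gh_mem_normalizer_inf {G : Type*} [Group G] (A B : Subgroup G) {x : G}
    (hA : x ∈ Subgroup.normalizer (A : Set G)) (hB : x ∈ Subgroup.normalizer (B : Set G)) :
    x ∈ Subgroup.normalizer ((A ⊓ B : Subgroup G) : Set G) := by
  rw [Subgroup.mem_normalizer_iff]
  intro g
  rw [Subgroup.mem_inf, Subgroup.mem_inf, ← Subgroup.mem_normalizer_iff.mp hA g,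
    ← Subgroup.mem_normalizer_iff.mp hB g]

/-- **Product inequality**, internal form: a `p`-subgroup `P` normalizing a `p'`-subgroup `N`
(not assumed solvable). -/
theorem gh_internal {G : Type u} [Group G] [Finite G] (p : ℕ) [Fact p.Prime]
    (P N : Subgroup G) [Fintype P] (hP : IsPGroup p P)
    (hPN : P ≤ Subgroup.normalizer (N : Set G)) (hN : ¬ p ∣ Nat.card N) :
    (∏ x : P, Nat.card ↥(N ⊓ Subgroup.centralizer {(x : G)})) ^ p ≤
      Nat.card N ^ Nat.card P *
        Nat.card ↥(N ⊓ Subgroup.centralizer (P : Set G)) ^ ((p - 1) * Nat.card P) := by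
  have hp : p.Prime := Fact.out
  have hc0 : ∀ x : P, Nat.card ↥(N ⊓ Subgroup.centralizer {(x : G)}) ≠ 0 := fun x =>
    Nat.card_pos.ne'
  have hL0 : (∏ x : P, Nat.card ↥(N ⊓ Subgroup.centralizer {(x : G)})) ^ p ≠ 0 :=
    pow_ne_zero _ (Finset.prod_ne_zero_iff.2 (fun x _ => hc0 x))
  have hN0 : Nat.card N ^ Nat.card P ≠ 0 := pow_ne_zero _ Nat.card_pos.ne'
  have hF0 : Nat.card ↥(N ⊓ Subgroup.centralizer (P : Set G)) ^ ((p - 1) * Nat.card P) ≠ 0 :=
    pow_ne_zero _ Nat.card_pos.ne'
  have hR0 : Nat.card N ^ Nat.card P *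
      Nat.card ↥(N ⊓ Subgroup.centralizer (P : Set G)) ^ ((p - 1) * Nat.card P) ≠ 0 :=
    mul_ne_zero hN0 hF0
  apply Nat.le_of_dvd (Nat.pos_of_ne_zero hR0)
  rw [← Nat.factorization_le_iff_dvd hL0 hR0]
  intro q
  by_cases hq : q.Prime
  swap
  · rw [Nat.factorization_eq_zero_of_not_prime _ hq]
    exact Nat.zero_le _
  have : Fact q.Prime := ⟨hq⟩
  obtain ⟨k, hk⟩ := IsPGroup.iff_card.mp hP
  have hcop : (Nat.card P).Coprime (Nat.card N) := by
    rw [hk]
    exact Nat.Coprime.pow_left k ((Nat.Prime.coprime_iff_not_dvd hp).2 hN)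
  have hPnil : Group.IsNilpotent P := hP.isNilpotent
  have hPs : Group.IsSolvable P := inferInstance
  obtain ⟨S, hS⟩ := Cfsg.Agent.S0023.result P N hPN hcop (Or.inl hPs) q
  obtain ⟨Q, hQdef⟩ : ∃ Q : Subgroup G, Q = (S : Subgroup N).map N.subtype := ⟨_, rfl⟩
  rw [← hQdef] at hS
  have hQN : Q ≤ N := hQdef ▸ Subgroup.map_subtype_le _
  have hQq : IsPGroup q Q := hQdef ▸ S.isPGroup'.map _
  have hQc : Nat.card Q = q ^ (Nat.card N).factorization q := hQdef ▸ H58.card_map_sylow S
  -- fixed points of single elements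
  have hx : ∀ x : P, Nat.card ↥(Q ⊓ Subgroup.centralizer {(x : G)}) =
      q ^ (Nat.card ↥(N ⊓ Subgroup.centralizer {(x : G)})).factorization q := by
    intro x
    have hzP : Subgroup.zpowers (x : G) ≤ P := (Subgroup.zpowers_le).2 x.2
    have hAs : Group.IsSolvable (Subgroup.zpowers (x : G)) :=
      Group.isSolvable_of_isSolvable_injective (Subgroup.inclusion_injective hzP)
    have hcop' : (Nat.card (Subgroup.zpowers (x : G))).Coprime (Nat.card N) :=
      Nat.Coprime.coprime_dvd_left (Subgroup.card_dvd_of_le hzP) hcop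
    have hxc : (x : G) ∈ Subgroup.normalizer
        ((Subgroup.centralizer {(x : G)} : Subgroup G) : Set G) :=
      Subgroup.le_normalizer (Subgroup.mem_centralizer_singleton_iff.2 rfl)
    have h1 := H58.card_inf_of_invariant_sylow (Subgroup.zpowers (x : G)) N
      (N ⊓ Subgroup.centralizer {(x : G)}) Q ((Subgroup.zpowers_le).2 (hPN x.2)) hcop' hAs
      inf_le_left ((Subgroup.zpowers_le).2 (gh_mem_normalizer_inf _ _ (hPN x.2) hxc))
      ((inf_le_inf_left N (Subgroup.centralizer_le (by
        intro y hy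
        rw [Set.mem_singleton_iff] at hy
        rw [hy]
        exact Subgroup.mem_zpowers _))).trans Subgroup.le_normalizer)
      hQN hQq ((Subgroup.zpowers_le).2 (hS x.2)) hQc
    rw [← h1, ← inf_assoc, inf_eq_left.2 hQN]
  -- common fixed points
  have hPf : Nat.card ↥(Q ⊓ Subgroup.centralizer (P : Set G)) =
      q ^ (Nat.card ↥(N ⊓ Subgroup.centralizer (P : Set G))).factorization q := by
    have h1 := H58.card_inf_of_invariant_sylow P N (N ⊓ Subgroup.centralizer (P : Set G)) Q
      hPN hcop hPs inf_le_left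
      (fun x hx => gh_mem_normalizer_inf _ _ (hPN hx) (gh_le_normalizer_centralizer P hx))
      Subgroup.le_normalizer hQN hQq hS hQc
    rw [← h1, ← inf_assoc, inf_eq_left.2 hQN]
  have hQnil : Group.IsNilpotent Q := hQq.isNilpotent
  have hQs : Group.IsSolvable Q := inferInstance
  have hQp : ¬ p ∣ Nat.card Q := fun h => hN (h.trans (Subgroup.card_dvd_of_le hQN))
  have hmain := gh_internal_sol p P Q hP
    (fun x hx y hy => (Subgroup.mem_normalizer_iff.1 (hS hx) y).1 hy) hQp
  simp only [hx] at hmain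
  rw [hPf, hQc, Finset.prod_pow_eq_pow_sum, ← pow_mul, ← pow_mul, ← pow_mul, ← pow_add] at hmain
  have hexp := (Nat.pow_le_pow_iff_right hq.one_lt).1 hmain
  -- factorizations
  rw [Nat.factorization_pow, Nat.factorization_prod (fun x _ => hc0 x),
    Nat.factorization_mul hN0 hF0, Nat.factorization_pow, Nat.factorization_pow]
  simp only [Finsupp.smul_apply, Finsupp.add_apply, Finsupp.finsetSum_apply, smul_eq_mul]
  calc p * ∑ x : P, (Nat.card ↥(N ⊓ Subgroup.centralizer {(x : G)})).factorization q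
      = (∑ x : P, (Nat.card ↥(N ⊓ Subgroup.centralizer {(x : G)})).factorization q) * p := by
        ring
    _ ≤ _ := hexp
    _ = _ := by ring

end Cfsg.Agent.H71
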