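import Mathlib
import Cfsg.Agent.H71.SylowConj
import Cfsg.Agent.H71.ConjMod

set_option autoImplicit false

/-!
# Sylow subgroups containing a given element, and quotients (helper71)

`lam p x` is the number of Sylow `p`-subgroups containing `x`.  We relate `lam` in `G` and in
`G ⧸ N` for a normal `p`-subgroup and for a normal `p'`-subgroup `N`.
-/

namespace Cfsg.Agent.H71

/-- The number of Sylow `p`-subgroups containing `x`. -/
noncomputable def lam (p : ℕ) {G : Type*} [Group G] (x : G) : ℕ :=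
  Nat.card {Q : Sylow p G // x ∈ Q}

variable {G : Type*} [Group G]

theorem lam_one (p : ℕ) : lam p (1 : G) = Nat.card (Sylow p G) :=
  Nat.card_congr (Equiv.subtypeUnivEquiv (fun Q => one_mem Q))

theorem lam_le (p : ℕ) [Finite (Sylow p G)] (x : G) : lam p x ≤ Nat.card (Sylow p G) :=
  Nat.card_le_card_of_injective _ Subtype.val_injective

theorem lam_eq_card_filter (p : ℕ) [Fintype (Sylow p G)] (x : G)
    [DecidablePred (fun Q : Sylow p G => x ∈ Q)] :
    lam p x = (Finset.univ.filter (fun Q : Sylow p G => x ∈ Q)).card := by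
  unfold lam
  rw [Nat.card_eq_fintype_card, Fintype.card_subtype]

theorem lam_pos_of_mem {p : ℕ} [Finite (Sylow p G)] (P : Sylow p G) {x : G} (hx : x ∈ P) :
    0 < lam p x := by
  have : Nonempty {Q : Sylow p G // x ∈ Q} := ⟨⟨P, hx⟩⟩
  exact Nat.card_pos

theorem lam_ne_zero_iff [Finite G] {p : ℕ} [Fact p.Prime] (x : G) :
    lam p x ≠ 0 ↔ ∃ k : ℕ, orderOf x = p ^ k := by
  constructor
  · intro h
    have hne : Nonempty {Q : Sylow p G // x ∈ Q} := by
      by_contra hcon
      rw [not_nonempty_iff] at hcon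
      exact h Nat.card_of_isEmpty
    obtain ⟨⟨Q, hQ⟩⟩ := hne
    obtain ⟨k, hk⟩ := (IsPGroup.iff_orderOf.1 Q.isPGroup') ⟨x, hQ⟩
    exact ⟨k, by rw [← hk, Subgroup.orderOf_mk]⟩
  · intro h
    obtain ⟨Q, hQ⟩ := (isPGroup_zpowers h).exists_le_sylow
    exact (lam_pos_of_mem Q (hQ (Subgroup.mem_zpowers x))).ne'

theorem lam_conj (p : ℕ) (g x : G) : lam p (g * x * g⁻¹) = lam p x := by
  unfold lam
  apply Nat.card_congr
  refine (Equiv.subtypeEquiv (MulAction.toPerm g) (fun Q => ?_)).symm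
  show x ∈ Q ↔ g * x * g⁻¹ ∈ g • Q
  rw [mem_smul_sylow_iff]
  have e : g⁻¹ * (g * x * g⁻¹) * g = x := by group
  rw [e]

section Quot

variable [Finite G] {p : ℕ} [Fact p.Prime] (N : Subgroup G) [N.Normal]

/-- Lifting Sylow subgroups containing the image of a `p`-element. -/
theorem gh_sylow_lift {x : G} (hx : ∃ k : ℕ, orderOf x = p ^ k) (Qb : Sylow p (G ⧸ N))
    (hxQ : (x : G ⧸ N) ∈ Qb) :
    ∃ Q : Sylow p G, x ∈ Q ∧ Sylow.mapSurjective (QuotientGroup.mk'_surjective N) Q = Qb := by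
  obtain ⟨L, hL⟩ : ∃ L : Subgroup G, L = (Qb : Subgroup (G ⧸ N)).comap (QuotientGroup.mk' N) :=
    ⟨_, rfl⟩
  have hxL : x ∈ L := by rw [hL]; exact hxQ
  have hLmem : ∀ g : G, g ∈ L → (QuotientGroup.mk' N) g ∈ Qb := by
    intro g hg
    rw [hL] at hg
    exact hg
  have hidx : L.index = (Qb : Subgroup (G ⧸ N)).index := by
    rw [hL]; exact Subgroup.index_comap_of_surjective _ (QuotientGroup.mk'_surjective N)
  have hnd : ¬ p ∣ L.index := by rw [hidx]; exact Qb.not_dvd_index
  have hfac : (Nat.card L).factorization p = (Nat.card G).factorization p := by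
    have h1 : Nat.card L * L.index = Nat.card G := Subgroup.card_mul_index L
    rw [← h1, Nat.factorization_mul Nat.card_pos.ne' (Subgroup.index_ne_zero_of_finite),
      Finsupp.add_apply, Nat.factorization_eq_zero_of_not_dvd hnd, add_zero]
  have hz : IsPGroup p (Subgroup.zpowers (⟨x, hxL⟩ : L)) := by
    apply isPGroup_zpowers
    obtain ⟨k, hk⟩ := hx
    exact ⟨k, by rw [← hk, Subgroup.orderOf_mk]⟩
  obtain ⟨S, hS⟩ := hz.exists_le_sylow
  have hcard : Nat.card ((S : Subgroup L).map L.subtype) = p ^ (Nat.card G).factorization p := by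
    rw [Subgroup.card_map_of_injective L.subtype_injective, S.card_eq_multiplicity, hfac]
  have hQ : ((Sylow.ofCard _ hcard : Sylow p G) : Subgroup G) = (S : Subgroup L).map L.subtype :=
    Sylow.coe_ofCard _ _
  refine ⟨Sylow.ofCard _ hcard, ?_, ?_⟩
  · show x ∈ ((Sylow.ofCard _ hcard : Sylow p G) : Subgroup G)
    rw [hQ]
    exact ⟨⟨x, hxL⟩, hS (Subgroup.mem_zpowers _), rfl⟩
  · have hle : ((Sylow.mapSurjective (QuotientGroup.mk'_surjective N)
        (Sylow.ofCard _ hcard : Sylow p G) : Sylow p (G ⧸ N)) : Subgroup (G ⧸ N)) ≤ Qb := by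
      rw [Sylow.coe_mapSurjective, hQ]
      rintro _ ⟨y, ⟨l, _, rfl⟩, rfl⟩
      exact hLmem _ l.2
    exact Sylow.ext (Sylow.is_maximal' _ Qb.isPGroup' hle).symm

/-- For a normal `p`-subgroup `N`, `lam` is unchanged in the quotient. -/
theorem gh_lam_quot_pgroup (hN : IsPGroup p N) (x : G) : lam p x = lam p (x : G ⧸ N) := by
  have hNle : ∀ Q : Sylow p G, N ≤ Q := by
    intro Q
    have h1 : IsPGroup p ↥((Q : Subgroup G) ⊔ N) := Q.isPGroup'.to_sup_of_normal_right hN
    have h2 := Q.is_maximal' h1 le_sup_left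
    rw [← h2]
    exact le_sup_right
  have key : ∀ Q : Sylow p G, ((Q : Subgroup G).map (QuotientGroup.mk' N)).comap
      (QuotientGroup.mk' N) = Q := by
    intro Q
    rw [Subgroup.comap_map_eq, QuotientGroup.ker_mk', sup_eq_left.2 (hNle Q)]
  unfold lam
  apply Nat.card_congr
  refine Equiv.ofBijective (fun Q => ⟨Sylow.mapSurjective (QuotientGroup.mk'_surjective N) Q.1,
    ?_⟩) ⟨?_, ?_⟩
  · show (x : G ⧸ N) ∈ ((Sylow.mapSurjective (QuotientGroup.mk'_surjective N) Q.1 :
      Sylow p (G ⧸ N)) : Subgroup (G ⧸ N))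
    rw [Sylow.coe_mapSurjective]
    exact ⟨x, Q.2, rfl⟩
  · rintro ⟨Q₁, h₁⟩ ⟨Q₂, h₂⟩ h
    have h' := congrArg (fun Q : {Q : Sylow p (G ⧸ N) // (x : G ⧸ N) ∈ Q} =>
      ((Q.1 : Sylow p (G ⧸ N)) : Subgroup (G ⧸ N))) h
    simp only [Sylow.coe_mapSurjective] at h'
    apply Subtype.ext
    apply Sylow.ext
    show (Q₁ : Subgroup G) = Q₂
    rw [← key Q₁, ← key Q₂, h']
  · rintro ⟨Qb, hQb⟩
    obtain ⟨Q, hQ⟩ := Sylow.mapSurjective_surjective (QuotientGroup.mk'_surjective N) p Qb
    have hxQ : x ∈ Q := by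
      have h3 : (x : G ⧸ N) ∈ ((Sylow.mapSurjective (QuotientGroup.mk'_surjective N) Q :
          Sylow p (G ⧸ N)) : Subgroup (G ⧸ N)) := by rw [hQ]; exact hQb
      rw [Sylow.coe_mapSurjective] at h3
      obtain ⟨y, hy, hyx⟩ := h3
      have h4 : y⁻¹ * x ∈ N := QuotientGroup.eq.1 hyx
      have e : x = y * (y⁻¹ * x) := by group
      rw [e]
      exact mul_mem hy (hNle Q h4)
    exact ⟨⟨Q, hxQ⟩, Subtype.ext hQ⟩

/-- The order of `N ∩ C(Q)` does not depend on the Sylow subgroup `Q`. -/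
theorem gh_card_cent_sylow (Q₁ Q₂ : Sylow p G) :
    Nat.card ↥(N ⊓ Subgroup.centralizer (Q₁ : Set G)) =
      Nat.card ↥(N ⊓ Subgroup.centralizer (Q₂ : Set G)) := by
  have key : ∀ Q₁ Q₂ : Sylow p G, Nat.card ↥(N ⊓ Subgroup.centralizer (Q₁ : Set G)) ≤
      Nat.card ↥(N ⊓ Subgroup.centralizer (Q₂ : Set G)) := by
    intro Q₁ Q₂
    obtain ⟨g, hg⟩ := MulAction.exists_smul_eq G Q₁ Q₂
    have hle : (N ⊓ Subgroup.centralizer (Q₁ : Set G)).map (MulAut.conj g).toMonoidHom ≤
        N ⊓ Subgroup.centralizer (Q₂ : Set G) := by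
      rintro _ ⟨n, hn, rfl⟩
      obtain ⟨hnN, hnC⟩ := Subgroup.mem_inf.1 hn
      refine Subgroup.mem_inf.2 ⟨?_, ?_⟩
      · show g * n * g⁻¹ ∈ N
        exact ‹N.Normal›.conj_mem n hnN g
      · rw [Subgroup.mem_centralizer_iff]
        intro y hy
        have hy' : y ∈ g • Q₁ := hg ▸ hy
        rw [mem_smul_sylow_iff] at hy'
        have h1 := (Subgroup.mem_centralizer_iff.1 hnC) _ hy'
        show y * (g * n * g⁻¹) = g * n * g⁻¹ * y
        have e1 : y * (g * n * g⁻¹) = g * ((g⁻¹ * y * g) * n) * g⁻¹ := by group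
        have e2 : g * n * g⁻¹ * y = g * (n * (g⁻¹ * y * g)) * g⁻¹ := by group
        rw [e1, e2, h1]
    rw [← Subgroup.card_map_of_injective (f := (MulAut.conj g).toMonoidHom)
      (MulAut.conj g).injective (K := N ⊓ Subgroup.centralizer (Q₁ : Set G))]
    exact Subgroup.card_le_of_le hle
  exact le_antisymm (key Q₁ Q₂) (key Q₂ Q₁)

/-- The fibre of `Q ↦ QN/N` through `Q₀` among the Sylow subgroups containing `x` is an orbit
of `C_N(x)` with stabilizer `C_N(Q₀)`. -/
theorem gh_fibre (hN : ¬ p ∣ Nat.card N) (Q₀ : Sylow p G) (x : G) (hx : x ∈ Q₀) :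
    Nat.card {Q : Sylow p G // x ∈ Q ∧
      Sylow.mapSurjective (QuotientGroup.mk'_surjective N) Q =
        Sylow.mapSurjective (QuotientGroup.mk'_surjective N) Q₀} *
      Nat.card ↥(N ⊓ Subgroup.centralizer (Q₀ : Set G)) =
    Nat.card ↥(N ⊓ Subgroup.centralizer {x}) := by
  obtain ⟨C, hC⟩ : ∃ C : Subgroup G, C = N ⊓ Subgroup.centralizer {x} := ⟨_, rfl⟩
  rw [← hC]
  have hCmem : ∀ c, c ∈ C ↔ c ∈ N ∧ c * x = x * c := by
    intro c
    rw [hC, Subgroup.mem_inf, Subgroup.mem_centralizer_singleton_iff]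
  have hQN : ∀ y, y ∈ Q₀ → y ∈ N → y = 1 := by
    intro y hy hyN
    obtain ⟨k, hk⟩ := Q₀.isPGroup' ⟨y, hy⟩
    have hk' : y ^ p ^ k = 1 := by
      have := congrArg Subtype.val hk
      simpa using this
    exact eq_one_of_mem_of_pow N hN hyN hk'
  have hmk1 : ∀ c ∈ N, (QuotientGroup.mk' N) c = 1 := fun c hc =>
    (QuotientGroup.eq_one_iff c).2 hc
  have horb : Nat.card (MulAction.orbit C Q₀) * Nat.card (MulAction.stabilizer C Q₀) =
      Nat.card C := by
    rw [Nat.card_congr (MulAction.orbitEquivQuotientStabilizer C Q₀)]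
    exact (Subgroup.card_eq_card_quotient_mul_card_subgroup _).symm
  have h1 : Nat.card (MulAction.orbit C Q₀) = Nat.card {Q : Sylow p G // x ∈ Q ∧
      Sylow.mapSurjective (QuotientGroup.mk'_surjective N) Q =
        Sylow.mapSurjective (QuotientGroup.mk'_surjective N) Q₀} := by
    apply Nat.card_congr
    apply Equiv.subtypeEquivRight
    intro Q
    constructor
    · rintro ⟨c, rfl⟩
      obtain ⟨hcN, hcx⟩ := (hCmem c).1 c.2
      have hc1 := hmk1 _ hcN
      refine ⟨?_, ?_⟩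
      · show x ∈ (c : G) • Q₀
        rw [mem_smul_sylow_iff]
        have e : (c : G)⁻¹ * x * c = x := by rw [mul_assoc, ← hcx, inv_mul_cancel_left]
        rw [e]
        exact hx
      · apply Sylow.ext
        rw [Sylow.coe_mapSurjective, Sylow.coe_mapSurjective]
        ext yb
        simp only [Subgroup.mem_map]
        constructor
        · rintro ⟨y, hy, rfl⟩
          have hy' : y ∈ (c : G) • Q₀ := hy
          rw [mem_smul_sylow_iff] at hy'
          refine ⟨_, hy', ?_⟩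
          rw [map_mul, map_mul, map_inv, hc1]
          simp
        · rintro ⟨y, hy, rfl⟩
          refine ⟨(c : G) * y * (c : G)⁻¹, ?_, ?_⟩
          · show (c : G) * y * (c : G)⁻¹ ∈ (c : G) • Q₀
            rw [mem_smul_sylow_iff]
            have e : (c : G)⁻¹ * ((c : G) * y * (c : G)⁻¹) * c = y := by group
            rw [e]
            exact hy
          · rw [map_mul, map_mul, map_inv, hc1]
            simp
    · rintro ⟨hxQ, hF⟩
      have hF' : (Q : Subgroup G).map (QuotientGroup.mk' N) =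
          (Q₀ : Subgroup G).map (QuotientGroup.mk' N) := by
        have := congrArg (fun S : Sylow p (G ⧸ N) => (S : Subgroup (G ⧸ N))) hF
        simpa only [Sylow.coe_mapSurjective] using this
      have hsub : ∀ A B : Subgroup G, A.map (QuotientGroup.mk' N) = B.map (QuotientGroup.mk' N) →
          A ≤ N ⊔ B := by
        intro A B hAB y hy
        have h3 : (QuotientGroup.mk' N) y ∈ B.map (QuotientGroup.mk' N) :=
          hAB ▸ Subgroup.mem_map_of_mem _ hy
        obtain ⟨y₀, hy₀, hyy⟩ := h3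
        have h4 : y₀⁻¹ * y ∈ N := QuotientGroup.eq.1 hyy
        have h5 : y₀ * (y₀⁻¹ * y) * y₀⁻¹ ∈ N := ‹N.Normal›.conj_mem _ h4 y₀
        have e : y = (y₀ * (y₀⁻¹ * y) * y₀⁻¹) * y₀ := by group
        rw [e]
        exact mul_mem (Subgroup.mem_sup_left h5) (Subgroup.mem_sup_right hy₀)
      obtain ⟨n, hnN, hconj⟩ := conj_mod_normal N hN (Q₀ : Subgroup G) (Q : Subgroup G)
        Q₀.isPGroup' Q.isPGroup' (hsub _ _ hF'.symm) (hsub _ _ hF')
      have h6 : n⁻¹ * x * n ∈ Q₀ := (hconj x).1 hxQ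
      have h7 : n⁻¹ * x * n * x⁻¹ = 1 := by
        apply hQN _ (mul_mem h6 (inv_mem hx))
        have e : n⁻¹ * x * n * x⁻¹ = n⁻¹ * (x * n * x⁻¹) := by group
        rw [e]
        exact mul_mem (inv_mem hnN) (‹N.Normal›.conj_mem n hnN x)
      have h8 : n * x = x * n := by
        have e : x * n = n * (n⁻¹ * x * n * x⁻¹) * x := by group
        rw [e, h7, mul_one]
      refine ⟨⟨n, (hCmem n).2 ⟨hnN, h8⟩⟩, ?_⟩
      apply Sylow.ext
      ext y
      show y ∈ n • Q₀ ↔ y ∈ Q
      rw [mem_smul_sylow_iff]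
      exact (hconj y).symm
  have h2 : Nat.card (MulAction.stabilizer C Q₀) =
      Nat.card ↥(N ⊓ Subgroup.centralizer (Q₀ : Set G)) := by
    have e : (MulAction.stabilizer C Q₀).map C.subtype =
        N ⊓ Subgroup.centralizer (Q₀ : Set G) := by
      ext c
      constructor
      · rintro ⟨c', hc'', rfl⟩
        have hc' : c' • Q₀ = Q₀ := MulAction.mem_stabilizer_iff.1 hc''
        obtain ⟨hcN, -⟩ := (hCmem c').1 c'.2
        refine Subgroup.mem_inf.2 ⟨hcN, ?_⟩
        rw [Subgroup.mem_centralizer_iff]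
        intro q hq
        have hq' : (c' : G) * q * (c' : G)⁻¹ ∈ Q₀ := by
          have h3 : (c' : G) * q * (c' : G)⁻¹ ∈ (c' : G) • Q₀ := by
            rw [mem_smul_sylow_iff]
            have e : (c' : G)⁻¹ * ((c' : G) * q * (c' : G)⁻¹) * c' = q := by group
            rw [e]
            exact hq
          have h4 : (c' : G) • Q₀ = Q₀ := hc'
          rw [h4] at h3
          exact h3
        have h5 : (c' : G) * q * (c' : G)⁻¹ * q⁻¹ = 1 := by
          apply hQN _ (mul_mem hq' (inv_mem hq))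
          have e : (c' : G) * q * (c' : G)⁻¹ * q⁻¹ = c' * (q * (c' : G)⁻¹ * q⁻¹) := by group
          rw [e]
          exact mul_mem hcN (‹N.Normal›.conj_mem _ (inv_mem hcN) q)
        show q * (c' : G) = c' * q
        have e : (c' : G) * q = ((c' : G) * q * (c' : G)⁻¹ * q⁻¹) * q * c' := by group
        rw [e, h5, one_mul]
      · intro hc
        obtain ⟨hcN, hcC⟩ := Subgroup.mem_inf.1 hc
        rw [Subgroup.mem_centralizer_iff] at hcC
        refine ⟨⟨c, (hCmem c).2 ⟨hcN, (hcC x hx).symm⟩⟩, MulAction.mem_stabilizer_iff.2 ?_, rfl⟩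
        apply Sylow.ext
        ext y
        show y ∈ c • Q₀ ↔ y ∈ Q₀
        rw [mem_smul_sylow_iff]
        constructor
        · intro hy
          have h3 := hcC _ hy
          have e : y = c * (c⁻¹ * y * c) * c⁻¹ := by group
          rw [e, ← h3]
          have e2 : c⁻¹ * y * c * c * c⁻¹ = c⁻¹ * y * c := by group
          rw [e2]
          exact hy
        · intro hy
          have h3 := hcC _ hy
          have e : c⁻¹ * y * c = c⁻¹ * (y * c) := by group
          rw [e, h3, inv_mul_cancel_left]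
          exact hy
    rw [← e, Subgroup.card_map_of_injective C.subtype_injective]
  rw [← h1, ← h2]
  exact horb

/-- For a normal `p'`-subgroup `N` and `x` in a Sylow `p`-subgroup `P`:
`lam(x) · |C_N(P)| = lam(xN) · |C_N(x)|`. -/
theorem gh_lam_quot_coprime (hN : ¬ p ∣ Nat.card N) (P : Sylow p G) (x : G) (hx : x ∈ P) :
    lam p x * Nat.card ↥(N ⊓ Subgroup.centralizer (P : Set G)) =
      lam p (x : G ⧸ N) * Nat.card ↥(N ⊓ Subgroup.centralizer {x}) := by
  classical
  have : Fintype (Sylow p G) := Fintype.ofFinite _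
  have : Fintype (Sylow p (G ⧸ N)) := Fintype.ofFinite _
  have hxp : ∃ k : ℕ, orderOf x = p ^ k := (lam_ne_zero_iff x).1 (lam_pos_of_mem P hx).ne'
  rw [lam_eq_card_filter, lam_eq_card_filter]
  have hmaps : Set.MapsTo (Sylow.mapSurjective (QuotientGroup.mk'_surjective N))
      (↑(Finset.univ.filter (fun Q : Sylow p G => x ∈ Q)) : Set (Sylow p G))
      (↑(Finset.univ.filter (fun Q : Sylow p (G ⧸ N) => (x : G ⧸ N) ∈ Q)) :
        Set (Sylow p (G ⧸ N))) := by
    intro Q hQ
    simp only [Finset.coe_filter, Finset.mem_univ, true_and, Set.mem_ofPred_eq] at hQ ⊢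
    show (x : G ⧸ N) ∈ ((Sylow.mapSurjective (QuotientGroup.mk'_surjective N) Q :
      Sylow p (G ⧸ N)) : Subgroup (G ⧸ N))
    rw [Sylow.coe_mapSurjective]
    exact ⟨x, hQ, rfl⟩
  rw [Finset.card_eq_sum_card_fiberwise hmaps, Finset.sum_mul]
  have hfib : ∀ Qb ∈ Finset.univ.filter (fun Q : Sylow p (G ⧸ N) => (x : G ⧸ N) ∈ Q),
      ((Finset.univ.filter (fun Q : Sylow p G => x ∈ Q)).filter
        (fun Q => Sylow.mapSurjective (QuotientGroup.mk'_surjective N) Q = Qb)).card *
        Nat.card ↥(N ⊓ Subgroup.centralizer (P : Set G)) =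
      Nat.card ↥(N ⊓ Subgroup.centralizer {x}) := by
    intro Qb hQb
    simp only [Finset.mem_filter, Finset.mem_univ, true_and] at hQb
    obtain ⟨Q₀, hxQ₀, hQ₀⟩ := gh_sylow_lift N hxp Qb hQb
    have h1 := gh_fibre N hN Q₀ x hxQ₀
    rw [gh_card_cent_sylow N Q₀ P, Nat.card_eq_fintype_card, Fintype.card_subtype, hQ₀] at h1
    rw [Finset.filter_filter]
    exact h1
  rw [Finset.sum_congr rfl hfib, Finset.sum_const, smul_eq_mul]

end Quot

end Cfsg.Agent.H71
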