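import Mathlib
import Cfsg.Prelude.Def_Local
import Cfsg.Agent.H71.GheriC
import Cfsg.Agent.H71.GheriD

set_option autoImplicit false

/-!
# The product of `lam` over a Sylow subgroup of a `p`-solvable group (helper71)

`(∏_{x ∈ P} lam(x))^p ≤ |Syl_p(G)|^{|P|}` for `p`-solvable `G`.
-/

namespace Cfsg.Agent.H71

universe u

/-- The key multiplicative inequality. -/
def GhM (p : ℕ) (G : Type*) [Group G] : Prop :=
  ∀ (P : Sylow p G) [Fintype (P : Subgroup G)],
    (∏ x : (P : Subgroup G), lam p (x : G)) ^ p ≤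
      Nat.card (Sylow p G) ^ Nat.card (P : Subgroup G)

/-- Products over a subgroup of a function of the image in a quotient. -/
theorem gh_prod_quot {G : Type*} [Group G] (N : Subgroup G) [N.Normal] (P : Subgroup G)
    [Fintype P] (Pb : Subgroup (G ⧸ N)) [Fintype Pb] (hPb : Pb = P.map (QuotientGroup.mk' N)) :
    ∃ c : ℕ, Nat.card P = Nat.card Pb * c ∧
      ∀ f : G ⧸ N → ℕ, ∏ x : P, f ((x : G) : G ⧸ N) = (∏ y : Pb, f y) ^ c := by
  classical
  obtain ⟨π', hπ'⟩ : ∃ π' : P →* G ⧸ N, π' = (QuotientGroup.mk' N).comp P.subtype := ⟨_, rfl⟩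
  have hπ'a : ∀ a : P, π' a = ((a : G) : G ⧸ N) := fun a => by rw [hπ']; rfl
  have himg : ∀ b : G ⧸ N, b ∈ Finset.univ.image π' ↔ b ∈ Pb := by
    intro b
    rw [hPb]
    simp only [Finset.mem_image, Finset.mem_univ, true_and, Subgroup.mem_map]
    constructor
    · rintro ⟨a, rfl⟩
      exact ⟨a, a.2, (hπ'a a).symm⟩
    · rintro ⟨a, ha, rfl⟩
      exact ⟨⟨a, ha⟩, hπ'a _⟩
  have hfib : ∀ b ∈ Finset.univ.image π',
      (Finset.univ.filter (fun a : P => π' a = b)).card =
        (Finset.univ.filter (fun a : P => π' a = 1)).card := by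
    intro b hb
    apply MonoidHom.card_fiber_eq_of_mem_range π'
    · obtain ⟨a, _, rfl⟩ := Finset.mem_image.1 hb
      exact ⟨a, rfl⟩
    · exact ⟨1, map_one π'⟩
  refine ⟨(Finset.univ.filter (fun a : P => π' a = 1)).card, ?_, ?_⟩
  · have hmaps : Set.MapsTo π' (↑(Finset.univ : Finset P) : Set P)
        (↑(Finset.univ.image π') : Set (G ⧸ N)) := by
      intro a _
      exact Finset.mem_coe.2 (Finset.mem_image_of_mem _ (Finset.mem_univ a))
    rw [Nat.card_eq_fintype_card, Nat.card_eq_fintype_card, ← Finset.card_univ (α := P),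
      Finset.card_eq_sum_card_fiberwise hmaps, Finset.sum_congr rfl hfib, Finset.sum_const,
      smul_eq_mul, Fintype.card_of_subtype (Finset.univ.image π') himg]
  · intro f
    have h1 : ∏ x : P, f ((x : G) : G ⧸ N) = ∏ a : P, f (π' a) :=
      Finset.prod_congr rfl (fun a _ => by rw [hπ'a a])
    rw [h1, Finset.prod_comp f π', Finset.prod_congr rfl (fun b hb => by rw [hfib b hb]),
      Finset.prod_pow, Finset.prod_subtype (Finset.univ.image π') himg f]

/-- Transfer of the inequality from `G ⧸ N` to `G` for a normal `p`-subgroup `N`. -/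
theorem gh_transfer_pgroup {G : Type u} [Group G] [Finite G] {p : ℕ} [Fact p.Prime]
    (N : Subgroup G) [N.Normal] (hN : IsPGroup p N) (h : GhM p (G ⧸ N)) : GhM p G := by
  intro P _
  classical
  have : Fintype ((Sylow.mapSurjective (QuotientGroup.mk'_surjective N) P : Sylow p (G ⧸ N)) :
      Subgroup (G ⧸ N)) := Fintype.ofFinite _
  obtain ⟨c, hc1, hc2⟩ := gh_prod_quot N (P : Subgroup G)
    ((Sylow.mapSurjective (QuotientGroup.mk'_surjective N) P : Sylow p (G ⧸ N)) :
      Subgroup (G ⧸ N)) (Sylow.coe_mapSurjective _ _)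
  have hq := h (Sylow.mapSurjective (QuotientGroup.mk'_surjective N) P)
  have hn : Nat.card (Sylow p G) = Nat.card (Sylow p (G ⧸ N)) := by
    rw [← lam_one, ← lam_one, gh_lam_quot_pgroup N hN 1]
    rfl
  have e : ∏ x : (P : Subgroup G), lam p (x : G) =
      (∏ y : ((Sylow.mapSurjective (QuotientGroup.mk'_surjective N) P : Sylow p (G ⧸ N)) :
        Subgroup (G ⧸ N)), lam p (y : G ⧸ N)) ^ c := by
    rw [← hc2 (fun y => lam p y)]
    apply Finset.prod_congr rfl
    intro x _
    exact gh_lam_quot_pgroup N hN x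
  rw [e, ← pow_mul, mul_comm c p, pow_mul, hn, hc1, pow_mul]
  exact Nat.pow_le_pow_left hq c

/-- Arithmetic for the coprime transfer. -/
theorem gh_arith3 (A B D cP n nb ν m mb c p : ℕ) (hcP : 0 < cP) (hp : 1 ≤ p)
    (hA : A * cP ^ m = B ^ c * D) (hq : B ^ p ≤ nb ^ mb) (hm : m = mb * c)
    (hL : D ^ p ≤ ν ^ m * cP ^ ((p - 1) * m)) (E2 : n * cP = nb * ν) : A ^ p ≤ n ^ m := by
  obtain ⟨q, rfl⟩ : ∃ q, p = q + 1 := ⟨p - 1, by omega⟩
  simp only [Nat.add_sub_cancel] at hL
  have h1 : A ^ (q + 1) * cP ^ ((q + 1) * m) ≤ n ^ m * cP ^ ((q + 1) * m) := by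
    calc A ^ (q + 1) * cP ^ ((q + 1) * m) = (A * cP ^ m) ^ (q + 1) := by ring
      _ = (B ^ c * D) ^ (q + 1) := by rw [hA]
      _ = (B ^ (q + 1)) ^ c * D ^ (q + 1) := by ring
      _ ≤ (nb ^ mb) ^ c * (ν ^ m * cP ^ (q * m)) :=
          Nat.mul_le_mul (Nat.pow_le_pow_left hq c) hL
      _ = (nb * ν) ^ m * cP ^ (q * m) := by rw [hm]; ring
      _ = (n * cP) ^ m * cP ^ (q * m) := by rw [E2]
      _ = n ^ m * cP ^ ((q + 1) * m) := by ring
  exact Nat.le_of_mul_le_mul_right h1 (pow_pos hcP _)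

/-- Transfer of the inequality from `G ⧸ N` to `G` for a normal `p'`-subgroup `N`. -/
theorem gh_transfer_coprime {G : Type u} [Group G] [Finite G] {p : ℕ} [Fact p.Prime]
    (N : Subgroup G) [N.Normal] (hN : ¬ p ∣ Nat.card N) (h : GhM p (G ⧸ N)) : GhM p G := by
  intro P _
  classical
  have : Fintype ((Sylow.mapSurjective (QuotientGroup.mk'_surjective N) P : Sylow p (G ⧸ N)) :
      Subgroup (G ⧸ N)) := Fintype.ofFinite _
  obtain ⟨c, hc1, hc2⟩ := gh_prod_quot N (P : Subgroup G)
    ((Sylow.mapSurjective (QuotientGroup.mk'_surjective N) P : Sylow p (G ⧸ N)) :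
      Subgroup (G ⧸ N)) (Sylow.coe_mapSurjective _ _)
  have hq := h (Sylow.mapSurjective (QuotientGroup.mk'_surjective N) P)
  have E1 : ∀ x : (P : Subgroup G),
      lam p (x : G) * Nat.card ↥(N ⊓ Subgroup.centralizer ((P : Subgroup G) : Set G)) =
        lam p ((x : G) : G ⧸ N) * Nat.card ↥(N ⊓ Subgroup.centralizer {(x : G)}) :=
    fun x => gh_lam_quot_coprime N hN P x x.2
  have E2 : Nat.card (Sylow p G) * Nat.card ↥(N ⊓ Subgroup.centralizer ((P : Subgroup G) : Set G))
      = Nat.card (Sylow p (G ⧸ N)) * Nat.card N := by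
    have h1 := gh_lam_quot_coprime N hN P 1 (one_mem _)
    rw [lam_one] at h1
    have e1 : ((1 : G) : G ⧸ N) = 1 := rfl
    rw [e1, lam_one] at h1
    have e2 : N ⊓ Subgroup.centralizer {(1 : G)} = N := by
      apply inf_eq_left.2
      intro n _
      rw [Subgroup.mem_centralizer_singleton_iff]
      simp
    rw [e2] at h1
    exact h1
  have L := gh_internal p (P : Subgroup G) N P.isPGroup'
    (by rw [Subgroup.normalizer_eq_top]; exact le_top) hN
  have hA : (∏ x : (P : Subgroup G), lam p (x : G)) *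
      Nat.card ↥(N ⊓ Subgroup.centralizer ((P : Subgroup G) : Set G)) ^
        Nat.card (P : Subgroup G) =
      (∏ y : ((Sylow.mapSurjective (QuotientGroup.mk'_surjective N) P : Sylow p (G ⧸ N)) :
        Subgroup (G ⧸ N)), lam p (y : G ⧸ N)) ^ c *
        ∏ x : (P : Subgroup G), Nat.card ↥(N ⊓ Subgroup.centralizer {(x : G)}) := by
    have hm : Nat.card (P : Subgroup G) = (Finset.univ : Finset (P : Subgroup G)).card := by
      rw [Nat.card_eq_fintype_card, Finset.card_univ]
    rw [← hc2 (fun y => lam p y), hm, ← Finset.prod_const, ← Finset.prod_mul_distrib,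
      ← Finset.prod_mul_distrib]
    exact Finset.prod_congr rfl (fun x _ => E1 x)
  exact gh_arith3 _ _ _ _ _ _ _ _ _ c p Nat.card_pos (Fact.out : p.Prime).one_lt.le hA hq hc1 L E2

/-- The inequality for groups with a `p`-series of length `n`. -/
theorem gh_M_series (p : ℕ) [Fact p.Prime] : ∀ (n : ℕ) (G : Type u) [Group G] [Finite G],
    (∃ H : Fin (n + 1) → Subgroup G, H 0 = ⊥ ∧ H (Fin.last n) = ⊤ ∧ Monotone H ∧
      (∀ i, (H i).Normal) ∧
      ∀ i : Fin n, (∃ m : ℕ, (H i.castSucc).relIndex (H i.succ) = p ^ m) ∨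
        ((H i.castSucc).relIndex (H i.succ)).Coprime p) → GhM p G := by
  have hp : p.Prime := Fact.out
  intro n
  induction n with
  | zero =>
    rintro G _ _ ⟨H, h0, hlast, -, -, -⟩
    have hbt : (⊥ : Subgroup G) = ⊤ := by
      rw [← h0, ← hlast]
      rfl
    have hsub : Subsingleton (Subgroup G) := subsingleton_of_bot_eq_top hbt
    have hsyl : Subsingleton (Sylow p G) := ⟨fun a b => Sylow.ext (Subsingleton.elim _ _)⟩
    intro P _
    have h1 : ∀ x : (P : Subgroup G), lam p (x : G) ≤ 1 := by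
      intro x
      unfold lam
      exact Finite.card_le_one_iff_subsingleton.2 inferInstance
    calc (∏ x : (P : Subgroup G), lam p (x : G)) ^ p ≤ 1 ^ p :=
          Nat.pow_le_pow_left (Finset.prod_le_one' (fun x _ => h1 x)) p
      _ = 1 := one_pow p
      _ ≤ _ := Nat.one_le_pow _ _ Nat.card_pos
  | succ n ih =>
    rintro G _ _ ⟨H, h0, hlast, hmono, hnorm, hstep⟩
    have hN : (H 1).Normal := hnorm 1
    have hq : GhM p (G ⧸ H 1) := by
      apply ih
      refine ⟨fun i => (H i.succ).map (QuotientGroup.mk' (H 1)), ?_, ?_, ?_, ?_, ?_⟩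
      · show (H (Fin.succ 0)).map (QuotientGroup.mk' (H 1)) = ⊥
        rw [Fin.succ_zero_eq_one]
        exact QuotientGroup.map_mk'_self (H 1)
      · show (H (Fin.last n).succ).map (QuotientGroup.mk' (H 1)) = ⊤
        rw [Fin.succ_last, hlast]
        exact Subgroup.map_top_of_surjective _ (QuotientGroup.mk'_surjective _)
      · intro i j hij
        exact Subgroup.map_mono (hmono (Fin.succ_le_succ_iff.2 hij))
      · intro i
        exact (hnorm i.succ).map _ (QuotientGroup.mk'_surjective _)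
      · intro i
        have h1le : (1 : Fin (n + 1 + 1)) ≤ i.castSucc.succ := by
          rw [← Fin.succ_zero_eq_one]
          exact Fin.succ_le_succ_iff.2 (Fin.zero_le _)
        have hle : H 1 ≤ H i.castSucc.succ := hmono h1le
        have hle2 : H 1 ≤ H i.succ.succ :=
          hle.trans (hmono (Fin.succ_le_succ_iff.2 (Fin.castSucc_le_succ i)))
        have e : ((H i.castSucc.succ).map (QuotientGroup.mk' (H 1))).relIndex
            ((H i.succ.succ).map (QuotientGroup.mk' (H 1))) =
            (H i.succ.castSucc).relIndex (H i.succ.succ) := by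
          rw [Subgroup.relIndex_map_map, QuotientGroup.ker_mk', sup_eq_left.2 hle,
            sup_eq_left.2 hle2, Fin.succ_castSucc]
        show (∃ m : ℕ, ((H i.castSucc.succ).map (QuotientGroup.mk' (H 1))).relIndex
            ((H i.succ.succ).map (QuotientGroup.mk' (H 1))) = p ^ m) ∨
          (((H i.castSucc.succ).map (QuotientGroup.mk' (H 1))).relIndex
            ((H i.succ.succ).map (QuotientGroup.mk' (H 1)))).Coprime p
        rw [e]
        exact hstep i.succ
    have h01 := hstep 0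
    have hrel : (H (0 : Fin (n + 1)).castSucc).relIndex (H (0 : Fin (n + 1)).succ) =
        Nat.card (H 1) := by
      have e1 : (0 : Fin (n + 1)).castSucc = 0 := rfl
      have e2 : (0 : Fin (n + 1)).succ = 1 := rfl
      rw [e1, e2, h0, Subgroup.relIndex_bot_left]
    rw [hrel] at h01
    rcases h01 with ⟨m, hm⟩ | hcop
    · exact gh_transfer_pgroup (H 1) (IsPGroup.of_card hm) hq
    · exact gh_transfer_coprime (H 1)
        (fun hdvd => (Nat.Prime.coprime_iff_not_dvd hp).1 hcop.symm hdvd) hq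

/-- The inequality `(∏_{x ∈ P} lam(x))^p ≤ |Syl_p(G)|^{|P|}` for `p`-solvable groups. -/
theorem gh_M_of_psolvable {G : Type u} [Group G] [Finite G] (p : ℕ) [Fact p.Prime]
    (hG : Cfsg.IsPSolvable p G) : GhM p G := by
  obtain ⟨n, H, hH⟩ := hG
  exact gh_M_series p n G ⟨H, hH⟩

end Cfsg.Agent.H71
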