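import Mathlib
import Cfsg.Agent.H91.JRDefs

/-!
# S3206-STR1 (helper91's team project on groups of Janko–Ree type)

`str1 : Str1Stmt`: a Sylow `2`-subgroup `S ∋ t` is `⟨t⟩ × (S ∩ N)`, elementary abelian of order
`8`, and `S ∩ N` is a Sylow `2`-subgroup of `N`.
-/

set_option autoImplicit false

namespace Cfsg.Agent.H71.JR

open Subgroup Cfsg.Agent.H91.JR

universe u

/-- Conjugation by an element normalizing `N`, as an automorphism of `↥N`. -/
def conjEquiv {G : Type*} [Group G] (N : Subgroup G) (e : G)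
    (he : ∀ n ∈ N, e * n * e⁻¹ ∈ N) (he' : ∀ n ∈ N, e⁻¹ * n * e ∈ N) : ↥N ≃* ↥N where
  toFun n := ⟨e * n * e⁻¹, he n n.2⟩
  invFun n := ⟨e⁻¹ * n * e, he' n n.2⟩
  left_inv n := Subtype.ext (by simp [mul_assoc])
  right_inv n := Subtype.ext (by simp [mul_assoc])
  map_mul' a b := Subtype.ext (by simp [mul_assoc])

theorem conjEquiv_apply {G : Type*} [Group G] (N : Subgroup G) (e : G)
    (he : ∀ n ∈ N, e * n * e⁻¹ ∈ N) (he' : ∀ n ∈ N, e⁻¹ * n * e ∈ N) (n : ↥N) :
    ((conjEquiv N e he he' n : ↥N) : G) = e * n * e⁻¹ := rfl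

theorem conjEquiv_pow_apply {G : Type*} [Group G] (N : Subgroup G) (e : G)
    (he : ∀ n ∈ N, e * n * e⁻¹ ∈ N) (he' : ∀ n ∈ N, e⁻¹ * n * e ∈ N) (j : ℕ) (n : ↥N) :
    ((((conjEquiv N e he he') ^ j) n : ↥N) : G) = e ^ j * n * (e ^ j)⁻¹ := by
  induction j generalizing n with
  | zero => simp
  | succ j ih =>
    rw [pow_succ, MulAut.mul_apply, ih, conjEquiv_apply, pow_succ]
    group

/-- **S3206-STR1**. -/
theorem str1 : Str1Stmt.{u} := by
  intro G _ _ t E N hs hab S htS
  have hp2 : Fact (Nat.Prime 2) := ⟨Nat.prime_two⟩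
  have hSt : ∀ x ∈ S, x * t = t * x := fun x hx => hab S x hx t htS
  have htN : ∀ n ∈ N, t * n * t⁻¹ = n := by
    intro n hn
    have := hs.comm n (hs.N_le hn)
    rw [← this]
    group
  have hSN : ∀ x ∈ S, ∀ n ∈ N, x * n * x⁻¹ ∈ N := by
    intro x hx n hn
    obtain ⟨e, he, h1 | h1⟩ := hs.cent x (hSt x hx)
    · rw [h1]
      exact hs.norm e he n hn
    · rw [h1]
      have h2 : t * e * n * (t * e)⁻¹ = t * (e * n * e⁻¹) * t⁻¹ := by group
      rw [h2, htN _ (hs.norm e he n hn)]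
      exact hs.norm e he n hn
  have hSM : (S : Subgroup G) ≤ normalizer (N : Set G) := by
    intro x hx
    rw [Subgroup.mem_normalizer_iff]
    intro n
    constructor
    · exact hSN x hx n
    · intro h
      have := hSN x⁻¹ (inv_mem hx) _ h
      have e : x⁻¹ * (x * n * x⁻¹) * x⁻¹⁻¹ = n := by group
      rwa [e] at this
  -- the Sylow `2`-subgroup `V = S ∩ N` of `N`
  have hVp : IsPGroup 2 ((S : Subgroup G).subgroupOf N) := S.isPGroup'.comap_subtype
  have hVmax : ∀ Q : Subgroup ↥N, IsPGroup 2 Q → (S : Subgroup G).subgroupOf N ≤ Q →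
      Q = (S : Subgroup G).subgroupOf N := by
    intro Q hQ hle
    obtain ⟨M, hMdef⟩ : ∃ M : Subgroup G, M = normalizer (N : Set G) := ⟨_, rfl⟩
    have hSM' : (S : Subgroup G) ≤ M := by rw [hMdef]; exact hSM
    have hNM : N ≤ M := by rw [hMdef]; exact le_normalizer
    have hTM : IsPGroup 2 ((Q.map N.subtype).subgroupOf M) := (hQ.map N.subtype).comap_subtype
    obtain ⟨P', hP'⟩ := hTM.exists_le_sylow
    obtain ⟨m, hm⟩ := MulAction.exists_smul_eq ↥M (S.subtype hSM') P'
    have key : ∀ y ∈ Q, (m : G)⁻¹ * (y : G) * (m : G) ∈ (S : Subgroup G) := by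
      intro y hy
      have h1 : (⟨(y : G), hNM y.2⟩ : ↥M) ∈ (P' : Subgroup ↥M) := by
        apply hP'
        rw [Subgroup.mem_subgroupOf]
        exact ⟨y, hy, rfl⟩
      rw [← hm, Sylow.coe_subgroup_smul, Subgroup.mem_pointwise_smul_iff_inv_smul_mem] at h1
      have h2 : m⁻¹ * ⟨(y : G), hNM y.2⟩ * m ∈
          ((S.subtype hSM' : Sylow 2 ↥M) : Subgroup ↥M) := by
        simpa [MulAut.smul_def] using h1
      rw [Sylow.coe_subtype, Subgroup.mem_subgroupOf] at h2
      simpa using h2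
    have keyN : ∀ y : ↥N, (m : G)⁻¹ * (y : G) * (m : G) ∈ N := by
      intro y
      have hmN : (m : G)⁻¹ ∈ normalizer (N : Set G) := by
        rw [← hMdef]
        exact inv_mem m.2
      have := (Subgroup.mem_normalizer_iff.mp hmN (y : G)).mp y.2
      rwa [inv_inv] at this
    have hcard : Nat.card Q ≤ Nat.card ((S : Subgroup G).subgroupOf N) := by
      refine Nat.card_le_card_of_injective
        (fun y : Q => (⟨⟨(m : G)⁻¹ * ((y : ↥N) : G) * (m : G), keyN y⟩,
          Subgroup.mem_subgroupOf.mpr (key y y.2)⟩ : (S : Subgroup G).subgroupOf N)) ?_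
      intro y y' hyy
      have h1 : (m : G)⁻¹ * ((y : ↥N) : G) * (m : G) = (m : G)⁻¹ * ((y' : ↥N) : G) * (m : G) :=
        congrArg (fun z : (S : Subgroup G).subgroupOf N => ((z : ↥N) : G)) hyy
      have h2 : ((y : ↥N) : G) = ((y' : ↥N) : G) := mul_left_cancel (mul_right_cancel h1)
      exact Subtype.ext (Subtype.ext h2)
    exact (Subgroup.eq_of_le_of_card_ge hle hcard).symm
  obtain ⟨V, hVdef⟩ : ∃ V : Sylow 2 ↥N, (V : Subgroup ↥N) = (S : Subgroup G).subgroupOf N :=
    ⟨⟨(S : Subgroup G).subgroupOf N, hVp, fun {Q} hQ hle => hVmax Q hQ hle⟩, rfl⟩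
  have hVmem : ∀ x : ↥N, x ∈ V ↔ (x : G) ∈ S := by
    intro x
    have : x ∈ (V : Subgroup ↥N) ↔ (x : G) ∈ (S : Subgroup G) := by
      rw [hVdef, Subgroup.mem_subgroupOf]
    exact this
  obtain ⟨⟨hV4, hVexp⟩, -, hVaut⟩ := hs.psl.2 V
  -- `S ∩ E ≤ N`
  have hSE : ∀ e ∈ S, e ∈ E → e ∈ N := by
    intro e heS heE
    have he : ∀ n ∈ N, e * n * e⁻¹ ∈ N := hs.norm e heE
    have he' : ∀ n ∈ N, e⁻¹ * n * e ∈ N := by
      intro n hn
      have := hs.norm e⁻¹ (inv_mem heE) n hn
      rwa [inv_inv] at this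
    obtain ⟨k, hk⟩ := S.isPGroup' ⟨e, heS⟩
    have hk' : e ^ 2 ^ k = 1 := by
      have := congrArg Subtype.val hk
      simpa using this
    have hα : (conjEquiv N e he he') ^ (2 ^ k) = 1 := by
      ext n
      rw [conjEquiv_pow_apply, hk']
      simp
    have hfix : ∀ v ∈ (V : Subgroup ↥N), conjEquiv N e he he' v = v := by
      intro v hv
      apply Subtype.ext
      rw [conjEquiv_apply]
      have : e * (v : G) = (v : G) * e := hab S e heS v ((hVmem v).mp hv)
      rw [this]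
      group
    obtain ⟨w, hw, hwx⟩ := hVaut (conjEquiv N e he he') k hα hfix
    have hwx' : ∀ n ∈ N, e * n * e⁻¹ = (w : G) * n * (w : G)⁻¹ := by
      intro n hn
      have := congrArg Subtype.val (hwx ⟨n, hn⟩)
      rw [conjEquiv_apply] at this
      simpa using this
    have h1 : (w : G)⁻¹ * e = 1 := by
      apply hs.faith _ (mul_mem (inv_mem (hs.N_le w.2)) heE)
      intro n hn
      have := hwx' n hn
      calc (w : G)⁻¹ * e * n = (w : G)⁻¹ * (e * n * e⁻¹) * e := by group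
        _ = (w : G)⁻¹ * ((w : G) * n * (w : G)⁻¹) * e := by rw [this]
        _ = n * ((w : G)⁻¹ * e) := by group
    have h2 : e = (w : G) := by
      calc e = (w : G) * ((w : G)⁻¹ * e) := by group
        _ = (w : G) := by rw [h1, mul_one]
    rw [h2]
    exact w.2
  have hdec : ∀ x ∈ S, ∃ v ∈ N, v ∈ S ∧ (x = v ∨ x = t * v) := by
    intro x hx
    obtain ⟨e, he, h1 | h1⟩ := hs.cent x (hSt x hx)
    · have heS : e ∈ S := h1 ▸ hx
      exact ⟨e, hSE e heS he, heS, Or.inl h1⟩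
    · have heS : e ∈ S := by
        have : e = t⁻¹ * x := by rw [h1]; group
        rw [this]
        exact mul_mem (inv_mem htS) hx
      exact ⟨e, hSE e heS he, heS, Or.inr h1⟩
  have hVsq : ∀ v ∈ N, v ∈ S → v * v = 1 := by
    intro v hvN hvS
    have := hVexp ⟨v, hvN⟩ ((hVmem _).mpr hvS)
    exact congrArg Subtype.val this
  refine ⟨?_, ?_, ⟨V, hVmem⟩, hdec⟩
  · intro x hx
    obtain ⟨v, hvN, hvS, h1 | h1⟩ := hdec x hx
    · rw [h1]
      exact hVsq v hvN hvS
    · rw [h1]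
      have hvt : v * t = t * v := hSt v hvS
      calc t * v * (t * v) = t * (v * t) * v := by group
        _ = t * (t * v) * v := by rw [hvt]
        _ = (t * t) * (v * v) := by group
        _ = 1 := by rw [hs.t_sq, hVsq v hvN hvS, one_mul]
  · let f : ↥(V : Subgroup ↥N) ⊕ ↥(V : Subgroup ↥N) → ↥(S : Subgroup G) := fun q =>
      Sum.elim (fun v : ↥(V : Subgroup ↥N) => ⟨((v : ↥N) : G), (hVmem _).mp v.2⟩)
        (fun v : ↥(V : Subgroup ↥N) => ⟨t * ((v : ↥N) : G), mul_mem htS ((hVmem _).mp v.2)⟩) q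
    have hf : Function.Bijective f := by
      constructor
      · rintro (v | v) (v' | v') hq
        · have h1 : ((v : ↥N) : G) = ((v' : ↥N) : G) :=
            congrArg (fun z : ↥(S : Subgroup G) => (z : G)) hq
          exact congrArg Sum.inl (Subtype.ext (Subtype.ext h1))
        · exfalso
          have h1 : ((v : ↥N) : G) = t * ((v' : ↥N) : G) :=
            congrArg (fun z : ↥(S : Subgroup G) => (z : G)) hq
          apply hs.t_not
          have : t = ((v : ↥N) : G) * ((v' : ↥N) : G)⁻¹ := by rw [h1]; group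
          rw [this]
          exact hs.N_le (mul_mem (v : ↥N).2 (inv_mem (v' : ↥N).2))
        · exfalso
          have h1 : t * ((v : ↥N) : G) = ((v' : ↥N) : G) :=
            congrArg (fun z : ↥(S : Subgroup G) => (z : G)) hq
          apply hs.t_not
          have : t = ((v' : ↥N) : G) * ((v : ↥N) : G)⁻¹ := by rw [← h1]; group
          rw [this]
          exact hs.N_le (mul_mem (v' : ↥N).2 (inv_mem (v : ↥N).2))
        · have h1 : t * ((v : ↥N) : G) = t * ((v' : ↥N) : G) :=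
            congrArg (fun z : ↥(S : Subgroup G) => (z : G)) hq
          exact congrArg Sum.inr (Subtype.ext (Subtype.ext (mul_left_cancel h1)))
      · rintro ⟨x, hx⟩
        obtain ⟨v, hvN, hvS, h1 | h1⟩ := hdec x hx
        · exact ⟨Sum.inl ⟨⟨v, hvN⟩, (hVmem _).mpr hvS⟩, Subtype.ext h1.symm⟩
        · exact ⟨Sum.inr ⟨⟨v, hvN⟩, (hVmem _).mpr hvS⟩, Subtype.ext h1.symm⟩
    rw [← Nat.card_congr (Equiv.ofBijective f hf), Nat.card_sum, hV4]

end Cfsg.Agent.H71.JR
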