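import Cfsg.Agent.H9.M11b

/-!
# The element-order tally of `Spor.M11` (helper71, piece S3592-TALLY for helper93)

`sporM11_nse`: for every `n`, the number of elements of order `n` of `Spor.M11` lies in
`{0, 1, 165, 440, 990, 1320, 1440, 1584, 1980}`.  The 7920 products of four transversal
elements (helper9's `sporM11_rep`) enumerate the group without repetition, and the histogram
of their orders is evaluated by the kernel in one pass, packed in base `65536`.
-/

set_option autoImplicit false

namespace Cfsg.Agent.H71.M11

open Cfsg Cfsg.Agent.H9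

/-- force evaluation of a natural number before passing it on (`ℕ`-valued continuation) -/
def forceNN (x : ℕ) (f : ℕ → ℕ) : ℕ :=
  match x with
  | 0 => f 0
  | v + 1 => f (v + 1)

theorem forceNN_eq (x : ℕ) (f : ℕ → ℕ) : forceNN x f = f x := by
  cases x <;> rfl

/-- sum of `g` over a list, in a form that the kernel evaluates quickly -/
def sumL (l : List ℕ) (g : ℕ → ℕ) : ℕ := l.foldr (fun P acc => Nat.add (g P) acc) 0

theorem sumL_eq (l : List ℕ) (g : ℕ → ℕ) : sumL l g = (l.map g).sum := by
  unfold sumL
  induction l with
  | nil => rfl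
  | cons a l ih =>
    rw [List.foldr_cons, ih, List.map_cons, List.sum_cons]
    rfl

/-- the sum of `f` over all products of four packed permutations taken from four lists -/
def sumProd4 (c1 c2 c3 c4 : List ℕ) (f : ℕ → ℕ) : ℕ :=
  sumL c1 (fun P1 => sumL c2 (fun P2 => forceNN (compN P1 P2) (fun A =>
    sumL c3 (fun P3 => forceNN (compN A P3) (fun B =>
      sumL c4 (fun P4 => forceNN (compN B P4) f))))))

/-- the list of all products of four packed permutations taken from four lists -/
def prods4 (c1 c2 c3 c4 : List ℕ) : List ℕ :=
  c1.flatMap (fun P1 => c2.flatMap (fun P2 => c3.flatMap (fun P3 =>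
    c4.map (fun P4 => compP (compP (compP P1 P2) P3) P4))))

theorem sum_map_flatMap (l : List ℕ) (h : ℕ → List ℕ) (f : ℕ → ℕ) :
    ((l.flatMap h).map f).sum = (l.map (fun a => ((h a).map f).sum)).sum := by
  induction l with
  | nil => rfl
  | cons a l ih =>
    rw [List.flatMap_cons, List.map_append, List.sum_append, ih, List.map_cons, List.sum_cons]

theorem sumProd4_eq (c1 c2 c3 c4 : List ℕ) (f : ℕ → ℕ) :
    sumProd4 c1 c2 c3 c4 f = ((prods4 c1 c2 c3 c4).map f).sum := by
  unfold sumProd4 prods4
  simp only [sumL_eq, forceNN_eq, compN_eq, sum_map_flatMap, List.map_map]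
  rfl

theorem mem_prods4 {c1 c2 c3 c4 : List ℕ} {P1 P2 P3 P4 : ℕ} (h1 : P1 ∈ c1) (h2 : P2 ∈ c2)
    (h3 : P3 ∈ c3) (h4 : P4 ∈ c4) :
    compP (compP (compP P1 P2) P3) P4 ∈ prods4 c1 c2 c3 c4 := by
  unfold prods4
  exact List.mem_flatMap.mpr ⟨P1, h1, List.mem_flatMap.mpr ⟨P2, h2, List.mem_flatMap.mpr
    ⟨P3, h3, List.mem_map.mpr ⟨P4, h4, rfl⟩⟩⟩⟩

theorem length_prods4 (c1 c2 c3 c4 : List ℕ) :
    (prods4 c1 c2 c3 c4).length = c1.length * (c2.length * (c3.length * c4.length)) := by
  have key : ∀ (l : List ℕ) (h : ℕ → List ℕ) (m : ℕ), (∀ a, (h a).length = m) →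
      (l.flatMap h).length = l.length * m := by
    intro l h m hm
    induction l with
    | nil => simp
    | cons a l ih =>
      rw [List.flatMap_cons, List.length_append, ih, hm, List.length_cons]
      ring
  unfold prods4
  exact key _ _ _ fun P1 => key _ _ _ fun P2 => key _ _ _ fun P3 => List.length_map _

/-- the order of a packed permutation, provided that it is one of `1, 2, 3, 4, 5, 6, 8, 11`
(and `0` otherwise) -/
def ordP (R : ℕ) : ℕ :=
  cond (isIdP R) 1 (forceNN (compN R R) (fun R2 => cond (isIdP R2) 2
    (forceNN (compN R2 R) (fun R3 => cond (isIdP R3) 3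
      (forceNN (compN R2 R2) (fun R4 => cond (isIdP R4) 4
        (forceNN (compN R4 R) (fun R5 => cond (isIdP R5) 5
          (forceNN (compN R3 R3) (fun R6 => cond (isIdP R6) 6
            (forceNN (compN R4 R4) (fun R8 => cond (isIdP R8) 8
              (forceNN (compN R8 R3) (fun R11 => cond (isIdP R11) 11 0))))))))))))))

theorem cond_lt_twelve {b : Bool} {x y : ℕ} (hx : x < 12) (hy : y < 12) : cond b x y < 12 := by
  cases b
  · exact hy
  · exact hx

theorem ordP_lt (R : ℕ) : ordP R < 12 := by
  unfold ordP
  simp only [forceNN_eq]
  exact cond_lt_twelve (by norm_num) (cond_lt_twelve (by norm_num) (cond_lt_twelve (by norm_num)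
    (cond_lt_twelve (by norm_num) (cond_lt_twelve (by norm_num) (cond_lt_twelve (by norm_num)
    (cond_lt_twelve (by norm_num) (cond_lt_twelve (by norm_num) (by norm_num))))))))

theorem ne_one_of_isIdP_false {P : ℕ} {g : Equiv.Perm GolayPt} (h : Rep P g)
    (hP : isIdP P = false) : g ≠ 1 := by
  intro h1
  rw [h1] at h
  rw [isIdP_of_rep_one h] at hP
  exact Bool.noConfusion hP

theorem ordP_spec {R : ℕ} {g : Equiv.Perm GolayPt} (hR : Rep R g) (h0 : ordP R ≠ 0) :
    orderOf g = ordP R := by
  have r2 : Rep (compP R R) (g ^ 2) := by
    have := rep_compP hR hR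
    rwa [← pow_two] at this
  have r3 : Rep (compP (compP R R) R) (g ^ 3) := by
    have := rep_compP r2 hR
    rwa [← pow_succ] at this
  have r4 : Rep (compP (compP R R) (compP R R)) (g ^ 4) := by
    have := rep_compP r2 r2
    rwa [← pow_add] at this
  have r5 : Rep (compP (compP (compP R R) (compP R R)) R) (g ^ 5) := by
    have := rep_compP r4 hR
    rwa [← pow_succ] at this
  have r6 : Rep (compP (compP (compP R R) R) (compP (compP R R) R)) (g ^ 6) := by
    have := rep_compP r3 r3
    rwa [← pow_add] at this
  have r8 : Rep (compP (compP (compP R R) (compP R R)) (compP (compP R R) (compP R R)))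
      (g ^ 8) := by
    have := rep_compP r4 r4
    rwa [← pow_add] at this
  have r11 : Rep (compP (compP (compP (compP R R) (compP R R))
      (compP (compP R R) (compP R R))) (compP (compP R R) R)) (g ^ 11) := by
    have := rep_compP r8 r3
    rwa [← pow_add] at this
  unfold ordP at h0 ⊢
  simp only [forceNN_eq, compN_eq] at h0 ⊢
  cases h1 : isIdP R with
  | true =>
    rw [cond_true]
    rw [eq_one_of_isIdP hR h1, orderOf_one]
  | false =>
    rw [h1, cond_false] at h0
    rw [cond_false]
    have g1 : g ≠ 1 := ne_one_of_isIdP_false hR h1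
    cases h2 : isIdP (compP R R) with
    | true =>
      rw [cond_true]
      have : Fact (Nat.Prime 2) := ⟨Nat.prime_two⟩
      exact orderOf_eq_prime (eq_one_of_isIdP r2 h2) g1
    | false =>
      rw [h2, cond_false] at h0
      rw [cond_false]
      have g2 : g ^ 2 ≠ 1 := ne_one_of_isIdP_false r2 h2
      cases h3 : isIdP (compP (compP R R) R) with
      | true =>
        rw [cond_true]
        have : Fact (Nat.Prime 3) := ⟨Nat.prime_three⟩
        exact orderOf_eq_prime (eq_one_of_isIdP r3 h3) g1
      | false =>
        rw [h3, cond_false] at h0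
        rw [cond_false]
        have g3 : g ^ 3 ≠ 1 := ne_one_of_isIdP_false r3 h3
        cases h4 : isIdP (compP (compP R R) (compP R R)) with
        | true =>
          rw [cond_true]
          have : Fact (Nat.Prime 2) := ⟨Nat.prime_two⟩
          exact orderOf_eq_prime_pow (p := 2) (n := 1) (by simpa using g2)
            (by simpa using eq_one_of_isIdP r4 h4)
        | false =>
          rw [h4, cond_false] at h0
          rw [cond_false]
          have g4 : g ^ 4 ≠ 1 := ne_one_of_isIdP_false r4 h4
          cases h5 : isIdP (compP (compP (compP R R) (compP R R)) R) with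
          | true =>
            rw [cond_true]
            have : Fact (Nat.Prime 5) := ⟨Nat.prime_five⟩
            exact orderOf_eq_prime (eq_one_of_isIdP r5 h5) g1
          | false =>
            rw [h5, cond_false] at h0
            rw [cond_false]
            cases h6 : isIdP (compP (compP (compP R R) R) (compP (compP R R) R)) with
            | true =>
              rw [cond_true]
              have e6 : g ^ 6 = 1 := eq_one_of_isIdP r6 h6
              have hd : orderOf g ∣ 6 := orderOf_dvd_of_pow_eq_one e6
              have hle : orderOf g ≤ 6 := Nat.le_of_dvd (by norm_num) hd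
              have hp := pow_orderOf_eq_one g
              have hne1 : orderOf g ≠ 1 := fun h => g1 (orderOf_eq_one_iff.mp h)
              have hne2 : orderOf g ≠ 2 := fun h => g2 (by rw [← h]; exact hp)
              have hne3 : orderOf g ≠ 3 := fun h => g3 (by rw [← h]; exact hp)
              have hne0 : orderOf g ≠ 0 := fun h => by rw [h] at hd; omega
              have hne4 : orderOf g ≠ 4 := fun h => by rw [h] at hd; omega
              have hne5 : orderOf g ≠ 5 := fun h => by rw [h] at hd; omega
              omega
            | false =>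
              rw [h6, cond_false] at h0
              rw [cond_false]
              cases h8 : isIdP (compP (compP (compP R R) (compP R R))
                  (compP (compP R R) (compP R R))) with
              | true =>
                rw [cond_true]
                have : Fact (Nat.Prime 2) := ⟨Nat.prime_two⟩
                exact orderOf_eq_prime_pow (p := 2) (n := 2) (by simpa using g4)
                  (by simpa using eq_one_of_isIdP r8 h8)
              | false =>
                rw [h8, cond_false] at h0
                rw [cond_false]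
                cases h11 : isIdP (compP (compP (compP (compP R R) (compP R R))
                    (compP (compP R R) (compP R R))) (compP (compP R R) R)) with
                | true =>
                  rw [cond_true]
                  have : Fact (Nat.Prime 11) := ⟨by norm_num⟩
                  exact orderOf_eq_prime (eq_one_of_isIdP r11 h11) g1
                | false =>
                  rw [h11, cond_false] at h0
                  exact absurd rfl h0

/-- the list of the 7920 products of transversal elements -/
def prodsM11 : List ℕ := prods4 q11c1 q11c2 q11c3 q11c4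

theorem length_prodsM11 : prodsM11.length = 7920 := by
  unfold prodsM11
  rw [length_prods4]
  rfl

/-- the packed histogram of the orders of the 7920 products, evaluated by the kernel -/
theorem m11_hist : sumProd4 q11c1 q11c2 q11c3 q11c4 (fun R => Nat.pow 65536 (ordP R)) =
    137924598677930671011337840484774959597004914659210362880 := by decide +kernel

theorem sum_pow_eq (B : ℕ) (o : ℕ → ℕ) (l : List ℕ) (ho : ∀ P, o P < 12) :
    (l.map (fun P => B ^ o P)).sum =
      ∑ k ∈ Finset.range 12, l.countP (fun P => o P == k) * B ^ k := by
  induction l with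
  | nil => simp
  | cons a l ih =>
    rw [List.map_cons, List.sum_cons, ih]
    have h1 : ∀ k, (a :: l).countP (fun P => o P == k) =
        l.countP (fun P => o P == k) + if o a = k then 1 else 0 := by
      intro k
      rw [List.countP_cons]
      simp
    simp only [h1, add_mul, Finset.sum_add_distrib]
    rw [add_comm]
    congr 1
    rw [Finset.sum_eq_single (o a)]
    · simp
    · intro k _ hk
      simp [Ne.symm hk]
    · intro h
      exact absurd (Finset.mem_range.mpr (ho a)) h

/-- reading off the base-`65536` digits of the packed histogram -/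
theorem digits_of_hist (l : List ℕ) (o : ℕ → ℕ) (ho : ∀ P, o P < 12) (hl : l.length = 7920)
    (h : (l.map (fun P => 65536 ^ o P)).sum =
      137924598677930671011337840484774959597004914659210362880) :
    l.countP (fun P => o P == 0) = 0 ∧
    l.countP (fun P => o P == 1) = 1 ∧
    l.countP (fun P => o P == 2) = 165 ∧
    l.countP (fun P => o P == 3) = 440 ∧
    l.countP (fun P => o P == 4) = 990 ∧
    l.countP (fun P => o P == 5) = 1584 ∧
    l.countP (fun P => o P == 6) = 1320 ∧
    l.countP (fun P => o P == 7) = 0 ∧
    l.countP (fun P => o P == 8) = 1980 ∧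
    l.countP (fun P => o P == 9) = 0 ∧
    l.countP (fun P => o P == 10) = 0 ∧
    l.countP (fun P => o P == 11) = 1440 := by
  rw [sum_pow_eq 65536 o l ho] at h
  simp only [Finset.sum_range_succ, Finset.sum_range_zero] at h
  have hb : ∀ k, l.countP (fun P => o P == k) ≤ 7920 := fun k => by
    rw [← hl]
    exact List.countP_le_length
  have b0 := hb 0
  have b1 := hb 1
  have b2 := hb 2
  have b3 := hb 3
  have b4 := hb 4
  have b5 := hb 5
  have b6 := hb 6
  have b7 := hb 7
  have b8 := hb 8
  have b9 := hb 9
  have b10 := hb 10
  have b11 := hb 11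
  generalize l.countP (fun P => o P == 0) = c0 at *
  generalize l.countP (fun P => o P == 1) = c1 at *
  generalize l.countP (fun P => o P == 2) = c2 at *
  generalize l.countP (fun P => o P == 3) = c3 at *
  generalize l.countP (fun P => o P == 4) = c4 at *
  generalize l.countP (fun P => o P == 5) = c5 at *
  generalize l.countP (fun P => o P == 6) = c6 at *
  generalize l.countP (fun P => o P == 7) = c7 at *
  generalize l.countP (fun P => o P == 8) = c8 at *
  generalize l.countP (fun P => o P == 9) = c9 at *
  generalize l.countP (fun P => o P == 10) = c10 at *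
  generalize l.countP (fun P => o P == 11) = c11 at *
  norm_num at h
  omega

/-- the number of products of each order -/
theorem count_prodsM11 :
    prodsM11.countP (fun P => ordP P == 0) = 0 ∧
    prodsM11.countP (fun P => ordP P == 1) = 1 ∧
    prodsM11.countP (fun P => ordP P == 2) = 165 ∧
    prodsM11.countP (fun P => ordP P == 3) = 440 ∧
    prodsM11.countP (fun P => ordP P == 4) = 990 ∧
    prodsM11.countP (fun P => ordP P == 5) = 1584 ∧
    prodsM11.countP (fun P => ordP P == 6) = 1320 ∧
    prodsM11.countP (fun P => ordP P == 7) = 0 ∧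
    prodsM11.countP (fun P => ordP P == 8) = 1980 ∧
    prodsM11.countP (fun P => ordP P == 9) = 0 ∧
    prodsM11.countP (fun P => ordP P == 10) = 0 ∧
    prodsM11.countP (fun P => ordP P == 11) = 1440 :=
  digits_of_hist prodsM11 ordP ordP_lt length_prodsM11
    ((sumProd4_eq q11c1 q11c2 q11c3 q11c4 (fun R => Nat.pow 65536 (ordP R))).symm.trans m11_hist)

theorem exists_rep (g : ↥Spor.M11) :
    ∃ P, P ∈ prodsM11 ∧ Rep P (g : Equiv.Perm GolayPt) := by
  obtain ⟨P1, hP1, P2, hP2, P3, hP3, P4, hP4, hrep⟩ := sporM11_rep g.2
  exact ⟨_, mem_prods4 hP1 hP2 hP3 hP4, hrep⟩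

/-- the number of elements of order `n` of `Spor.M11` is the number of products of four
transversal elements whose packed order is `n` -/
theorem card_orderOf_eq (n : ℕ) :
    Nat.card {g : ↥Spor.M11 // orderOf g = n} = prodsM11.countP (fun P => ordP P == n) := by
  classical
  choose F hF hFrep using exists_rep
  have Finj : Function.Injective F := by
    intro g g' h
    have h1 := hFrep g
    rw [h] at h1
    exact Subtype.ext (rep_unique h1 (hFrep g'))
  have : Fintype ↥Spor.M11 := Fintype.ofFinite _
  have hcard : Fintype.card ↥Spor.M11 = 7920 := by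
    rw [← Nat.card_eq_fintype_card]
    exact card_sporM11
  have himg : Finset.univ.image F = prodsM11.toFinset := by
    apply Finset.eq_of_subset_of_card_le
    · intro P hP
      obtain ⟨g, _, rfl⟩ := Finset.mem_image.mp hP
      exact List.mem_toFinset.mpr (hF g)
    · rw [Finset.card_image_of_injective _ Finj, Finset.card_univ, hcard, ← length_prodsM11]
      exact List.toFinset_card_le _
  have hnd : prodsM11.Nodup := by
    have h1 : prodsM11.toFinset.card = prodsM11.length := by
      rw [← himg, Finset.card_image_of_injective _ Finj, Finset.card_univ, hcard,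
        length_prodsM11]
    rw [List.card_toFinset] at h1
    have h2 : prodsM11.dedup = prodsM11 := (List.dedup_sublist prodsM11).eq_of_length h1
    rw [← h2]
    exact List.nodup_dedup _
  have hne : ∀ g, ordP (F g) ≠ 0 := by
    intro g h0
    have h1 := List.countP_eq_zero.mp count_prodsM11.1 (F g) (hF g)
    rw [h0] at h1
    exact h1 rfl
  have hord : ∀ g : ↥Spor.M11, orderOf g = ordP (F g) := fun g => by
    rw [← Subgroup.orderOf_coe]
    exact ordP_spec (hFrep g) (hne g)
  rw [Nat.card_eq_fintype_card, Fintype.card_subtype]
  have e1 : (Finset.univ.filter (fun g : ↥Spor.M11 => orderOf g = n)) =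
      Finset.univ.filter (fun g => ordP (F g) = n) := by
    ext g
    simp [hord g]
  have e2 : prodsM11.toFinset.filter (fun P => ordP P = n) =
      (prodsM11.filter (fun P => ordP P == n)).toFinset := by
    ext P
    simp
  have e3 : Finset.image F (Finset.univ.filter (fun g => ordP (F g) = n)) =
      (Finset.univ.image F).filter (fun P => ordP P = n) := by
    ext P
    simp only [Finset.mem_image, Finset.mem_filter, Finset.mem_univ, true_and]
    constructor
    · rintro ⟨g, hg, rfl⟩
      exact ⟨⟨g, rfl⟩, hg⟩
    · rintro ⟨⟨g, rfl⟩, hg⟩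
      exact ⟨g, hg, rfl⟩
  rw [e1, ← Finset.card_image_of_injective _ Finj, e3, himg, e2,
    List.toFinset_card_of_nodup (hnd.filter _), List.countP_eq_length_filter]

/-- **S3592-TALLY**: the number of elements of each order of `Spor.M11` -/
theorem sporM11_nse (n : ℕ) : Nat.card {g : ↥Cfsg.Spor.M11 // orderOf g = n} ∈
    ({0, 1, 165, 440, 990, 1320, 1440, 1584, 1980} : Finset ℕ) := by
  rw [card_orderOf_eq]
  obtain ⟨h0, h1, h2, h3, h4, h5, h6, h7, h8, h9, h10, h11⟩ := count_prodsM11
  by_cases hn : n < 12
  · interval_cases n
    · rw [h0]; decide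
    · rw [h1]; decide
    · rw [h2]; decide
    · rw [h3]; decide
    · rw [h4]; decide
    · rw [h5]; decide
    · rw [h6]; decide
    · rw [h7]; decide
    · rw [h8]; decide
    · rw [h9]; decide
    · rw [h10]; decide
    · rw [h11]; decide
  · have h : prodsM11.countP (fun P => ordP P == n) = 0 := by
      rw [List.countP_eq_zero]
      intro P _ hP
      have h12 := ordP_lt P
      have h13 : ordP P = n := by simpa using hP
      omega
    rw [h]
    decide

/-- the exact tally, for reuse -/
theorem sporM11_card_orderOf :
    Nat.card {g : ↥Cfsg.Spor.M11 // orderOf g = 1} = 1 ∧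
    Nat.card {g : ↥Cfsg.Spor.M11 // orderOf g = 2} = 165 ∧
    Nat.card {g : ↥Cfsg.Spor.M11 // orderOf g = 3} = 440 ∧
    Nat.card {g : ↥Cfsg.Spor.M11 // orderOf g = 4} = 990 ∧
    Nat.card {g : ↥Cfsg.Spor.M11 // orderOf g = 5} = 1584 ∧
    Nat.card {g : ↥Cfsg.Spor.M11 // orderOf g = 6} = 1320 ∧
    Nat.card {g : ↥Cfsg.Spor.M11 // orderOf g = 8} = 1980 ∧
    Nat.card {g : ↥Cfsg.Spor.M11 // orderOf g = 11} = 1440 := by
  obtain ⟨h0, h1, h2, h3, h4, h5, h6, h7, h8, h9, h10, h11⟩ := count_prodsM11
  simp only [card_orderOf_eq]
  exact ⟨h1, h2, h3, h4, h5, h6, h8, h11⟩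

end Cfsg.Agent.H71.M11
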