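import Mathlib
import Cfsg.Agent.H74.MCDefs
import Cfsg.Agent.H4.Chars
import Cfsg.Agent.H4.PaQb
import Cfsg.Agent.H82.Irr

/-!
# S4756-DVD (helper71, for helper74's S4756 project)

An irreducible character vanishing on the non-trivial `r`-elements has degree divisible by the
full power of `r` in `|G|`: the multiplicity of the trivial character in its restriction to a
Sylow `r`-subgroup `R` is `χ(1) / |R|`.
-/

set_option autoImplicit false

namespace Cfsg.Agent.H71.MC

open Cfsg Cfsg.Agent.H74.MC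

universe u

/-- **S4756-DVD**. -/
theorem dvd : StDvd.{u} := by
  intro G _ _ χ r hr hvan
  classical
  have : Fact r.Prime := ⟨hr⟩
  obtain ⟨R⟩ : Nonempty (Sylow r G) := inferInstance
  let _ : Fintype (R : Subgroup G) := Fintype.ofFinite _
  have hcard : Nat.card (R : Subgroup G) = r ^ (Nat.card G).factorization r :=
    Sylow.card_eq_multiplicity R
  have h1 : IsCharacter (R : Subgroup G) (fun h : (R : Subgroup G) => (χ : G → ℂ) h) :=
    Cfsg.Agent.H4.isCharacter_restrict (R : Subgroup G)
      (Cfsg.Agent.H4.isCharacter_of_isIrrCharacter χ.2)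
  have h2 : IsCharacter (R : Subgroup G) (fun _ : (R : Subgroup G) => (1 : ℂ)) :=
    Cfsg.Agent.H4.isCharacter_of_isIrrCharacter Cfsg.Agent.H4.isIrrCharacter_one
  obtain ⟨w, hw⟩ := Cfsg.Agent.H4.classInner_isCharacter_nat h1 h2
  have hsum : ∑ x : (R : Subgroup G), (χ : G → ℂ) x = (χ : G → ℂ) 1 := by
    rw [Finset.sum_eq_single (1 : (R : Subgroup G))]
    · rfl
    · intro x _ hx
      apply hvan
      · intro h; exact hx (Subtype.ext h)
      · obtain ⟨k, hk⟩ := (IsPGroup.iff_orderOf.mp R.isPGroup') x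
        exact ⟨k, by rw [← hk, Subgroup.orderOf_coe]⟩
    · intro h; exact absurd (Finset.mem_univ _) h
  unfold classInner at hw
  simp only [map_one, mul_one] at hw
  rw [hsum, hcard, Cfsg.Agent.H82.irr_one_eq_charDegree] at hw
  have hpos : ((r ^ (Nat.card G).factorization r : ℕ) : ℂ) ≠ 0 := by
    exact_mod_cast (pow_pos hr.pos _).ne'
  have h3 : (charDegree (χ : G → ℂ) : ℂ) =
      ((r ^ (Nat.card G).factorization r * w : ℕ) : ℂ) := by
    rw [Nat.cast_mul, ← hw, ← mul_assoc, mul_inv_cancel₀ hpos, one_mul]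
  exact ⟨w, by exact_mod_cast h3⟩

example : Cfsg.Agent.H74.MC.StDvd.{u} := dvd

end Cfsg.Agent.H71.MC
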