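import Mathlib
import Cfsg.Agent.H74.MCDefs

/-!
# S4756-SETUP (helper71, for helper74's S4756 project)

If `G'` is a `p`-group and the centralizer condition `CentCond G p` holds, then every Sylow
`p`-subgroup `P` is normal, contains `G'`, and has an abelian complement `A` (Schur–Zassenhaus)
such that `Setup G p P A` holds.
-/

set_option autoImplicit false

namespace Cfsg.Agent.H71.MC

open Cfsg Cfsg.Agent.H74.MC

universe u

/-- a normal `p`-subgroup lies in every Sylow `p`-subgroup -/
theorem setup_le_sylow {G : Type u} [Group G] [Finite G] (p : ℕ) [Fact p.Prime]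
    (N : Subgroup G) [hN : N.Normal] (hp : IsPGroup p N) (P : Sylow p G) :
    N ≤ (P : Subgroup G) := by
  obtain ⟨Q, hQ⟩ := hp.exists_le_sylow
  obtain ⟨g, hg⟩ := MulAction.exists_smul_eq G Q P
  intro x hx
  rw [← hg, Sylow.coe_subgroup_smul, Subgroup.mem_pointwise_smul_iff_inv_smul_mem]
  apply hQ
  have h1 : (MulAut.conj g)⁻¹ • x = g⁻¹ * x * g⁻¹⁻¹ := by
    rw [← map_inv]; rfl
  rw [h1]
  exact hN.conj_mem x hx g⁻¹

/-- **S4756-SETUP**. -/
theorem setup : StSetup.{u} := by
  intro G _ _ p _ hpG hcc P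
  have hp : p.Prime := Fact.out
  have hle : commutator G ≤ (P : Subgroup G) := setup_le_sylow p (commutator G) hpG P
  have hnorm : (P : Subgroup G).Normal := by
    constructor
    intro x hx g
    have h1 : g * x * g⁻¹ = (g * x * g⁻¹ * x⁻¹) * x := by group
    rw [h1]
    refine (P : Subgroup G).mul_mem (hle ?_) hx
    rw [commutator_def]
    exact Subgroup.commutator_mem_commutator (Subgroup.mem_top g) (Subgroup.mem_top x)
  obtain ⟨A, hA⟩ := Subgroup.exists_right_complement'_of_coprime P.card_coprime_index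
  have hinf : A ⊓ (P : Subgroup G) = ⊥ := by
    rw [inf_comm]; exact hA.disjoint.eq_bot
  have hsup : A ⊔ (P : Subgroup G) = ⊤ := by
    rw [sup_comm]; exact hA.sup_eq_top
  refine ⟨A, ⟨hnorm, P.isPGroup', hle, hinf, hsup, ?_, ?_, ?_⟩⟩
  · intro a ha b hb
    have h1 : a * b * a⁻¹ * b⁻¹ ∈ A ⊓ (P : Subgroup G) := by
      refine ⟨A.mul_mem (A.mul_mem (A.mul_mem ha hb) (A.inv_mem ha)) (A.inv_mem hb), hle ?_⟩
      rw [commutator_def]
      exact Subgroup.commutator_mem_commutator (Subgroup.mem_top a) (Subgroup.mem_top b)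
    rw [hinf, Subgroup.mem_bot] at h1
    calc a * b = (a * b * a⁻¹ * b⁻¹) * (b * a) := by group
      _ = b * a := by rw [h1, one_mul]
  · have h1 : (P : Subgroup G).index = Nat.card A := hA.symm.index_eq_card
    rw [← h1, Nat.coprime_comm, Nat.Prime.coprime_iff_not_dvd hp]
    exact P.not_dvd_index
  · intro g hg
    apply hcc
    rintro ⟨k, hk⟩
    apply hg
    have hz : IsPGroup p (Subgroup.zpowers g) :=
      IsPGroup.of_card ((Nat.card_zpowers g).trans hk)
    obtain ⟨Q, hQ⟩ := hz.exists_le_sylow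
    obtain ⟨h, hh⟩ := MulAction.exists_smul_eq G P Q
    have hPQ : Q = P := by
      rw [← hh]
      have := hnorm
      exact Sylow.smul_eq_of_normal
    rw [← hPQ]
    exact hQ (Subgroup.mem_zpowers g)

example : Cfsg.Agent.H74.MC.StSetup.{u} := setup

end Cfsg.Agent.H71.MC
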