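import Mathlib
import Cfsg.Agent.H71.FrattiniPow
import Cfsg.Agent.H71.Class2
import Cfsg.Agent.H71.PClosure

set_option autoImplicit false

namespace Cfsg.Agent.H71

/-- In a finite `p`-group all of whose proper subgroups are abelian, the derived subgroup is
generated by any of its non-identity elements (it has order at most `p`). -/
theorem commutator_le_zpowers_of_min_nonabelian {P : Type*} [Group P] [Finite P] {p : ℕ}
    [Fact p.Prime] (hP : IsPGroup p P)
    (hmin : ∀ H : Subgroup P, H ≠ ⊤ → ∀ x ∈ H, ∀ y ∈ H, x * y = y * x)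
    (w : P) (hw : w ∈ commutator P) (hw1 : w ≠ 1) : commutator P ≤ Subgroup.zpowers w := by
  classical
  have hprime : p.Prime := Fact.out
  have hnil : Group.IsNilpotent P := hP.isNilpotent
  have hna : ∃ a b : P, a * b ≠ b * a := by
    by_contra hcon
    push Not at hcon
    apply hw1
    rw [commutator_eq_closure] at hw
    have hle : Subgroup.closure (commutatorSet P) ≤ ⊥ := by
      rw [Subgroup.closure_le]
      rintro g ⟨g₁, g₂, rfl⟩
      rw [SetLike.mem_coe, Subgroup.mem_bot]
      exact commutatorElement_eq_one_iff_mul_comm.2 (hcon g₁ g₂)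
    exact Subgroup.mem_bot.1 (hle hw)
  obtain ⟨a, b, hab⟩ := hna
  set c := a * b * a⁻¹ * b⁻¹ with hc
  have hgen : Subgroup.closure ({a, b} : Set P) = ⊤ := by
    by_contra hne
    exact hab (hmin _ hne a (Subgroup.subset_closure (by simp)) b (Subgroup.subset_closure (by simp)))
  have hcoatom : ∀ x : P, ∃ M : Subgroup P, IsCoatom M ∧ x ∈ M := by
    intro x
    rcases eq_top_or_exists_le_coatom (Subgroup.zpowers x) with h | ⟨M, hM, hle⟩
    · exfalso
      have ha : a ∈ Subgroup.zpowers x := by rw [h]; trivial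
      have hb : b ∈ Subgroup.zpowers x := by rw [h]; trivial
      obtain ⟨i, rfl⟩ := ha
      obtain ⟨j, rfl⟩ := hb
      exact hab ((Commute.refl x).zpow_zpow i j).eq
    · exact ⟨M, hM, hle (Subgroup.mem_zpowers x)⟩
  have hMnormal : ∀ M : Subgroup P, IsCoatom M → M.Normal := fun M hM =>
    Subgroup.NormalizerCondition.normal_of_coatom M Group.normalizerCondition_of_isNilpotent hM
  have hMab : ∀ M : Subgroup P, IsCoatom M → ∀ x ∈ M, ∀ y ∈ M, x * y = y * x :=
    fun M hM => hmin M hM.1
  obtain ⟨Ma, hMa, haMa⟩ := hcoatom a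
  obtain ⟨Mb, hMb, hbMb⟩ := hcoatom b
  have hca : c * a = a * c := by
    have hcM : c ∈ Ma := by
      have : c = a * (b * a⁻¹ * b⁻¹) := by rw [hc]; group
      rw [this]
      exact Ma.mul_mem haMa ((hMnormal Ma hMa).conj_mem _ (Ma.inv_mem haMa) b)
    exact hMab Ma hMa c hcM a haMa
  have hcb : c * b = b * c := by
    have hcM : c ∈ Mb := by
      have : c = (a * b * a⁻¹) * b⁻¹ := by rw [hc]
      rw [this]
      exact Mb.mul_mem ((hMnormal Mb hMb).conj_mem _ hbMb a) (Mb.inv_mem hbMb)
    exact hMab Mb hMb c hcM b hbMb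
  have hcc : ∀ z : P, Commute c z := by
    have hle : Subgroup.closure ({a, b} : Set P) ≤ Subgroup.centralizer {c} := by
      rw [Subgroup.closure_le]
      intro x hx
      rw [SetLike.mem_coe, Subgroup.mem_centralizer_singleton_iff]
      rcases hx with rfl | hx
      · exact hca.symm
      · rw [Set.mem_singleton_iff] at hx
        rw [hx]; exact hcb.symm
    intro z
    have hz : z ∈ Subgroup.centralizer {c} := hle (by rw [hgen]; trivial)
    rw [Subgroup.mem_centralizer_singleton_iff] at hz
    exact hz.symm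
  have h1 : a * b = c * (b * a) := by rw [hc]; group
  have hcp : c ^ p = 1 := by
    have h2 := pow_mul_comm_central hcc h1 p
    have h3 : a ^ p * b = b * a ^ p :=
      hMab Mb hMb _ (frattini_le_coatom hMb (pow_p_mem_frattini hP a)) b hbMb
    rw [h3] at h2
    have h4 : c ^ p * (b * a ^ p) = 1 * (b * a ^ p) := by rw [one_mul]; exact h2.symm
    exact mul_right_cancel h4
  have hzn : (Subgroup.zpowers c).Normal := by
    refine ⟨fun x hx g => ?_⟩
    obtain ⟨k, rfl⟩ := hx
    have : g * c ^ k * g⁻¹ = c ^ k := by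
      have := ((hcc g).zpow_left k).eq
      rw [← this, mul_inv_cancel_right]
    rw [this]
    exact ⟨k, rfl⟩
  have hle : commutator P ≤ Subgroup.zpowers c := by
    rw [← Subgroup.Normal.quotient_commutative_iff_commutator_le]
    have hS : ∀ x ∈ ({(a : P ⧸ Subgroup.zpowers c), (b : P ⧸ Subgroup.zpowers c)} : Set _),
        ∀ y ∈ ({(a : P ⧸ Subgroup.zpowers c), (b : P ⧸ Subgroup.zpowers c)} : Set _),
        x * y = y * x := by
      have hab' : (a : P ⧸ Subgroup.zpowers c) * (b : P ⧸ Subgroup.zpowers c) = b * a := by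
        rw [← QuotientGroup.mk_mul, ← QuotientGroup.mk_mul, QuotientGroup.eq]
        have : (a * b)⁻¹ * (b * a) = c⁻¹ := by
          rw [h1, mul_inv_rev, mul_assoc, ((hcc (b * a)).inv_left).eq, ← mul_assoc, inv_mul_cancel,
            one_mul]
        rw [this]
        exact Subgroup.inv_mem _ (Subgroup.mem_zpowers c)
      intro x hx y hy
      rcases hx with rfl | hx <;> rcases hy with rfl | hy
      · rfl
      · rw [Set.mem_singleton_iff] at hy; rw [hy]; exact hab'
      · rw [Set.mem_singleton_iff] at hx; rw [hx]; exact hab'.symm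
      · rw [Set.mem_singleton_iff] at hx hy; rw [hx, hy]
    have hclos : Subgroup.closure ({(a : P ⧸ Subgroup.zpowers c),
        (b : P ⧸ Subgroup.zpowers c)} : Set _) = ⊤ := by
      have h2 := MonoidHom.map_closure (QuotientGroup.mk' (Subgroup.zpowers c)) ({a, b} : Set P)
      rw [hgen, ← MonoidHom.range_eq_map,
        MonoidHom.range_eq_top.2 (QuotientGroup.mk'_surjective _)] at h2
      rw [h2]
      congr 1
      simp [Set.image_pair]
    refine ⟨⟨fun x y => ?_⟩⟩
    exact closure_commute _ hS x (by rw [hclos]; trivial) y (by rw [hclos]; trivial)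
  obtain ⟨k, hk⟩ := hle hw
  have hk' : c ^ k = w := hk
  have hpk : ¬ (p : ℤ) ∣ k := by
    rintro ⟨m, rfl⟩
    apply hw1
    rw [← hk', zpow_mul, zpow_natCast, hcp, one_zpow]
  have hirr : Irreducible (p : ℤ) := (Nat.prime_iff_prime_int.1 hprime).irreducible
  have hcop : IsCoprime (p : ℤ) k := hirr.coprime_iff_not_dvd.2 hpk
  obtain ⟨s, t, hst⟩ := hcop
  have hcw : c ∈ Subgroup.zpowers w := by
    refine ⟨t, ?_⟩
    show w ^ t = c
    rw [← hk', ← zpow_mul]
    have h5 : k * t = 1 - (p : ℤ) * s := by linarith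
    rw [h5, zpow_sub, zpow_one, zpow_mul, zpow_natCast, hcp, one_zpow, inv_one, mul_one]
  exact hle.trans ((Subgroup.zpowers_le).2 hcw)

end Cfsg.Agent.H71
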