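import Mathlib
import Cfsg.Agent.H71.Parts
import Cfsg.Agent.H71.SylowConj
import Cfsg.Agent.H71.SylowMisc

set_option autoImplicit false
set_option linter.unusedSectionVars false

namespace Cfsg.Agent.H71

/-- Internal form of "`H` has a normal Sylow `p`-subgroup with cyclic quotient". -/
def PBC {G : Type*} [Group G] (p : ℕ) (H : Subgroup G) : Prop :=
  ∃ S : Subgroup G, IsPGroup p S ∧ S ≤ H ∧ (∀ h ∈ H, ∀ s ∈ S, h * s * h⁻¹ ∈ S) ∧
    ∃ y ∈ H, (orderOf y).Coprime p ∧ ∀ h ∈ H, ∃ s ∈ S, ∃ k : ℤ, h = s * y ^ k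

section
variable {G : Type*} [Group G] [Finite G] {p : ℕ} [Fact p.Prime]

/-- Under the `PBC` data every Sylow `p`-subgroup of `H` is the given one. -/
theorem sylow_eq_of_pbc {H S : Subgroup G} (hSp : IsPGroup p S)
    (hinv : ∀ h ∈ H, ∀ s ∈ S, h * s * h⁻¹ ∈ S) {y : G} (hyH : y ∈ H)
    (hy : (orderOf y).Coprime p)
    (hgen : ∀ h ∈ H, ∃ s ∈ S, ∃ k : ℤ, h = s * y ^ k) (S₁ : Sylow p ↥H) :
    (S₁ : Subgroup ↥H) = S.subgroupOf H := by
  have hS'p : IsPGroup p (S.subgroupOf H) := hSp.comap_subtype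
  have hS'n : (S.subgroupOf H).Normal := by
    constructor
    intro n hn g
    rw [Subgroup.mem_subgroupOf] at hn ⊢
    exact hinv g g.2 n hn
  apply le_antisymm
  · intro x hx
    obtain ⟨j, hj⟩ := S₁.isPGroup' ⟨x, hx⟩
    have hxj : x ^ p ^ j = 1 := congrArg Subtype.val hj
    obtain ⟨s, hs, k, hk⟩ := hgen x x.2
    have hsH : s ∈ H := by
      have h1 : s = x * (y ^ k)⁻¹ := by rw [hk]; group
      rw [h1]
      exact H.mul_mem x.2 (H.inv_mem (H.zpow_mem hyH k))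
    have hxeq : x = (⟨s, hsH⟩ : ↥H) * (⟨y, hyH⟩ : ↥H) ^ k := Subtype.ext hk
    have hq : ((x : ↥H) : ↥H ⧸ S.subgroupOf H) =
        (((⟨y, hyH⟩ : ↥H) : ↥H ⧸ S.subgroupOf H)) ^ k := by
      have h1 : (((⟨s, hsH⟩ : ↥H)) : ↥H ⧸ S.subgroupOf H) = 1 := by
        rw [QuotientGroup.eq_one_iff, Subgroup.mem_subgroupOf]; exact hs
      rw [hxeq, QuotientGroup.mk_mul, h1, one_mul, QuotientGroup.mk_zpow]
    have h2 : ((x : ↥H) : ↥H ⧸ S.subgroupOf H) ^ p ^ j = 1 := by
      rw [← QuotientGroup.mk_pow, hxj, QuotientGroup.mk_one]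
    have h3 : ((x : ↥H) : ↥H ⧸ S.subgroupOf H) ^ orderOf y = 1 := by
      rw [hq, ← zpow_natCast, ← zpow_mul, mul_comm, zpow_mul, zpow_natCast,
        ← QuotientGroup.mk_pow]
      have h4 : (⟨y, hyH⟩ : ↥H) ^ orderOf y = 1 := by
        apply Subtype.ext
        simp [pow_orderOf_eq_one]
      rw [h4, QuotientGroup.mk_one, one_zpow]
    have h5 : orderOf ((x : ↥H) : ↥H ⧸ S.subgroupOf H) ∣ Nat.gcd (orderOf y) (p ^ j) :=
      Nat.dvd_gcd (orderOf_dvd_of_pow_eq_one h3) (orderOf_dvd_of_pow_eq_one h2)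
    have h6 : Nat.gcd (orderOf y) (p ^ j) = 1 := Nat.Coprime.pow_right j hy
    rw [h6] at h5
    have h7 : ((x : ↥H) : ↥H ⧸ S.subgroupOf H) = 1 :=
      orderOf_eq_one_iff.1 (Nat.eq_one_of_dvd_one h5)
    exact (QuotientGroup.eq_one_iff x).1 h7
  · obtain ⟨Q, hQ⟩ := hS'p.exists_le_sylow
    obtain ⟨g, hg⟩ := MulAction.exists_smul_eq ↥H Q S₁
    intro n hn
    have h1 : g⁻¹ * n * g ∈ S.subgroupOf H := by
      have h2 := hS'n.conj_mem n hn g⁻¹
      rwa [inv_inv] at h2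
    rw [← hg]
    exact (mem_smul_sylow_iff g Q n).2 (hQ h1)

/-- The hypotheses of the statement follow from `PBC`. -/
theorem hyps_of_pbc {H : Subgroup G} (h : PBC p H) :
    (∀ S : Sylow p ↥H, (S : Subgroup ↥H).Normal) ∧
    (∀ (S : Sylow p ↥H) [(S : Subgroup ↥H).Normal], IsCyclic (↥H ⧸ (S : Subgroup ↥H))) := by
  obtain ⟨S, hSp, hSH, hinv, y, hyH, hy, hgen⟩ := h
  have key := sylow_eq_of_pbc hSp hinv hyH hy hgen
  constructor
  · intro S₁
    rw [key S₁]
    constructor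
    intro n hn g
    rw [Subgroup.mem_subgroupOf] at hn ⊢
    exact hinv g g.2 n hn
  · intro S₁ hS₁
    refine ⟨⟨((⟨y, hyH⟩ : ↥H) : ↥H ⧸ (S₁ : Subgroup ↥H)), fun z => ?_⟩⟩
    obtain ⟨x, rfl⟩ := QuotientGroup.mk_surjective z
    obtain ⟨s, hs, k, hk⟩ := hgen x x.2
    have hsH : s ∈ H := hSH hs
    have hxeq : x = (⟨s, hsH⟩ : ↥H) * (⟨y, hyH⟩ : ↥H) ^ k := Subtype.ext hk
    have h1 : (((⟨s, hsH⟩ : ↥H)) : ↥H ⧸ (S₁ : Subgroup ↥H)) = 1 := by
      rw [QuotientGroup.eq_one_iff, key S₁, Subgroup.mem_subgroupOf]; exact hs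
    refine ⟨k, ?_⟩
    show ((⟨y, hyH⟩ : ↥H) : ↥H ⧸ (S₁ : Subgroup ↥H)) ^ k = _
    rw [hxeq, QuotientGroup.mk_mul, h1, one_mul, QuotientGroup.mk_zpow]

/-- `PBC` follows from the hypotheses of the statement. -/
theorem pbc_of_hyps {H : Subgroup G} (h1 : ∀ S : Sylow p ↥H, (S : Subgroup ↥H).Normal)
    (h2 : ∀ (S : Sylow p ↥H) [(S : Subgroup ↥H).Normal], IsCyclic (↥H ⧸ (S : Subgroup ↥H))) :
    PBC p H := by
  obtain ⟨S₁⟩ : Nonempty (Sylow p ↥H) := inferInstance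
  have hS₁n := h1 S₁
  obtain ⟨gbar, hgbar⟩ := (h2 S₁).exists_generator
  obtain ⟨g₀, rfl⟩ := QuotientGroup.mk_surjective gbar
  obtain ⟨a, b, ha, hb, hab, hak, hbp⟩ := exists_p_part p (Fact.out) (g₀ : G)
  have hzH : Subgroup.zpowers (g₀ : G) ≤ H := by
    rw [Subgroup.zpowers_le]; exact g₀.2
  have haH := hzH ha
  have hbH := hzH hb
  have hcomm : Commute a b := by
    obtain ⟨i, hi⟩ := Subgroup.mem_zpowers_iff.1 ha
    obtain ⟨j, hj⟩ := Subgroup.mem_zpowers_iff.1 hb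
    rw [← hi, ← hj]
    exact Commute.zpow_zpow_self _ i j
  have haS : (⟨a, haH⟩ : ↥H) ∈ (S₁ : Subgroup ↥H) := by
    have hp' : IsPGroup p (Subgroup.zpowers (⟨a, haH⟩ : ↥H)) := by
      apply isPGroup_zpowers
      obtain ⟨k, hk⟩ := hak
      exact ⟨k, by rw [← hk, ← Subgroup.orderOf_coe]⟩
    obtain ⟨Q, hQ⟩ := hp'.exists_le_sylow
    obtain ⟨g, hg⟩ := MulAction.exists_smul_eq ↥H Q S₁
    have hQS : Q = S₁ := by
      have h3 : g⁻¹ • S₁ = S₁ := Sylow.smul_eq_of_normal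
      rw [← hg, inv_smul_smul] at h3
      exact h3.trans hg
    rw [← hQS]; exact hQ (Subgroup.mem_zpowers _)
  refine ⟨(S₁ : Subgroup ↥H).map H.subtype, S₁.isPGroup'.map _, Subgroup.map_subtype_le _, ?_,
    b, hbH, ?_, ?_⟩
  · rintro h hh _ ⟨s, hs, rfl⟩
    exact ⟨⟨h, hh⟩ * s * ⟨h, hh⟩⁻¹, hS₁n.conj_mem s hs _, rfl⟩
  · exact ((Nat.Prime.coprime_iff_not_dvd Fact.out).2 hbp).symm
  · intro h hh
    obtain ⟨k, hk⟩ := Subgroup.mem_zpowers_iff.1 (hgbar (QuotientGroup.mk ⟨h, hh⟩))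
    have h3 : (⟨h, hh⟩ : ↥H) * (g₀ ^ k)⁻¹ ∈ (S₁ : Subgroup ↥H) := by
      rw [← QuotientGroup.eq_one_iff, QuotientGroup.mk_mul, QuotientGroup.mk_inv,
        QuotientGroup.mk_zpow, hk, mul_inv_cancel]
    refine ⟨h * ((g₀ : G) ^ k)⁻¹ * a ^ k,
      ⟨⟨h, hh⟩ * (g₀ ^ k)⁻¹ * ⟨a, haH⟩ ^ k,
        Subgroup.mul_mem _ h3 (Subgroup.zpow_mem _ haS k), rfl⟩, k, ?_⟩
    have h4 : (g₀ : G) ^ k = a ^ k * b ^ k := by
      rw [hab]; exact hcomm.mul_zpow k
    rw [h4]; group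

end

/-- In a group isomorphic to a dihedral group, every element either commutes with all elements
of odd order, or is an involution inverting all elements of odd order. -/
theorem dihedral_odd_dichotomy {H : Type*} [Group H] {m : ℕ} (e : H ≃* DihedralGroup m) (a : H) :
    (∀ b : H, Odd (orderOf b) → a * b = b * a) ∨
    (orderOf a = 2 ∧ ∀ b : H, Odd (orderOf b) → a * b * a⁻¹ = b⁻¹) := by
  have hrot : ∀ b : H, Odd (orderOf b) → ∃ i, e b = DihedralGroup.r i := by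
    intro b hb
    rcases hb' : e b with i | i
    · exact ⟨i, rfl⟩
    · exfalso
      have h1 : orderOf (e b) = 2 := by rw [hb']; exact DihedralGroup.orderOf_sr i
      rw [e.orderOf_eq] at h1
      rw [h1] at hb
      exact absurd hb (by decide)
  rcases ha : e a with j | j
  · left
    intro b hb
    obtain ⟨i, hi⟩ := hrot b hb
    apply e.injective
    rw [map_mul, map_mul, ha, hi, DihedralGroup.r_mul_r, DihedralGroup.r_mul_r, add_comm]
  · right
    constructor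
    · rw [← e.orderOf_eq, ha]; exact DihedralGroup.orderOf_sr j
    · intro b hb
      obtain ⟨i, hi⟩ := hrot b hb
      apply e.injective
      rw [map_mul, map_mul, map_inv, map_inv, ha, hi, mul_inv_eq_iff_eq_mul,
        DihedralGroup.sr_mul_r, eq_comm, inv_mul_eq_iff_eq_mul, DihedralGroup.r_mul_sr]
      congr 1
      ring

/-- A `p'`-element normalizing an abelian `p`-group `S` and centralizing `Ω₁(S)` centralizes
`S`. -/
theorem centralizes_of_omega {G : Type*} [Group G] {p : ℕ} (S : Subgroup G)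
    (hS : IsPGroup p S) (hSab : ∀ a ∈ S, ∀ b ∈ S, a * b = b * a) (y : G)
    (hyS : ∀ s ∈ S, y * s * y⁻¹ ∈ S) (hy : (orderOf y).Coprime p)
    (hΩ : ∀ x ∈ S, x ^ p = 1 → y * x = x * y) : ∀ x ∈ S, y * x = x * y := by
  have key : ∀ j : ℕ, ∀ x ∈ S, x ^ p ^ j = 1 → y * x = x * y := by
    intro j
    induction j with
    | zero =>
      intro x hx h1
      rw [pow_zero, pow_one] at h1
      rw [h1, mul_one, one_mul]
    | succ j ih =>
      intro x hx h1
      have hxp : y * x ^ p = x ^ p * y := by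
        apply ih (x ^ p) (S.pow_mem hx p)
        rw [← pow_mul, ← pow_succ']; exact h1
      set z := y * x * y⁻¹ * x⁻¹ with hz
      have hzS : z ∈ S := S.mul_mem (hyS x hx) (S.inv_mem hx)
      have hzp : z ^ p = 1 := by
        have hc : Commute (y * x * y⁻¹) x⁻¹ := hSab _ (hyS x hx) _ (S.inv_mem hx)
        rw [hz, hc.mul_pow, conj_pow, inv_pow, hxp, mul_inv_cancel_right, mul_inv_cancel]
      have hyz : y * z = z * y := hΩ z hzS hzp
      have hconj : y * x * y⁻¹ = z * x := by rw [hz]; group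
      have hpow : ∀ i : ℕ, y ^ i * x * (y ^ i)⁻¹ = z ^ i * x := by
        intro i
        induction i with
        | zero => simp
        | succ i ihi =>
          have hyzi : y * z ^ i * y⁻¹ = z ^ i := by
            have h3 : Commute y (z ^ i) := (show Commute y z from hyz).pow_right i
            rw [h3.eq, mul_inv_cancel_right]
          calc y ^ (i + 1) * x * (y ^ (i + 1))⁻¹ = y * (y ^ i * x * (y ^ i)⁻¹) * y⁻¹ := by
                rw [pow_succ']; group
            _ = y * (z ^ i * x) * y⁻¹ := by rw [ihi]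
            _ = (y * z ^ i * y⁻¹) * (y * x * y⁻¹) := by group
            _ = z ^ i * (z * x) := by rw [hyzi, hconj]
            _ = z ^ (i + 1) * x := by rw [pow_succ]; group
      have h2 := hpow (orderOf y)
      rw [pow_orderOf_eq_one, one_mul, inv_one, mul_one] at h2
      have hzm : z ^ orderOf y = 1 := by
        have h4 : z ^ orderOf y * x = 1 * x := by rw [one_mul]; exact h2.symm
        exact mul_right_cancel h4
      have h3 : orderOf z ∣ Nat.gcd (orderOf y) p :=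
        Nat.dvd_gcd (orderOf_dvd_of_pow_eq_one hzm) (orderOf_dvd_of_pow_eq_one hzp)
      have hg : Nat.gcd (orderOf y) p = 1 := hy
      rw [hg] at h3
      have hz1 : z = 1 := orderOf_eq_one_iff.1 (Nat.eq_one_of_dvd_one h3)
      rw [hz1, one_mul] at hconj
      calc y * x = y * x * y⁻¹ * y := by group
        _ = x * y := by rw [hconj]
  intro x hx
  obtain ⟨j, hj⟩ := hS ⟨x, hx⟩
  exact key j x hx (congrArg Subtype.val hj)

/-- In a finite cyclic group, the elements with `x ^ p = 1` are the powers of any element of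
order `p`. -/
theorem mem_zpowers_of_pow_eq_one_of_cyclic {C : Type*} [Group C] [Finite C] [IsCyclic C] {p : ℕ}
    (hp : 0 < p) (z x : C) (hz : orderOf z = p) (hx : x ^ p = 1) : x ∈ Subgroup.zpowers z := by
  classical
  let _ : Fintype C := Fintype.ofFinite C
  have h1 : (Finset.univ.filter (fun a : C => a ^ p = 1)).card ≤ p :=
    IsCyclic.card_pow_eq_one_le hp
  have h2 : (Subgroup.zpowers z : Set C).toFinset ⊆ Finset.univ.filter (fun a : C => a ^ p = 1) := by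
    intro a ha
    rw [Set.mem_toFinset] at ha
    obtain ⟨k, rfl⟩ := Subgroup.mem_zpowers_iff.1 ha
    rw [Finset.mem_filter]
    refine ⟨Finset.mem_univ _, ?_⟩
    rw [← zpow_natCast, ← zpow_mul, mul_comm, zpow_mul, zpow_natCast, ← hz, pow_orderOf_eq_one,
      one_zpow]
  have h3 : (Subgroup.zpowers z : Set C).toFinset.card = p := by
    rw [Set.toFinset_card, ← Nat.card_eq_fintype_card]
    exact (Nat.card_zpowers z).trans hz
  have h4 := Finset.eq_of_subset_of_card_le h2 (by rw [h3]; exact h1)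
  have h5 : x ∈ Finset.univ.filter (fun a : C => a ^ p = 1) := by simp [hx]
  rw [← h4, Set.mem_toFinset] at h5
  exact h5

/-- Burnside: if `N(P) ≤ C(P)` for a Sylow `p`-subgroup `P`, then `N(Q) ≤ C(Q)` for every
`Q ≤ P`. -/
theorem normalizer_le_centralizer_of_burnside {G : Type*} [Group G] [Finite G] {p : ℕ}
    [Fact p.Prime] (P : Sylow p G)
    (hNC : Subgroup.normalizer ((P : Subgroup G) : Set G) ≤
      Subgroup.centralizer ((P : Subgroup G) : Set G))
    (Q : Subgroup G) (hQP : Q ≤ P) :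
    ∀ x ∈ Subgroup.normalizer (Q : Set G), ∀ q ∈ Q, x * q = q * x := by
  set M : Subgroup G := (MonoidHom.transferSylow P hNC).ker with hM
  have hcompl : M.IsComplement' (P : Subgroup G) :=
    MonoidHom.ker_transferSylow_isComplement' P hNC
  have hMn : M.Normal := MonoidHom.normal_ker _
  have hPab : ∀ a ∈ (P : Subgroup G), ∀ b ∈ (P : Subgroup G), a * b = b * a := by
    intro a ha b hb
    have h1 : a ∈ Subgroup.centralizer ((P : Subgroup G) : Set G) :=
      hNC (Subgroup.le_normalizer ha)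
    exact (Subgroup.mem_centralizer_iff.1 h1 b hb).symm
  intro x hx q hq
  have h1 : x ∈ (M ⊔ (P : Subgroup G) : Subgroup G) := by
    rw [hcompl.sup_eq_top]; exact Subgroup.mem_top x
  have h2 : x ∈ ((M ⊔ (P : Subgroup G) : Subgroup G) : Set G) := h1
  rw [Subgroup.normal_mul] at h2
  obtain ⟨m, hm, s, hs, rfl⟩ := Set.mem_mul.1 h2
  have hsq : s * q = q * s := hPab s hs q (hQP hq)
  have hmq : m * q * m⁻¹ ∈ Q := by
    have h3 := (Subgroup.mem_set_normalizer_iff.1 hx q).1 hq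
    have h4 : m * s * q * (m * s)⁻¹ = m * q * m⁻¹ := by
      calc m * s * q * (m * s)⁻¹ = m * (s * q) * s⁻¹ * m⁻¹ := by group
        _ = m * (q * s) * s⁻¹ * m⁻¹ := by rw [hsq]
        _ = m * q * m⁻¹ := by group
    rwa [h4] at h3
  have hc : m * q * m⁻¹ * q⁻¹ = 1 := by
    have h5 : m * q * m⁻¹ * q⁻¹ ∈ M := by
      have h8 : m * q * m⁻¹ * q⁻¹ = m * (q * m⁻¹ * q⁻¹) := by group
      rw [h8]
      exact M.mul_mem hm (hMn.conj_mem _ (M.inv_mem hm) q)
    have h6 : m * q * m⁻¹ * q⁻¹ ∈ (P : Subgroup G) := hQP (Q.mul_mem hmq (Q.inv_mem hq))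
    have h7 : m * q * m⁻¹ * q⁻¹ ∈ M ⊓ (P : Subgroup G) := ⟨h5, h6⟩
    rw [hcompl.disjoint.eq_bot] at h7
    exact Subgroup.mem_bot.1 h7
  have hmq' : m * q = q * m := by
    calc m * q = m * q * m⁻¹ * q⁻¹ * q * m := by group
      _ = q * m := by rw [hc, one_mul]
  calc m * s * q = m * (s * q) := by group
    _ = m * (q * s) := by rw [hsq]
    _ = (m * q) * s := by group
    _ = q * (m * s) := by rw [hmq']; group

/-- The `PBC` data are invariant under conjugation. -/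
theorem pbc_map_conj {G : Type*} [Group G] {p : ℕ} (g : G) {H S : Subgroup G} {y : G}
    (hSp : IsPGroup p S) (hSH : S ≤ H) (hinv : ∀ h ∈ H, ∀ s ∈ S, h * s * h⁻¹ ∈ S)
    (hyH : y ∈ H) (hy : (orderOf y).Coprime p)
    (hgen : ∀ h ∈ H, ∃ s ∈ S, ∃ k : ℤ, h = s * y ^ k) :
    IsPGroup p (S.map (MulAut.conj g).toMonoidHom) ∧
    S.map (MulAut.conj g).toMonoidHom ≤ H.map (MulAut.conj g).toMonoidHom ∧
    (∀ h ∈ H.map (MulAut.conj g).toMonoidHom, ∀ s ∈ S.map (MulAut.conj g).toMonoidHom,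
      h * s * h⁻¹ ∈ S.map (MulAut.conj g).toMonoidHom) ∧
    g * y * g⁻¹ ∈ H.map (MulAut.conj g).toMonoidHom ∧
    (orderOf (g * y * g⁻¹)).Coprime p ∧
    (∀ h ∈ H.map (MulAut.conj g).toMonoidHom, ∃ s ∈ S.map (MulAut.conj g).toMonoidHom,
      ∃ k : ℤ, h = s * (g * y * g⁻¹) ^ k) := by
  refine ⟨hSp.map _, Subgroup.map_mono hSH, ?_, ⟨y, hyH, rfl⟩, ?_, ?_⟩
  · rintro _ ⟨h, hh, rfl⟩ _ ⟨s, hs, rfl⟩
    refine ⟨h * s * h⁻¹, hinv h hh s hs, ?_⟩
    show g * (h * s * h⁻¹) * g⁻¹ = g * h * g⁻¹ * (g * s * g⁻¹) * (g * h * g⁻¹)⁻¹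
    group
  · have h1 : orderOf (g * y * g⁻¹) = orderOf y := (MulAut.conj g).orderOf_eq y
    rw [h1]; exact hy
  · rintro _ ⟨h, hh, rfl⟩
    obtain ⟨s, hs, k, rfl⟩ := hgen h hh
    refine ⟨g * s * g⁻¹, ⟨s, hs, rfl⟩, k, ?_⟩
    show g * (s * y ^ k) * g⁻¹ = g * s * g⁻¹ * (g * y * g⁻¹) ^ k
    rw [conj_zpow]; group

/-- The conclusion transfers back along conjugation. -/
theorem concl_of_map_conj {G : Type*} [Group G] {p : ℕ} {H : Subgroup G} (g : G)
    (h : IsCyclic (H.map (MulAut.conj g).toMonoidHom) ∨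
      ∃ n : ℕ, Nonempty (↥(H.map (MulAut.conj g).toMonoidHom) ≃* DihedralGroup (p ^ n))) :
    IsCyclic H ∨ ∃ n : ℕ, Nonempty (H ≃* DihedralGroup (p ^ n)) := by
  have e : ↥H ≃* ↥(H.map (MulAut.conj g).toMonoidHom) :=
    H.equivMapOfInjective _ (MulAut.conj g).injective
  rcases h with hc | ⟨n, ⟨e'⟩⟩
  · left; exact isCyclic_of_surjective e.symm e.symm.surjective
  · right; exact ⟨n, ⟨e.trans e'⟩⟩

/-- A cyclic group is commutative. -/
theorem mul_comm_of_isCyclic {C : Type*} [Group C] (hC : IsCyclic C) (a b : C) :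
    a * b = b * a := by
  obtain ⟨g, hg⟩ := hC.exists_generator
  obtain ⟨i, rfl⟩ := Subgroup.mem_zpowers_iff.1 (hg a)
  obtain ⟨j, rfl⟩ := Subgroup.mem_zpowers_iff.1 (hg b)
  exact (Commute.zpow_zpow_self g i j).eq

/-- Elements of a `p`-subgroup, `p` odd, have odd order. -/
theorem odd_orderOf_of_isPGroup {G : Type*} [Group G] {p : ℕ} [Fact p.Prime] (hp2 : p ≠ 2)
    {K : Subgroup G} (hK : IsPGroup p K) {x : G} (hx : x ∈ K) : Odd (orderOf x) := by
  obtain ⟨k, hk⟩ := (IsPGroup.iff_orderOf.1 hK) ⟨x, hx⟩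
  rw [← Subgroup.orderOf_coe] at hk
  have hk' : orderOf x = p ^ k := hk
  rw [hk']
  exact ((Fact.out : p.Prime).odd_of_ne_two hp2).pow

/-- An element of odd order with `x = x⁻¹` is trivial. -/
theorem eq_one_of_inv_eq_self_of_odd {G : Type*} [Group G] {x : G} (hodd : Odd (orderOf x))
    (h : x⁻¹ = x) : x = 1 := by
  have hx2 : x ^ 2 = 1 := by
    rw [pow_two]; nth_rewrite 1 [← h]; exact inv_mul_cancel x
  obtain ⟨m, hm⟩ := hodd
  have h1 : x ^ (2 * m + 1) = 1 := by rw [← hm]; exact pow_orderOf_eq_one x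
  rw [pow_succ, pow_mul, hx2, one_pow, one_mul] at h1
  exact h1

end Cfsg.Agent.H71
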