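import Mathlib
import Cfsg.Agent.H71.PByCycA
import Cfsg.Agent.H25.Lift

set_option autoImplicit false
set_option linter.unusedSectionVars false

namespace Cfsg.Agent.H71

section
variable {G : Type*} [Group G] [Finite G] {p : ℕ} [Fact p.Prime]

/-- The "if" direction, for `H` with `PBC` data whose `p`-part lies in `P`. -/
theorem pbc_concl_core (P : Sylow p G) (hPc : IsCyclic P)
    (hR : Subgroup.normalizer ((P : Subgroup G) : Set G) =
        Subgroup.centralizer ((P : Subgroup G) : Set G) ∨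
       ((Subgroup.centralizer ((P : Subgroup G) : Set G)).relIndex
          (Subgroup.normalizer ((P : Subgroup G) : Set G)) = 2 ∧
        ∀ Q : Subgroup G, Q ≤ P → Nat.card Q = p →
          IsMulCommutative ↥(Subgroup.centralizer (Q : Set G)) ∧
          ∀ x : G, x ∈ Subgroup.normalizer (Q : Set G) → x ∉ Subgroup.centralizer (Q : Set G) →
            orderOf x = 2 ∧ ∀ c : G, c ∈ Subgroup.centralizer (Q : Set G) → x * c * x⁻¹ = c⁻¹))
    (H S : Subgroup G) (hSp : IsPGroup p S) (hSH : S ≤ H) (hSP : S ≤ P)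
    (hinv : ∀ h ∈ H, ∀ s ∈ S, h * s * h⁻¹ ∈ S) (y : G) (hyH : y ∈ H)
    (hy : (orderOf y).Coprime p) (hgen : ∀ h ∈ H, ∃ s ∈ S, ∃ k : ℤ, h = s * y ^ k) :
    IsCyclic H ∨ ∃ n : ℕ, Nonempty (H ≃* DihedralGroup (p ^ n)) := by
  classical
  have hp : p.Prime := Fact.out
  have hPc' : IsCyclic (P : Subgroup G) := hPc
  have hSc : IsCyclic S := Subgroup.isCyclic_of_le hSP
  obtain ⟨⟨s₀, hs₀S⟩, hs₀gen⟩ := hSc.exists_generator
  have hSgen : ∀ s ∈ S, ∃ i : ℤ, s₀ ^ i = s := by
    intro s hs
    obtain ⟨i, hi⟩ := Subgroup.mem_zpowers_iff.1 (hs₀gen ⟨s, hs⟩)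
    exact ⟨i, by simpa using congrArg Subtype.val hi⟩
  have hSab : ∀ a ∈ S, ∀ b ∈ S, a * b = b * a := by
    intro a ha b hb
    obtain ⟨i, rfl⟩ := hSgen a ha
    obtain ⟨j, rfl⟩ := hSgen b hb
    exact (Commute.zpow_zpow_self s₀ i j).eq
  obtain ⟨n, hn⟩ := (IsPGroup.iff_orderOf.1 hSp) ⟨s₀, hs₀S⟩
  have hn' : orderOf s₀ = p ^ n := by rw [← hn, Subgroup.orderOf_mk]
  have hcyc : y * s₀ = s₀ * y → IsCyclic H := by
    intro hc
    have hcomm : Commute s₀ y := hc.symm
    have hcop : (orderOf s₀).Coprime (orderOf y) := by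
      rw [hn']
      exact Nat.Coprime.pow_left n hy.symm
    have h1 : s₀ ∈ Subgroup.zpowers (s₀ * y) := by
      obtain ⟨m, hm⟩ := exists_pow_eq_self_of_coprime hcop.symm
      have h3 : (s₀ * y) ^ orderOf y = s₀ ^ orderOf y := by
        rw [hcomm.mul_pow, pow_orderOf_eq_one, mul_one]
      have h4 : ((s₀ * y) ^ orderOf y) ^ m ∈ Subgroup.zpowers (s₀ * y) :=
        Subgroup.pow_mem _ (Subgroup.pow_mem _ (Subgroup.mem_zpowers (s₀ * y)) _) _
      rw [h3, hm] at h4
      exact h4
    have h2 : y ∈ Subgroup.zpowers (s₀ * y) := by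
      obtain ⟨m, hm⟩ := exists_pow_eq_self_of_coprime hcop
      have h3 : (s₀ * y) ^ orderOf s₀ = y ^ orderOf s₀ := by
        rw [hcomm.mul_pow, pow_orderOf_eq_one, one_mul]
      have h4 : ((s₀ * y) ^ orderOf s₀) ^ m ∈ Subgroup.zpowers (s₀ * y) :=
        Subgroup.pow_mem _ (Subgroup.pow_mem _ (Subgroup.mem_zpowers (s₀ * y)) _) _
      rw [h3, hm] at h4
      exact h4
    have hs₀H : s₀ ∈ H := hSH hs₀S
    refine ⟨⟨⟨s₀ * y, H.mul_mem hs₀H hyH⟩, fun h => ?_⟩⟩
    obtain ⟨s, hs, k, hk⟩ := hgen h h.2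
    obtain ⟨i, rfl⟩ := hSgen s hs
    have h3 : (h : G) ∈ Subgroup.zpowers (s₀ * y) := by
      rw [hk]
      exact Subgroup.mul_mem _ (Subgroup.zpow_mem _ h1 i) (Subgroup.zpow_mem _ h2 k)
    obtain ⟨m, hm⟩ := Subgroup.mem_zpowers_iff.1 h3
    exact ⟨m, Subtype.ext (by simpa using hm)⟩
  by_cases hS1 : s₀ = 1
  · left
    apply hcyc
    rw [hS1, mul_one, one_mul]
  have hSne : S ≠ ⊥ := by
    intro hbot
    rw [hbot, Subgroup.mem_bot] at hs₀S
    exact hS1 hs₀S
  obtain ⟨z, hzS, hzp⟩ : ∃ z ∈ S, orderOf z = p := by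
    have hcard : p ∣ Nat.card S := by
      obtain ⟨m, hm⟩ := hSp.exists_card_eq
      have hm0 : m ≠ 0 := by
        rintro rfl
        rw [pow_zero] at hm
        exact hSne (Subgroup.card_eq_one.1 hm)
      rw [hm]; exact dvd_pow_self p hm0
    obtain ⟨x, hx⟩ := exists_prime_orderOf_dvd_card' (G := S) p hcard
    exact ⟨x, x.2, by rw [← hx, Subgroup.orderOf_coe]⟩
  set Q := Subgroup.zpowers z with hQ
  have hQS : Q ≤ S := by rw [hQ, Subgroup.zpowers_le]; exact hzS
  have hQcard : Nat.card Q = p := by rw [hQ, Nat.card_zpowers, hzp]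
  have hF1 : ∀ x ∈ S, x ^ p = 1 → x ∈ Q := by
    intro x hx hxp
    have h1 := @mem_zpowers_of_pow_eq_one_of_cyclic S _ _ hSc p hp.pos (⟨z, hzS⟩ : S) ⟨x, hx⟩
      (by rw [Subgroup.orderOf_mk]; exact hzp) (Subtype.ext hxp)
    obtain ⟨k, hk⟩ := Subgroup.mem_zpowers_iff.1 h1
    rw [hQ, Subgroup.mem_zpowers_iff]
    exact ⟨k, by simpa using congrArg Subtype.val hk⟩
  have hzpow : ∀ q ∈ Q, q ^ p = 1 := by
    intro q hq
    obtain ⟨k, rfl⟩ := Subgroup.mem_zpowers_iff.1 hq
    rw [← zpow_natCast, ← zpow_mul, mul_comm, zpow_mul, zpow_natCast, ← hzp,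
      pow_orderOf_eq_one, one_zpow]
  have hHN : ∀ h ∈ H, h ∈ Subgroup.normalizer (Q : Set G) := by
    intro h hh
    apply mem_normalizer_of_conj_le
    intro q hq
    apply hF1 _ (hinv h hh q (hQS hq))
    rw [conj_pow, hzpow q hq, mul_one, mul_inv_cancel]
  by_cases hyC : ∀ q ∈ Q, y * q = q * y
  · left
    apply hcyc
    have hΩ : ∀ x ∈ S, x ^ p = 1 → y * x = x * y := fun x hx hxp => hyC x (hF1 x hx hxp)
    exact centralizes_of_omega S hSp hSab y (hinv y hyH) hy hΩ s₀ hs₀S
  · right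
    have hyC' : y ∉ Subgroup.centralizer (Q : Set G) := by
      intro hmem
      apply hyC
      intro q hq
      exact ((Subgroup.mem_centralizer_iff.1 hmem) q hq).symm
    have hyN := hHN y hyH
    rcases hR with hR1 | ⟨-, hR2⟩
    · exfalso
      apply hyC
      exact normalizer_le_centralizer_of_burnside P hR1.le Q (hQS.trans hSP) y hyN
    · obtain ⟨-, hinvQ⟩ := hR2 Q (hQS.trans hSP) hQcard
      obtain ⟨hy2, hyinv⟩ := hinvQ y hyN hyC'
      have hSC : ∀ s ∈ S, s ∈ Subgroup.centralizer (Q : Set G) := by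
        intro s hs
        rw [Subgroup.mem_centralizer_iff]
        intro q hq
        exact hSab q (hQS hq) s hs
      have hyy : y * y = 1 := by rw [← pow_two, ← hy2]; exact pow_orderOf_eq_one y
      have hys : y * s₀ * y⁻¹ = s₀⁻¹ := hyinv s₀ (hSC s₀ hs₀S)
      have hyS : y ∉ S := fun h => hyC' (hSC y h)
      refine ⟨n, ?_⟩
      have hne : NeZero (p ^ n) := ⟨(pow_pos hp.pos n).ne'⟩
      apply Cfsg.Agent.H25.nonempty_dihedral_equiv (p ^ n) H s₀ y
      · rw [← hn']; exact pow_orderOf_eq_one s₀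
      · exact hyy
      · exact hys
      · intro c hc
        rw [← hn']; exact orderOf_dvd_iff_zpow_eq_one.2 hc
      · intro c hc
        apply hyS
        have h5 : y = (s₀ ^ c)⁻¹ := eq_inv_of_mul_eq_one_left hc
        rw [h5]
        exact S.inv_mem (S.zpow_mem hs₀S c)
      · exact hSH hs₀S
      · exact hyH
      · -- `Nat.card H = 2 * p ^ n`
        have hidx : (S.subgroupOf H).index = 2 := by
          rw [Subgroup.index_eq_two_iff]
          refine ⟨⟨y, hyH⟩, fun b => ?_⟩
          obtain ⟨s, hs, k, hk⟩ := hgen b b.2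
          rcases Int.even_or_odd' k with ⟨m, hm | hm⟩
          · have hyk : y ^ k = 1 := by
              rw [hm, zpow_mul, zpow_ofNat, pow_two, hyy, one_zpow]
            rw [hyk, mul_one] at hk
            right
            refine ⟨by rw [Subgroup.mem_subgroupOf, hk]; exact hs, ?_⟩
            rw [Subgroup.mem_subgroupOf]
            intro h6
            apply hyS
            have h7 : y = s⁻¹ * ((b : G) * y) := by rw [hk]; group
            rw [h7]
            exact S.mul_mem (S.inv_mem hs) h6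
          · have hyk : y ^ k = y := by
              rw [hm, zpow_add, zpow_mul, zpow_ofNat, pow_two, hyy, one_zpow, one_mul, zpow_one]
            rw [hyk] at hk
            left
            refine ⟨?_, ?_⟩
            · rw [Subgroup.mem_subgroupOf]
              have h7 : ((b * ⟨y, hyH⟩ : ↥H) : G) = s := by
                show (b : G) * y = s
                rw [hk, mul_assoc, hyy, mul_one]
              rw [h7]; exact hs
            · rw [Subgroup.mem_subgroupOf, hk]
              intro h6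
              apply hyS
              have h7 : y = s⁻¹ * (s * y) := by group
              rw [h7]
              exact S.mul_mem (S.inv_mem hs) h6
        have h8 := Subgroup.card_mul_index (S.subgroupOf H)
        rw [hidx, Nat.card_congr (Subgroup.subgroupOfEquivOfLe hSH).toEquiv] at h8
        have h9 : Nat.card S = p ^ n := by
          rw [← hn', ← Subgroup.orderOf_mk s₀ hs₀S]
          exact (orderOf_eq_card_of_forall_mem_zpowers hs₀gen).symm
        rw [h9] at h8
        rw [← h8, mul_comm]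

end

end Cfsg.Agent.H71
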