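import Mathlib
import Cfsg.Agent.H71.PByCycB

set_option autoImplicit false
set_option linter.unusedSectionVars false

namespace Cfsg.Agent.H71

section
variable {G : Type*} [Group G] [Finite G] {p : ℕ} [Fact p.Prime]

/-- The Sylow `p`-subgroup is cyclic. -/
theorem sylow_cyclic_of_restricted (hp2 : p ≠ 2) (P : Sylow p G)
    (hL : ∀ H : Subgroup G, PBC p H →
      IsCyclic H ∨ ∃ n : ℕ, Nonempty (H ≃* DihedralGroup (p ^ n))) : IsCyclic P := by
  have hpbc : PBC p (P : Subgroup G) :=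
    ⟨P, P.isPGroup', le_rfl,
      fun h hh s hs => Subgroup.mul_mem _ (Subgroup.mul_mem _ hh hs) (Subgroup.inv_mem _ hh),
      1, Subgroup.one_mem _, by simp, fun h hh => ⟨h, hh, 0, by simp⟩⟩
  rcases hL P hpbc with hc | ⟨n, ⟨e⟩⟩
  · exact hc
  · exfalso
    have h1 : Nat.card (P : Subgroup G) = 2 * p ^ n := by
      rw [Nat.card_congr e.toEquiv, DihedralGroup.nat_card]
    obtain ⟨m, hm⟩ := P.isPGroup'.exists_card_eq
    rw [hm] at h1
    have h2 : 2 ∣ p ^ m := ⟨p ^ n, h1⟩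
    have h3 : 2 ∣ p := Nat.Prime.dvd_of_dvd_pow Nat.prime_two h2
    exact hp2 ((Nat.prime_dvd_prime_iff_eq Nat.prime_two Fact.out).1 h3).symm

/-- Every element of `N(P)` centralizes or inverts `P`. -/
theorem cent_or_inv_of_restricted (hp2 : p ≠ 2) (P : Sylow p G)
    (hL : ∀ H : Subgroup G, PBC p H →
      IsCyclic H ∨ ∃ n : ℕ, Nonempty (H ≃* DihedralGroup (p ^ n)))
    (x : G) (hx : x ∈ Subgroup.normalizer ((P : Subgroup G) : Set G)) :
    (∀ s ∈ (P : Subgroup G), x * s = s * x) ∨ (∀ s ∈ (P : Subgroup G), x * s * x⁻¹ = s⁻¹) := by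
  have hp : p.Prime := Fact.out
  obtain ⟨a, b, ha, hb, hab, hak, hbp⟩ := exists_p_part p hp x
  have hzN : Subgroup.zpowers x ≤ Subgroup.normalizer ((P : Subgroup G) : Set G) := by
    rw [Subgroup.zpowers_le]; exact hx
  have haP : a ∈ (P : Subgroup G) := mem_sylow_of_mem_normalizer P hak (hzN ha)
  have hcomm : Commute a b := by
    obtain ⟨i, hi⟩ := Subgroup.mem_zpowers_iff.1 ha
    obtain ⟨j, hj⟩ := Subgroup.mem_zpowers_iff.1 hb
    rw [← hi, ← hj]
    exact Commute.zpow_zpow_self _ i j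
  set H := (P : Subgroup G) ⊔ Subgroup.zpowers x with hH
  have hPH : (P : Subgroup G) ≤ H := le_sup_left
  have hzH : Subgroup.zpowers x ≤ H := le_sup_right
  have hxH : x ∈ H := hzH (Subgroup.mem_zpowers x)
  have hHN : H ≤ Subgroup.normalizer ((P : Subgroup G) : Set G) :=
    sup_le Subgroup.le_normalizer hzN
  have hmem : ∀ h ∈ H, ∃ s ∈ (P : Subgroup G), ∃ k : ℤ, h = s * x ^ k := by
    intro h hh
    have h1 : h ∈ ((((P : Subgroup G) ⊔ Subgroup.zpowers x : Subgroup G)) : Set G) := hh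
    rw [Subgroup.coe_mul_of_right_le_normalizer_left _ _ hzN] at h1
    obtain ⟨s, hs, w, hw, rfl⟩ := Set.mem_mul.1 h1
    obtain ⟨k, rfl⟩ := Subgroup.mem_zpowers_iff.1 hw
    exact ⟨s, hs, k, rfl⟩
  have hpbc : PBC p H := by
    refine ⟨P, P.isPGroup', hPH, ?_, b, hzH hb, ?_, ?_⟩
    · intro h hh s hs
      exact (Subgroup.mem_set_normalizer_iff.1 (hHN hh) s).1 hs
    · exact ((Nat.Prime.coprime_iff_not_dvd hp).2 hbp).symm
    · intro h hh
      obtain ⟨s, hs, k, rfl⟩ := hmem h hh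
      refine ⟨s * a ^ k, Subgroup.mul_mem _ hs (Subgroup.zpow_mem _ haP k), k, ?_⟩
      have h4 : x ^ k = a ^ k * b ^ k := by
        rw [hab]; exact hcomm.mul_zpow k
      rw [h4]; group
  rcases hL H hpbc with hc | ⟨n, ⟨e⟩⟩
  · left
    intro s hs
    exact congrArg Subtype.val (mul_comm_of_isCyclic hc (⟨x, hxH⟩ : ↥H) ⟨s, hPH hs⟩)
  · have hodd : ∀ s (hs : s ∈ (P : Subgroup G)), Odd (orderOf (⟨s, hPH hs⟩ : ↥H)) := by
      intro s hs
      rw [Subgroup.orderOf_mk]
      exact odd_orderOf_of_isPGroup hp2 P.isPGroup' hs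
    rcases dihedral_odd_dichotomy e (⟨x, hxH⟩ : ↥H) with h1 | ⟨-, h2⟩
    · left
      intro s hs
      exact congrArg Subtype.val (h1 ⟨s, hPH hs⟩ (hodd s hs))
    · right
      intro s hs
      exact congrArg Subtype.val (h2 ⟨s, hPH hs⟩ (hodd s hs))

/-- The structure of `N(P)/C(P)`. -/
theorem normalizer_structure_of_restricted (hp2 : p ≠ 2) (P : Sylow p G)
    (hL : ∀ H : Subgroup G, PBC p H →
      IsCyclic H ∨ ∃ n : ℕ, Nonempty (H ≃* DihedralGroup (p ^ n))) :
    Subgroup.normalizer ((P : Subgroup G) : Set G) =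
        Subgroup.centralizer ((P : Subgroup G) : Set G) ∨
    ((Subgroup.centralizer ((P : Subgroup G) : Set G)).relIndex
        (Subgroup.normalizer ((P : Subgroup G) : Set G)) = 2 ∧
      ∃ x₀ ∈ Subgroup.normalizer ((P : Subgroup G) : Set G),
        ∀ s ∈ (P : Subgroup G), x₀ * s * x₀⁻¹ = s⁻¹) := by
  have hdich := cent_or_inv_of_restricted hp2 P hL
  have hCN : Subgroup.centralizer ((P : Subgroup G) : Set G) ≤
      Subgroup.normalizer ((P : Subgroup G) : Set G) := Subgroup.centralizer_le_normalizer _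
  by_cases hall : ∀ x ∈ Subgroup.normalizer ((P : Subgroup G) : Set G),
      ∀ s ∈ (P : Subgroup G), x * s = s * x
  · left
    apply le_antisymm _ hCN
    intro x hx
    rw [Subgroup.mem_centralizer_iff]
    intro s hs
    exact (hall x hx s hs).symm
  · right
    push Not at hall
    obtain ⟨x₀, hx₀N, s₁, hs₁, hne⟩ := hall
    have hx₀inv : ∀ s ∈ (P : Subgroup G), x₀ * s * x₀⁻¹ = s⁻¹ := by
      rcases hdich x₀ hx₀N with h1 | h1
      · exact absurd (h1 s₁ hs₁) hne
      · exact h1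
    have hs₁ne : s₁ ≠ 1 := by
      rintro rfl
      apply hne
      rw [mul_one, one_mul]
    have hnot : ∀ b : G, (∀ s ∈ (P : Subgroup G), b * s = s * b) →
        (∀ s ∈ (P : Subgroup G), b * s * b⁻¹ = s⁻¹) → False := by
      intro b hc hi
      apply hs₁ne
      apply eq_one_of_inv_eq_self_of_odd (odd_orderOf_of_isPGroup hp2 P.isPGroup' hs₁)
      rw [← hi s₁ hs₁, hc s₁ hs₁, mul_inv_cancel_right]
    refine ⟨?_, x₀, hx₀N, hx₀inv⟩
    show ((Subgroup.centralizer ((P : Subgroup G) : Set G)).subgroupOf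
        (Subgroup.normalizer ((P : Subgroup G) : Set G))).index = 2
    rw [Subgroup.index_eq_two_iff]
    refine ⟨⟨x₀, hx₀N⟩, fun b => ?_⟩
    have hmemC : ∀ g : G, g ∈ Subgroup.centralizer ((P : Subgroup G) : Set G) ↔
        ∀ s ∈ (P : Subgroup G), g * s = s * g := by
      intro g
      rw [Subgroup.mem_centralizer_iff]
      exact ⟨fun h s hs => (h s hs).symm, fun h s hs => (h s hs).symm⟩
    rcases hdich b b.2 with h1 | h1
    · right
      refine ⟨by rw [Subgroup.mem_subgroupOf, hmemC]; exact h1, ?_⟩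
      rw [Subgroup.mem_subgroupOf, hmemC]
      intro h2
      apply hne
      have h3 := h2 s₁ hs₁
      have h4 := h1 s₁ hs₁
      have h5 : ((b * ⟨x₀, hx₀N⟩ : ↥(Subgroup.normalizer ((P : Subgroup G) : Set G))) : G) =
          (b : G) * x₀ := rfl
      rw [h5] at h3
      calc x₀ * s₁ = (b : G)⁻¹ * ((b : G) * x₀ * s₁) := by group
        _ = (b : G)⁻¹ * (s₁ * ((b : G) * x₀)) := by rw [h3]
        _ = (b : G)⁻¹ * ((b : G) * s₁) * x₀ := by rw [h4]; group
        _ = s₁ * x₀ := by group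
    · left
      have hbC : (b : G) ∉ Subgroup.centralizer ((P : Subgroup G) : Set G) := by
        rw [hmemC]
        intro h2
        exact hnot b h2 h1
      refine ⟨?_, by rw [Subgroup.mem_subgroupOf]; exact hbC⟩
      rw [Subgroup.mem_subgroupOf, hmemC]
      intro s hs
      show (b : G) * x₀ * s = s * ((b : G) * x₀)
      have h2 : x₀ * s = s⁻¹ * x₀ := by
        calc x₀ * s = x₀ * s * x₀⁻¹ * x₀ := by group
          _ = s⁻¹ * x₀ := by rw [hx₀inv s hs]
      have h3 : (b : G) * s⁻¹ = s * b := by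
        have h4 := h1 s⁻¹ (Subgroup.inv_mem _ hs)
        rw [inv_inv] at h4
        calc (b : G) * s⁻¹ = (b : G) * s⁻¹ * (b : G)⁻¹ * b := by group
          _ = s * b := by rw [h4]
      calc (b : G) * x₀ * s = (b : G) * (x₀ * s) := by group
        _ = (b : G) * (s⁻¹ * x₀) := by rw [h2]
        _ = ((b : G) * s⁻¹) * x₀ := by group
        _ = s * ((b : G) * x₀) := by rw [h3]; group

/-- The structure of `C(Q)` and `N(Q)` for the subgroup `Q` of order `p` of `P`. -/
theorem omega_structure_of_restricted (hp2 : p ≠ 2) (P : Sylow p G)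
    (hL : ∀ H : Subgroup G, PBC p H →
      IsCyclic H ∨ ∃ n : ℕ, Nonempty (H ≃* DihedralGroup (p ^ n)))
    (x₀ : G) (hx₀ : ∀ s ∈ (P : Subgroup G), x₀ * s * x₀⁻¹ = s⁻¹)
    (Q : Subgroup G) (hQP : Q ≤ P) (hQcard : Nat.card Q = p) :
    IsMulCommutative ↥(Subgroup.centralizer (Q : Set G)) ∧
      ∀ x : G, x ∈ Subgroup.normalizer (Q : Set G) → x ∉ Subgroup.centralizer (Q : Set G) →
        orderOf x = 2 ∧ ∀ c : G, c ∈ Subgroup.centralizer (Q : Set G) → x * c * x⁻¹ = c⁻¹ := by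
  have hp : p.Prime := Fact.out
  have hQp : IsPGroup p Q := P.isPGroup'.to_le hQP
  have hmemC : ∀ g : G, g ∈ Subgroup.centralizer (Q : Set G) ↔ ∀ q ∈ Q, g * q = q * g := by
    intro g
    rw [Subgroup.mem_centralizer_iff]
    exact ⟨fun h s hs => (h s hs).symm, fun h s hs => (h s hs).symm⟩
  have hCN : Subgroup.centralizer (Q : Set G) ≤ Subgroup.normalizer (Q : Set G) :=
    Subgroup.centralizer_le_normalizer _
  -- (i) elements of `N(Q) \ C(Q)` are involutions
  have hi : ∀ y : G, y ∈ Subgroup.normalizer (Q : Set G) →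
      y ∉ Subgroup.centralizer (Q : Set G) → orderOf y = 2 := by
    intro y hyN hyC
    obtain ⟨a, b, ha, hb, hab, hak, hbp⟩ := exists_p_part p hp y
    have hzN : Subgroup.zpowers y ≤ Subgroup.normalizer (Q : Set G) := by
      rw [Subgroup.zpowers_le]; exact hyN
    have hzaN : Subgroup.zpowers a ≤ Subgroup.normalizer (Q : Set G) := by
      rw [Subgroup.zpowers_le]; exact hzN ha
    have hcomm : Commute a b := by
      obtain ⟨i, hi⟩ := Subgroup.mem_zpowers_iff.1 ha
      obtain ⟨j, hj⟩ := Subgroup.mem_zpowers_iff.1 hb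
      rw [← hi, ← hj]
      exact Commute.zpow_zpow_self _ i j
    have hay : Commute y a := by
      obtain ⟨i, hi⟩ := Subgroup.mem_zpowers_iff.1 ha
      rw [← hi]
      exact Commute.zpow_right (Commute.refl y) i
    set S := Q ⊔ Subgroup.zpowers a with hS
    set H := Q ⊔ Subgroup.zpowers y with hH
    have hQH : Q ≤ H := le_sup_left
    have hzH : Subgroup.zpowers y ≤ H := le_sup_right
    have hyH : y ∈ H := hzH (Subgroup.mem_zpowers y)
    have hSmem : ∀ s ∈ S, ∃ q ∈ Q, ∃ i : ℤ, s = q * a ^ i := by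
      intro s hs
      have h1 : s ∈ ((Q ⊔ Subgroup.zpowers a : Subgroup G) : Set G) := hs
      rw [Subgroup.coe_mul_of_right_le_normalizer_left _ _ hzaN] at h1
      obtain ⟨q, hq, w, hw, rfl⟩ := Set.mem_mul.1 h1
      obtain ⟨k, rfl⟩ := Subgroup.mem_zpowers_iff.1 hw
      exact ⟨q, hq, k, rfl⟩
    have hHmem : ∀ h ∈ H, ∃ q ∈ Q, ∃ k : ℤ, h = q * y ^ k := by
      intro h hh
      have h1 : h ∈ ((Q ⊔ Subgroup.zpowers y : Subgroup G) : Set G) := hh
      rw [Subgroup.coe_mul_of_right_le_normalizer_left _ _ hzN] at h1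
      obtain ⟨q, hq, w, hw, rfl⟩ := Set.mem_mul.1 h1
      obtain ⟨k, rfl⟩ := Subgroup.mem_zpowers_iff.1 hw
      exact ⟨q, hq, k, rfl⟩
    have hSp : IsPGroup p S := IsPGroup.to_sup_of_normal_left' hQp (isPGroup_zpowers hak) hzaN
    have hSH : S ≤ H := sup_le hQH ((Subgroup.zpowers_le.2 (hzH ha)))
    have hyNS : y ∈ Subgroup.normalizer (S : Set G) := by
      apply mem_normalizer_of_conj_le
      intro s hs
      obtain ⟨q, hq, i, rfl⟩ := hSmem s hs
      have hc : Commute y (a ^ i) := hay.zpow_right i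
      have h2 : y * (q * a ^ i) * y⁻¹ = (y * q * y⁻¹) * a ^ i := by
        calc y * (q * a ^ i) * y⁻¹ = y * q * (a ^ i * y⁻¹) := by group
          _ = y * q * (y⁻¹ * a ^ i) := by rw [hc.inv_left.eq]
          _ = (y * q * y⁻¹) * a ^ i := by group
      rw [h2]
      exact Subgroup.mul_mem_sup ((Subgroup.mem_set_normalizer_iff.1 hyN q).1 hq)
        (Subgroup.zpow_mem _ (Subgroup.mem_zpowers a) i)
    have hHNS : H ≤ Subgroup.normalizer (S : Set G) :=
      sup_le ((le_sup_left : Q ≤ S).trans Subgroup.le_normalizer) (Subgroup.zpowers_le.2 hyNS)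
    have hpbc : PBC p H := by
      refine ⟨S, hSp, hSH, fun h hh s hs => (Subgroup.mem_set_normalizer_iff.1 (hHNS hh) s).1 hs,
        b, hzH hb, ((Nat.Prime.coprime_iff_not_dvd hp).2 hbp).symm, ?_⟩
      intro h hh
      obtain ⟨q, hq, k, rfl⟩ := hHmem h hh
      refine ⟨q * a ^ k, Subgroup.mul_mem_sup hq (Subgroup.zpow_mem _ (Subgroup.mem_zpowers a) k),
        k, ?_⟩
      have h4 : y ^ k = a ^ k * b ^ k := by
        rw [hab]; exact hcomm.mul_zpow k
      rw [h4]; group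
    rcases hL H hpbc with hc | ⟨n, ⟨e⟩⟩
    · exfalso
      apply hyC
      rw [hmemC]
      intro q hq
      exact congrArg Subtype.val (mul_comm_of_isCyclic hc (⟨y, hyH⟩ : ↥H) ⟨q, hQH hq⟩)
    · rcases dihedral_odd_dichotomy e (⟨y, hyH⟩ : ↥H) with h1 | ⟨h2, -⟩
      · exfalso
        apply hyC
        rw [hmemC]
        intro q hq
        have hodd : Odd (orderOf (⟨q, hQH hq⟩ : ↥H)) := by
          rw [Subgroup.orderOf_mk]
          exact odd_orderOf_of_isPGroup hp2 hQp hq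
        exact congrArg Subtype.val (h1 ⟨q, hQH hq⟩ hodd)
      · rw [Subgroup.orderOf_mk] at h2
        exact h2
  -- (ii) they invert `C(Q)`
  have hii : ∀ y : G, y ∈ Subgroup.normalizer (Q : Set G) →
      y ∉ Subgroup.centralizer (Q : Set G) →
      ∀ c : G, c ∈ Subgroup.centralizer (Q : Set G) → y * c * y⁻¹ = c⁻¹ := by
    intro y hyN hyC c hc
    have hycN : y * c ∈ Subgroup.normalizer (Q : Set G) := Subgroup.mul_mem _ hyN (hCN hc)
    have hycC : y * c ∉ Subgroup.centralizer (Q : Set G) := by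
      intro h1
      apply hyC
      have h2 : y = y * c * c⁻¹ := by group
      rw [h2]
      exact Subgroup.mul_mem _ h1 (Subgroup.inv_mem _ hc)
    have h1 := hi y hyN hyC
    have h2 := hi (y * c) hycN hycC
    have hyy : y * y = 1 := by rw [← pow_two, ← h1]; exact pow_orderOf_eq_one y
    have hycyc : y * c * (y * c) = 1 := by rw [← pow_two, ← h2]; exact pow_orderOf_eq_one _
    have hyinv : y⁻¹ = y := inv_eq_of_mul_eq_one_left hyy
    rw [hyinv]
    have h3 : y * c * y * c = 1 := by rw [← hycyc]; group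
    exact eq_inv_of_mul_eq_one_left h3
  -- `x₀ ∈ N(Q) \ C(Q)`
  have hx₀N : x₀ ∈ Subgroup.normalizer (Q : Set G) := by
    apply mem_normalizer_of_conj_le
    intro q hq
    rw [hx₀ q (hQP hq)]
    exact Q.inv_mem hq
  have hx₀C : x₀ ∉ Subgroup.centralizer (Q : Set G) := by
    rw [hmemC]
    intro h1
    have hQne : Q ≠ ⊥ := by
      rw [← Subgroup.one_lt_card_iff_ne_bot, hQcard]
      exact hp.one_lt
    obtain ⟨⟨q, hq⟩, hq1⟩ := Subgroup.ne_bot_iff_exists_ne_one.1 hQne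
    apply hq1
    apply Subtype.ext
    show q = 1
    apply eq_one_of_inv_eq_self_of_odd (odd_orderOf_of_isPGroup hp2 hQp hq)
    rw [← hx₀ q (hQP hq), h1 q hq, mul_inv_cancel_right]
  refine ⟨⟨⟨fun c d => ?_⟩⟩, fun x hxN hxC => ⟨hi x hxN hxC, hii x hxN hxC⟩⟩
  apply Subtype.ext
  show (c : G) * d = d * c
  have h1 := hii x₀ hx₀N hx₀C c c.2
  have h2 := hii x₀ hx₀N hx₀C d d.2
  have h3 := hii x₀ hx₀N hx₀C ((c : G) * d) (Subgroup.mul_mem _ c.2 d.2)
  have h4 : x₀ * ((c : G) * d) * x₀⁻¹ = (x₀ * c * x₀⁻¹) * (x₀ * d * x₀⁻¹) := by group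
  rw [h4, h1, h2] at h3
  -- h3 : c⁻¹ * d⁻¹ = (c * d)⁻¹
  have h5 : ((c : G)⁻¹ * (d : G)⁻¹)⁻¹ = (((c : G) * d)⁻¹)⁻¹ := by rw [h3]
  rw [inv_inv, mul_inv_rev, inv_inv, inv_inv] at h5
  exact h5.symm

end

end Cfsg.Agent.H71
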