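import Mathlib
import Cfsg.Agent.H83.PCDefs

/-!
# PC-COMPL (helper71, parallel take for helper83's S3366 project)

The complement `N`: with `T` a Sylow 2-subgroup of `X` containing the involution `t`, one has
`T ≤ C_X(t)`, `C_X(t)` normalizes `T`, and `N = T⟨y⟩` has order 24, meets `R` trivially,
centralizes `t` and acts faithfully on `R`.
-/

set_option autoImplicit false

namespace Cfsg.Agent.H71.PC

open Cfsg.Agent.H83.PC

universe u

set_option maxRecDepth 100000 in
theorem compl_card_SL23 : Nat.card SL23 = 24 := by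
  rw [Nat.card_eq_fintype_card]; decide

set_option maxRecDepth 100000 in
theorem compl_pow8 : ∀ g : SL23, g ^ 8 = 1 → g ^ 4 = 1 := by decide

set_option maxRecDepth 100000 in
theorem compl_card4 : (Finset.univ.filter fun g : SL23 => g ^ 4 = 1).card = 8 := by decide

/-- an element that is both a 2-element and a 3-element is trivial -/
theorem compl_coprime {G : Type*} [Group G] (x : G) (h8 : x ^ 8 = 1) (h3 : x ^ 3 = 1) : x = 1 := by
  have h9 : x ^ 9 = 1 := by
    rw [show 9 = 3 * 3 from rfl, pow_mul, h3, one_pow]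
  calc x = x ^ 9 * (x ^ 8)⁻¹ := by group
    _ = 1 := by rw [h8, h9]; simp

/-- a subgroup of order 8 of `SL(2,3)` contains every element with `g ^ 8 = 1` -/
theorem compl_Q (Q : Subgroup SL23) (hQ : Nat.card Q = 8) (g : SL23) (hg : g ^ 8 = 1) :
    g ∈ Q := by
  classical
  have hsub : (Finset.univ.filter fun g : SL23 => g ∈ Q) ⊆
      (Finset.univ.filter fun g : SL23 => g ^ 4 = 1) := by
    intro x hx
    rw [Finset.mem_filter] at hx ⊢
    refine ⟨Finset.mem_univ _, compl_pow8 x ?_⟩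
    have h1 : (⟨x, hx.2⟩ : Q) ^ Nat.card Q = 1 := pow_card_eq_one'
    rw [hQ] at h1
    exact congrArg Subtype.val h1
  have hcard : (Finset.univ.filter fun g : SL23 => g ∈ Q).card = 8 := by
    rw [← hQ, Nat.card_eq_fintype_card, Fintype.card_subtype]
  have heq := Finset.eq_of_subset_of_card_le hsub (by rw [hcard, compl_card4])
  have hmem : g ∈ (Finset.univ.filter fun g : SL23 => g ∈ Q) := by
    rw [heq, Finset.mem_filter]; exact ⟨Finset.mem_univ _, compl_pow8 g hg⟩
  exact (Finset.mem_filter.mp hmem).2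

/-- **PC-COMPL**. -/
theorem compl (hZC : StZC.{u}) (hCR : StCR.{u}) : StCompl.{u} := by
  intro X _ _ R f hyp t y hinv hyt hyR hy3
  have hyp' := hyp
  obtain ⟨hRn, hR27, hR3, hRnab, hfs, hker, hO3, hO2, hE⟩ := hyp
  obtain ⟨htt, hft, htZ⟩ := hinv
  have hZc : ∀ x z : X, IsZ R z → x * z = z * x := hZC X R f hyp'
  have hCRle : ∀ x : X, (∀ r ∈ R, x * r = r * x) → x ∈ R := hCR X R f hyp'
  have hmemR : ∀ x : X, x ∈ R ↔ f x = 1 := by
    intro x; rw [← hker, MonoidHom.mem_ker]
  -- `f t = -1` is central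
  have hftc : ∀ g : SL23, f t * g = g * f t := by
    intro g
    apply Subtype.ext
    show (f t).1 * g.1 = g.1 * (f t).1
    rw [hft]; simp
  have ht1 : t ≠ 1 := by
    intro h
    have h1 : (f t).1 = 1 := by rw [h, map_one]; rfl
    rw [hft] at h1
    have h2 := congrFun (congrFun h1 0) 0
    simp at h2
    exact absurd h2 (by decide)
  -- the order of `X`
  have hX : Nat.card X = 648 := by
    have h1 := Subgroup.card_mul_index f.ker
    rw [Subgroup.index_ker, MonoidHom.range_eq_top.mpr hfs, Subgroup.card_top, compl_card_SL23,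
      hker, hR27] at h1
    omega
  -- a Sylow 2-subgroup containing `t`
  have : Fact (Nat.Prime 2) := ⟨Nat.prime_two⟩
  have hzt : IsPGroup 2 (Subgroup.zpowers t) := by
    have ho : orderOf t = 2 := orderOf_eq_prime (by rw [pow_two]; exact htt) ht1
    exact IsPGroup.of_card (n := 1) (by rw [Nat.card_zpowers, ho, pow_one])
  obtain ⟨T, hT⟩ := hzt.exists_le_sylow
  have htT : t ∈ (T : Subgroup X) := hT (Subgroup.mem_zpowers t)
  have hT8 : Nat.card (T : Subgroup X) = 8 := by
    obtain ⟨k, hk⟩ := IsPGroup.iff_card.mp T.isPGroup'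
    have h1 := Subgroup.card_mul_index (T : Subgroup X)
    have h2 := T.not_dvd_index
    rw [hk, hX] at h1
    have hk3 : k ≤ 3 := by
      by_contra hlt
      push Not at hlt
      have h3 : 2 ^ 4 ∣ 2 ^ k := pow_dvd_pow 2 hlt
      have h4 : 2 ^ 4 ∣ 648 := by rw [← h1]; exact Dvd.dvd.mul_right h3 _
      norm_num at h4
    rw [hk]
    interval_cases k <;> norm_num at h1 ⊢ <;> omega
  obtain ⟨TT, hTT8, htTT⟩ : ∃ TT : Subgroup X, Nat.card TT = 8 ∧ t ∈ TT := ⟨T, hT8, htT⟩
  have hT_pow : ∀ x ∈ TT, x ^ 8 = 1 := by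
    intro x hx
    have h1 : (⟨x, hx⟩ : TT) ^ Nat.card TT = 1 := pow_card_eq_one'
    rw [hTT8] at h1
    exact congrArg Subtype.val h1
  have hTR : ∀ x ∈ TT, x ∈ R → x = 1 :=
    fun x hx hxR => compl_coprime x (hT_pow x hx) (hR3 x hxR)
  -- `T` centralizes `t`
  have hTt : ∀ x ∈ TT, x * t = t * x := by
    intro x hx
    have hc : x * t * x⁻¹ * t⁻¹ ∈ TT :=
      TT.mul_mem (TT.mul_mem (TT.mul_mem hx htTT) (TT.inv_mem hx)) (TT.inv_mem htTT)
    have hcR : x * t * x⁻¹ * t⁻¹ ∈ R := by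
      rw [hmemR]
      simp only [map_mul, map_inv]
      rw [← hftc (f x)]; group
    have h1 := hTR _ hc hcR
    calc x * t = (x * t * x⁻¹ * t⁻¹) * (t * x) := by group
      _ = t * x := by rw [h1, one_mul]
  -- the image of `T`
  have hQ8 : Nat.card (TT.map f) = 8 := by
    have hinj : Function.Injective (f.comp TT.subtype) := by
      rw [injective_iff_map_eq_one]
      intro x hx
      have h1 : (x : X) = 1 := hTR x x.2 ((hmemR _).mpr hx)
      exact Subtype.ext h1
    have hrange : (f.comp TT.subtype).range = TT.map f := by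
      rw [← MonoidHom.map_range, Subgroup.range_subtype]
    rw [← hrange, ← Nat.card_congr (MonoidHom.ofInjective hinj).toEquiv, hTT8]
  have hQ : ∀ g : SL23, g ^ 8 = 1 → ∃ x ∈ TT, f x = g := by
    intro g hg
    have h1 := compl_Q _ hQ8 g hg
    rwa [Subgroup.mem_map] at h1
  -- `R ∩ C(t)` is central in `X`
  have hRt : ∀ r ∈ R, r * t = t * r → ∀ x : X, x * r = r * x := by
    intro r hr hrt
    have h1 : IsZ R (t * r * t⁻¹ * r) := htZ r hr
    have h2 : t * r * t⁻¹ * r = r * r := by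
      rw [← hrt]; group
    rw [h2] at h1
    have h3 : r ^ 3 = 1 := hR3 r hr
    have h3' : r * r * r = 1 := by
      rw [← h3]; simp [pow_succ]
    have h4 : r = (r * r) * (r * r) := by
      calc r = (r * r * r) * r := by rw [h3', one_mul]
        _ = (r * r) * (r * r) := by simp only [mul_assoc]
    have h5 : IsZ R r := by
      refine ⟨hr, fun s hs => ?_⟩
      rw [h4]
      calc r * r * (r * r) * s = r * r * ((r * r) * s) := by group
        _ = r * r * (s * (r * r)) := by rw [h1.2 s hs]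
        _ = (r * r * s) * (r * r) := by group
        _ = (s * (r * r)) * (r * r) := by rw [h1.2 s hs]
        _ = s * (r * r * (r * r)) := by group
    intro x
    exact hZc x r h5
  -- `C(t)` normalizes `T`
  have hnorm : ∀ c : X, c * t = t * c → ∀ x ∈ TT, c * x * c⁻¹ ∈ TT := by
    intro c hc x hx
    have h8 : (c * x * c⁻¹) ^ 8 = 1 := by rw [conj_pow, hT_pow x hx]; group
    obtain ⟨x₁, hx₁, hfx₁⟩ := hQ (f (c * x * c⁻¹)) (by rw [← map_pow, h8, map_one])
    have hr : x₁⁻¹ * (c * x * c⁻¹) ∈ R := by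
      rw [hmemR, map_mul, map_inv, hfx₁]; group
    have hcc : Commute c t := hc
    have hxc : Commute x t := hTt x hx
    have hx₁c : Commute x₁ t := hTt x₁ hx₁
    have hrt : (x₁⁻¹ * (c * x * c⁻¹)) * t = t * (x₁⁻¹ * (c * x * c⁻¹)) :=
      (hx₁c.inv_left.mul_left ((hcc.mul_left hxc).mul_left hcc.inv_left)).eq
    have hcen := hRt _ hr hrt
    obtain ⟨r, hrdef⟩ : ∃ r, r = x₁⁻¹ * (c * x * c⁻¹) := ⟨_, rfl⟩
    rw [← hrdef] at hr hcen
    have hxr : c * x * c⁻¹ = x₁ * r := by rw [hrdef]; group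
    have h8' : (x₁ * r) ^ 8 = x₁ ^ 8 * r ^ 8 := Commute.mul_pow (hcen x₁) 8
    rw [hxr, h8', hT_pow x₁ hx₁, one_mul] at h8
    have hr1 : r = 1 := compl_coprime r h8 (hR3 r hr)
    rw [hxr, hr1, mul_one]; exact hx₁
  have hyT : ∀ i : ℤ, ∀ x ∈ TT, y ^ i * x * (y ^ i)⁻¹ ∈ TT := by
    intro i x hx
    exact hnorm _ ((show Commute y t from hyt).zpow_left i).eq x hx
  -- the complement
  let N : Subgroup X :=
    { carrier := {g | ∃ x ∈ TT, ∃ i : ℤ, g = x * y ^ i}
      one_mem' := ⟨1, TT.one_mem, 0, by simp⟩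
      mul_mem' := by
        rintro _ _ ⟨x, hx, i, rfl⟩ ⟨x', hx', j, rfl⟩
        refine ⟨x * (y ^ i * x' * (y ^ i)⁻¹), TT.mul_mem hx (hyT i x' hx'), i + j, ?_⟩
        rw [zpow_add]; group
      inv_mem' := by
        rintro _ ⟨x, hx, i, rfl⟩
        refine ⟨y ^ (-i) * x⁻¹ * (y ^ (-i))⁻¹, hyT (-i) _ (TT.inv_mem hx), -i, ?_⟩
        rw [zpow_neg]; group }
  have hfy1 : f y ≠ 1 := fun h => hyR ((hmemR y).mpr h)
  have hNR : R ⊓ N = ⊥ := by
    rw [eq_bot_iff]
    rintro g ⟨hgR, x, hx, i, rfl⟩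
    rw [Subgroup.mem_bot]
    have h1 : f x * (f y) ^ i = 1 := by
      have h0 := (hmemR _).mp hgR
      rwa [map_mul, map_zpow] at h0
    have h2 : (f y) ^ i = (f x)⁻¹ := eq_inv_of_mul_eq_one_right h1
    have h3 : ((f y) ^ i) ^ 8 = 1 := by
      rw [h2, inv_pow, ← map_pow, hT_pow x hx, map_one, inv_one]
    have h4 : ((f y) ^ i) ^ 3 = 1 := by
      rw [← zpow_natCast, ← zpow_mul, mul_comm, zpow_mul, zpow_natCast, ← map_pow, hy3, map_one,
        one_zpow]
    have h5 : (f y) ^ i = 1 := compl_coprime _ h3 h4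
    have h6 : f x = 1 := by rw [h5, mul_one] at h1; exact h1
    have hx1 : x = 1 := hTR x hx ((hmemR x).mpr h6)
    have ho : orderOf (f y) = 3 := orderOf_eq_prime (by rw [← map_pow, hy3, map_one]) hfy1
    have hdvd : (3 : ℤ) ∣ i := by
      have h7 := orderOf_dvd_iff_zpow_eq_one.mpr h5
      rwa [ho] at h7
    obtain ⟨m, rfl⟩ := hdvd
    rw [hx1, one_mul, zpow_mul]
    have hy3' : y ^ (3 : ℤ) = 1 := by
      rw [show (3 : ℤ) = ((3 : ℕ) : ℤ) from rfl, zpow_natCast, hy3]
    rw [hy3', one_zpow]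
  have hN24 : Nat.card N = 24 := by
    have hle : Nat.card N ≤ 24 := by
      rw [← compl_card_SL23]
      apply Nat.card_le_card_of_injective (fun n : N => f n.1)
      intro a b hab
      have h1 : (a.1)⁻¹ * b.1 ∈ R ⊓ N :=
        ⟨(hmemR _).mpr (by
            have hab' : f a.1 = f b.1 := hab
            rw [map_mul, map_inv, hab']; group),
          N.mul_mem (N.inv_mem a.2) b.2⟩
      rw [hNR, Subgroup.mem_bot] at h1
      exact Subtype.ext (inv_mul_eq_one.mp h1)
    have hTN : TT ≤ N := fun x hx => ⟨x, hx, 0, by simp⟩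
    have hyN : Subgroup.zpowers y ≤ N := by
      rw [Subgroup.zpowers_le]; exact ⟨1, TT.one_mem, 1, by simp⟩
    have h8 : 8 ∣ Nat.card N := by rw [← hTT8]; exact Subgroup.card_dvd_of_le hTN
    have h3 : 3 ∣ Nat.card N := by
      have h0 : Nat.card (Subgroup.zpowers y) = 3 := by
        rw [Nat.card_zpowers]
        exact orderOf_eq_prime hy3 (fun h => hyR (h ▸ R.one_mem))
      rw [← h0]; exact Subgroup.card_dvd_of_le hyN
    have hpos : 0 < Nat.card N := Nat.card_pos
    omega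
  refine ⟨N, hRn, hR27, hR3, hRnab, hN24, hNR, hX, ⟨t, htTT, 0, by simp⟩, ht1, htt, ?_, htZ,
    ?_, ?_⟩
  · rintro _ ⟨x, hx, i, rfl⟩
    exact ((show Commute x t from hTt x hx).mul_left
      ((show Commute y t from hyt).zpow_left i)).eq
  · intro n _ z hz; exact hZc n z hz
  · intro n hn hcen
    have h1 : n ∈ R ⊓ N := ⟨hCRle n hcen, hn⟩
    rw [hNR, Subgroup.mem_bot] at h1
    exact h1

example (hZC : Cfsg.Agent.H83.PC.StZC.{u}) (hCR : Cfsg.Agent.H83.PC.StCR.{u}) :
    Cfsg.Agent.H83.PC.StCompl.{u} := compl hZC hCR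

end Cfsg.Agent.H71.PC
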