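import Mathlib
import Cfsg.Agent.H71.PiClosed

set_option autoImplicit false

universe u

namespace Cfsg.Agent.H71

variable {π : Set ℕ}

/-- If the `π`-elements of a normal subgroup `K` and of `G ⧸ K` form subgroups, then (under
the homogeneity hypothesis) so do the `π`-elements of `G`. -/
theorem pi_closed_of_normal {G : Type*} [Group G] [Finite G] (hEF : EF π G)
    (K : Subgroup G) [K.Normal]
    (hK : ∃ L : Subgroup ↥K, ∀ x : ↥K, x ∈ L ↔ PiElt π x)
    (hQ : ∃ L : Subgroup (G ⧸ K), ∀ x : G ⧸ K, x ∈ L ↔ PiElt π x) :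
    ∃ H : Subgroup G, ∀ x : G, x ∈ H ↔ PiElt π x := by
  obtain ⟨L', hL'⟩ := hK
  obtain ⟨Q, hQ⟩ := hQ
  set L := L'.map K.subtype with hLdef
  have hLn : L.Normal := by
    refine ⟨fun x hx g => ?_⟩
    obtain ⟨k, hk, rfl⟩ := hx
    have hk' : PiElt π k := (hL' k).1 hk
    have hmem : g * (k : G) * g⁻¹ ∈ K := (inferInstance : K.Normal).conj_mem _ k.2 g
    refine ⟨⟨g * k * g⁻¹, hmem⟩, (hL' _).2 ?_, rfl⟩
    rw [← piElt_coe]
    exact ((piElt_coe k).2 hk').conj g
  have hL : ∀ x ∈ L, PiElt π x := by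
    rintro _ ⟨k, hk, rfl⟩
    exact (piElt_coe k).2 ((hL' k).1 hk)
  have hKL : ∀ x ∈ K, PiElt π x → x ∈ L := by
    intro x hx hpi
    exact ⟨⟨x, hx⟩, (hL' _).2 ((piElt_coe (⟨x, hx⟩ : K)).1 hpi), rfl⟩
  set M := Q.comap (QuotientGroup.mk' K) with hM
  have hM1 : ∀ x : G, PiElt π x → x ∈ M := fun x hx => (hQ _).2 (hx.map _)
  have hM2 : ∀ x ∈ M, ∃ m : ℕ, PiNum π m ∧ x ^ m ∈ K := by
    intro x hx
    have h1 : PiElt π (QuotientGroup.mk' K x) := (hQ _).1 hx
    refine ⟨orderOf (QuotientGroup.mk' K x), h1, ?_⟩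
    have h3 : QuotientGroup.mk' K (x ^ orderOf (QuotientGroup.mk' K x)) = 1 := by
      rw [map_pow]; exact pow_orderOf_eq_one _
    exact (QuotientGroup.eq_one_iff _).1 h3
  exact pi_closed_core hEF L K M hL hKL hM1 hM2

/-- A `π`-separable group satisfying the homogeneity hypothesis is `π`-closed. -/
theorem pi_closed_of_series (n : ℕ) : ∀ (G : Type u) [Group G] [Finite G], EF π G →
    ∀ H : Fin (n + 1) → Subgroup G, H 0 = ⊥ → H (Fin.last n) = ⊤ → Monotone H →
      (∀ i, (H i).Normal) →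
      (∀ i : Fin n, PiNum π ((H i.castSucc).relIndex (H i.succ)) ∨
        PiNum' π ((H i.castSucc).relIndex (H i.succ))) →
      ∃ K : Subgroup G, ∀ x : G, x ∈ K ↔ PiElt π x := by
  induction n with
  | zero =>
    intro G _ _ _ H h0 hlast _ _ _
    refine ⟨⊤, fun x => ⟨fun _ => ?_, fun _ => Subgroup.mem_top x⟩⟩
    have hbt : (⊥ : Subgroup G) = ⊤ := by rw [← h0, ← hlast]; rfl
    have hx : x ∈ (⊥ : Subgroup G) := by rw [hbt]; exact Subgroup.mem_top x
    rw [Subgroup.mem_bot] at hx
    rw [hx]; exact piElt_one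
  | succ n ih =>
    intro G _ _ hEF H h0 hlast hmono hnorm hfac
    set K := H (Fin.last n).castSucc with hKdef
    have hKn : K.Normal := hnorm _
    -- the induced series on `K`
    have hK : ∃ L : Subgroup ↥K, ∀ x : ↥K, x ∈ L ↔ PiElt π x := by
      apply ih K (hEF.subgroup K) (fun i => (H i.castSucc).subgroupOf K)
      · show (H (0 : Fin (n + 1)).castSucc).subgroupOf K = ⊥
        rw [Fin.castSucc_zero, h0, Subgroup.bot_subgroupOf]
      · show (H (Fin.last n).castSucc).subgroupOf K = ⊤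
        rw [← hKdef, Subgroup.subgroupOf_self]
      · intro i j hij x hx
        rw [Subgroup.mem_subgroupOf] at hx ⊢
        exact hmono (Fin.castSucc_le_castSucc_iff.2 hij) hx
      · intro i
        exact (hnorm _).subgroupOf K
      · intro i
        have hle : H i.succ.castSucc ≤ K := hmono (Fin.castSucc_le_castSucc_iff.2 (Fin.le_last _))
        have h1 : ((H i.castSucc.castSucc).subgroupOf K).relIndex ((H i.succ.castSucc).subgroupOf K)
            = (H i.castSucc.castSucc).relIndex (H i.succ.castSucc) :=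
          Subgroup.relIndex_subgroupOf hle
        have h2 := hfac i.castSucc
        rw [Fin.succ_castSucc] at h2
        show PiNum π (((H i.castSucc.castSucc).subgroupOf K).relIndex
            ((H i.succ.castSucc).subgroupOf K)) ∨
          PiNum' π (((H i.castSucc.castSucc).subgroupOf K).relIndex
            ((H i.succ.castSucc).subgroupOf K))
        rw [h1]; exact h2
    have hQ : ∃ L : Subgroup (G ⧸ K), ∀ x : G ⧸ K, x ∈ L ↔ PiElt π x := by
      have h2 := hfac (Fin.last n)
      rw [Fin.succ_last, hlast, ← hKdef, Subgroup.relIndex_top_right,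
        Subgroup.index_eq_card] at h2
      rcases h2 with h2 | h2
      · exact ⟨⊤, fun x => ⟨fun _ => piElt_of_piNum_card h2 x, fun _ => Subgroup.mem_top x⟩⟩
      · refine ⟨⊥, fun x => ⟨fun hx => ?_, fun hx => ?_⟩⟩
        · rw [Subgroup.mem_bot] at hx
          rw [hx]; exact piElt_one
        · rw [Subgroup.mem_bot]
          exact eq_one_of_piElt_piElt' hx (piElt'_of_piNum'_card h2 x)
    exact pi_closed_of_normal hEF K hK hQ

end Cfsg.Agent.H71
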