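import Mathlib
import Cfsg.Agent.H7.PsDefs

/-! S3664 team project (helper7), piece PS-CRIT: the element-order data give the prime graph. -/

set_option autoImplicit false

namespace Cfsg.Agent.H71.Ps

open Cfsg.Agent.H7.Ps

universe u

theorem crit_aux (G : Type u) [Group G] [Finite G] (D : Data G) : HasGraph G := by
  obtain ⟨g6, h6⟩ := D.ex6
  obtain ⟨g10, h10⟩ := D.ex10
  obtain ⟨g15, h15⟩ := D.ex15
  obtain ⟨g14, h14⟩ := D.ex14
  obtain ⟨g13, h13⟩ := D.ex13
  have d6 : 6 ∣ Nat.card G := h6 ▸ orderOf_dvd_natCard g6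
  have d10 : 10 ∣ Nat.card G := h10 ▸ orderOf_dvd_natCard g10
  have d14 : 14 ∣ Nat.card G := h14 ▸ orderOf_dvd_natCard g14
  have d13 : 13 ∣ Nat.card G := h13 ▸ orderOf_dvd_natCard g13
  refine ⟨?_, ?_⟩
  · intro p hp
    constructor
    · exact D.primes p hp
    · rintro (rfl | rfl | rfl | rfl | rfl)
      · exact Dvd.dvd.trans (by norm_num) d6
      · exact Dvd.dvd.trans (by norm_num) d6
      · exact Dvd.dvd.trans (by norm_num) d10
      · exact Dvd.dvd.trans (by norm_num) d14
      · exact d13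
  · intro p q hp hq hpq
    constructor
    · rintro ⟨g, hg⟩
      have hdp : p ∣ Nat.card G :=
        Dvd.dvd.trans (Dvd.intro _ rfl) (hg ▸ orderOf_dvd_natCard g)
      have hdq : q ∣ Nat.card G :=
        Dvd.dvd.trans (Dvd.intro_left _ rfl) (hg ▸ orderOf_dvd_natCard g)
      have n21 := D.no21 g
      have n35 := D.no35 g
      have n26 := D.no26 g
      have n39 := D.no39 g
      have n65 := D.no65 g
      have n91 := D.no91 g
      rcases D.primes p hp hdp with rfl | rfl | rfl | rfl | rfl <;>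
        rcases D.primes q hq hdq with rfl | rfl | rfl | rfl | rfl <;>
        first
          | exact absurd rfl hpq
          | exact absurd hg n21
          | exact absurd hg n35
          | exact absurd hg n26
          | exact absurd hg n39
          | exact absurd hg n65
          | exact absurd hg n91
          | (unfold Adj; decide)
    · intro h
      rcases h with ⟨rfl, rfl⟩ | ⟨rfl, rfl⟩ | ⟨rfl, rfl⟩ | ⟨rfl, rfl⟩ | ⟨rfl, rfl⟩ | ⟨rfl, rfl⟩ |
        ⟨rfl, rfl⟩ | ⟨rfl, rfl⟩
      · exact ⟨g6, h6⟩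
      · exact ⟨g6, h6⟩
      · exact ⟨g10, h10⟩
      · exact ⟨g10, h10⟩
      · exact ⟨g15, h15⟩
      · exact ⟨g15, h15⟩
      · exact ⟨g14, h14⟩
      · exact ⟨g14, h14⟩

theorem crit : StCrit.{u} := fun G _ _ D => crit_aux G D

example : Cfsg.Agent.H7.Ps.StCrit.{u} := crit

end Cfsg.Agent.H71.Ps
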