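import Mathlib
import Cfsg.Agent.H7.PsDefs

/-! S3664 team project (helper7), piece PS-IDX3: element orders in a group with a normal
subgroup of index 3 and order prime to 3. -/

set_option autoImplicit false

namespace Cfsg.Agent.H71.Ps

open Cfsg.Agent.H7.Ps Subgroup
open scoped Pointwise

/-- cubes lie in a normal subgroup of index 3 -/
theorem idx3_pow3_mem {A : Type} [Group A] [Finite A] (S : Subgroup A) [hSn : S.Normal]
    (hidx : S.index = 3) (a : A) : a ^ 3 ∈ S := by
  have h : ((a : A ⧸ S)) ^ 3 = 1 := by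
    rw [← hidx, Subgroup.index_eq_card]
    exact pow_card_eq_one'
  rwa [← QuotientGroup.mk_pow, QuotientGroup.eq_one_iff] at h

/-- elements of order prime to 3 lie in a normal subgroup of index 3 -/
theorem idx3_mem_of_coprime {A : Type} [Group A] [Finite A] (S : Subgroup A) [hSn : S.Normal]
    (hidx : S.index = 3) (a : A) (h : (orderOf a).Coprime 3) : a ∈ S := by
  have h1 : orderOf (a ^ 3) = orderOf a := Nat.Coprime.orderOf_pow h
  have h2 : zpowers (a ^ 3) = zpowers a :=
    Subgroup.eq_of_le_of_card_ge (zpowers_le.mpr (pow_mem (mem_zpowers a) 3))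
      (by rw [Nat.card_zpowers, Nat.card_zpowers, h1])
  have h3 : a ∈ zpowers (a ^ 3) := h2 ▸ mem_zpowers a
  exact (zpowers_le.mpr (idx3_pow3_mem S hidx a)) h3

/-- the key step: an element whose cube has order `n` and whose `n`-th power has order 3 gives
an element of `S` of order `n` commuting with `t` -/
theorem idx3_key {A : Type} [Group A] [Finite A] (S : Subgroup A) [hSn : S.Normal]
    (hidx : S.index = 3) (h3 : ¬ 3 ∣ Nat.card S) (t : A) (ht : orderOf t = 3)
    (a : A) (n : ℕ) (hb : orderOf (a ^ n) = 3) (hc : orderOf (a ^ 3) = n) :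
    ∃ s ∈ S, s * t = t * s ∧ orderOf s = n := by
  have : Fact (Nat.Prime 3) := ⟨by norm_num⟩
  have hcard : Nat.card A = Nat.card S * 3 := by
    rw [← hidx]; exact (Subgroup.card_mul_index S).symm
  have hSpos : Nat.card S ≠ 0 := Nat.card_pos.ne'
  have hfac : (Nat.card A).factorization 3 = 1 := by
    rw [hcard, Nat.factorization_mul hSpos (by norm_num),
      Finsupp.add_apply, Nat.factorization_eq_zero_of_not_dvd h3,
      Nat.Prime.factorization_self (by norm_num)]
  set b : A := a ^ n with hbdef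
  set c : A := a ^ 3 with hcdef
  let P : Sylow 3 A := Sylow.ofCard (zpowers b) (by rw [Nat.card_zpowers, hb, hfac]; rfl)
  let Q : Sylow 3 A := Sylow.ofCard (zpowers t) (by rw [Nat.card_zpowers, ht, hfac]; rfl)
  obtain ⟨x, hx⟩ := MulAction.exists_smul_eq A Q P
  have hyt : x⁻¹ * b * x ∈ zpowers t := by
    have e1 : b ∈ (P : Subgroup A) := mem_zpowers b
    rw [← hx, Sylow.coe_subgroup_smul, Subgroup.mem_pointwise_smul_iff_inv_smul_mem] at e1
    have e2 : x⁻¹ * b * x ∈ (Q : Subgroup A) := by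
      simpa [MulAut.smul_def] using e1
    exact e2
  set y : A := x⁻¹ * b * x with hydef
  have hy3 : orderOf y = 3 := by
    have := (MulAut.conj x⁻¹).orderOf_eq b
    rw [MulAut.conj_apply, inv_inv] at this
    rw [hydef, this, hb]
  have hzp : zpowers y = zpowers t :=
    Subgroup.eq_of_le_of_card_ge (zpowers_le.mpr hyt)
      (by rw [Nat.card_zpowers, Nat.card_zpowers, hy3, ht])
  have htm : t ∈ zpowers y := hzp ▸ mem_zpowers t
  obtain ⟨j, hj⟩ := Subgroup.mem_zpowers_iff.mp htm
  have hcS : c ∈ S := idx3_pow3_mem S hidx a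
  have hcb : c * b = b * c := ((Commute.refl a).pow_pow 3 n).eq
  have hcS' : x⁻¹ * c * x ∈ S := by
    have := hSn.conj_mem c hcS x⁻¹
    rwa [inv_inv] at this
  refine ⟨x⁻¹ * c * x, hcS', ?_, ?_⟩
  · have h1 : x⁻¹ * c * x * y = y * (x⁻¹ * c * x) := by
      calc x⁻¹ * c * x * y = x⁻¹ * (c * b) * x := by rw [hydef]; group
        _ = x⁻¹ * (b * c) * x := by rw [hcb]
        _ = y * (x⁻¹ * c * x) := by rw [hydef]; group
    have h2 : Commute (x⁻¹ * c * x) (y ^ j) :=
      (show Commute (x⁻¹ * c * x) y from h1).zpow_right j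
    rw [hj] at h2
    exact h2.eq
  · have := (MulAut.conj x⁻¹).orderOf_eq c
    rw [MulAut.conj_apply, inv_inv] at this
    rw [this, hc]

theorem idx3 : StIdx3 := by
  intro A _ _ S hSn hidx h3 hS t ht hcent a
  have hcop : ∀ m : ℕ, m.Coprime 3 → orderOf a = m → a ∈ S := fun m hm h =>
    idx3_mem_of_coprime S hidx a (h ▸ hm)
  refine ⟨?_, ?_, ?_, ?_, ?_, ?_⟩
  · intro h
    have hb : orderOf (a ^ 7) = 3 := by rw [orderOf_pow' a (by norm_num), h]; rfl
    have hc : orderOf (a ^ 3) = 7 := by rw [orderOf_pow' a (by norm_num), h]; rfl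
    obtain ⟨s, hs, hst, hso⟩ := idx3_key S hidx h3 t ht a 7 hb hc
    exact (hcent s hs hst).1 hso
  · intro h
    exact (hS a (hcop 35 (by decide) h)).1 h
  · intro h
    exact (hS a (hcop 26 (by decide) h)).2.1 h
  · intro h
    have hb : orderOf (a ^ 13) = 3 := by rw [orderOf_pow' a (by norm_num), h]; rfl
    have hc : orderOf (a ^ 3) = 13 := by rw [orderOf_pow' a (by norm_num), h]; rfl
    obtain ⟨s, hs, hst, hso⟩ := idx3_key S hidx h3 t ht a 13 hb hc
    exact (hcent s hs hst).2 hso
  · intro h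
    exact (hS a (hcop 65 (by decide) h)).2.2.1 h
  · intro h
    exact (hS a (hcop 91 (by decide) h)).2.2.2 h

example : Cfsg.Agent.H7.Ps.StIdx3 := idx3

end Cfsg.Agent.H71.Ps
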