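import Mathlib
import Cfsg.Agent.H36.GLkPoly1

/-!
# S2479-LB: `q ^ (n - 1) < k(SL_n(q))` for `n ≥ 2`

The characteristic polynomials of the elements of `SL_n(q)` are the `q ^ (n - 1)` monic
polynomials of degree `n` with constant coefficient `(-1) ^ n`, each is attained by a
non-identity matrix, and the identity gives one more class.
-/

set_option autoImplicit false

namespace Cfsg.Agent.H71.SLk

open Polynomial

/-- Every monic polynomial of degree `n ≥ 2` is the characteristic polynomial of a
non-identity `n × n` matrix. -/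
theorem exists_charpoly_eq_ne_one {F : Type*} [Field F] (n : ℕ) (hn : 2 ≤ n) (f : F[X])
    (hf : f.Monic) (hd : f.natDegree = n) :
    ∃ A : Matrix (Fin n) (Fin n) F, A.charpoly = f ∧ A ≠ 1 := by
  subst hd
  have h2 : minpoly F (AdjoinRoot.powerBasis' hf).gen = f := by
    show minpoly F (AdjoinRoot.root f) = f
    rw [AdjoinRoot.minpoly_root hf.ne_zero, hf.leadingCoeff, inv_one, map_one, mul_one]
  refine ⟨Algebra.leftMulMatrix (AdjoinRoot.powerBasis' hf).basis (AdjoinRoot.powerBasis' hf).gen,
    (charpoly_leftMulMatrix (AdjoinRoot.powerBasis' hf)).trans h2, ?_⟩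
  intro h1
  have hgen : (AdjoinRoot.powerBasis' hf).gen = 1 :=
    Algebra.leftMulMatrix_injective (AdjoinRoot.powerBasis' hf).basis (h1.trans (map_one _).symm)
  have h0 : (0 : ℕ) < (AdjoinRoot.powerBasis' hf).dim := by
    show 0 < f.natDegree
    omega
  have h1' : (1 : ℕ) < (AdjoinRoot.powerBasis' hf).dim := by
    show 1 < f.natDegree
    omega
  have hb0 : (AdjoinRoot.powerBasis' hf).basis ⟨0, h0⟩ = 1 := by
    rw [PowerBasis.coe_basis]
    simp
  have hb1 : (AdjoinRoot.powerBasis' hf).basis ⟨1, h1'⟩ = 1 := by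
    rw [PowerBasis.coe_basis]
    simp only [pow_one]
    exact hgen
  have h := (AdjoinRoot.powerBasis' hf).basis.injective (hb0.trans hb1.symm)
  simp [Fin.ext_iff] at h

/-- **S2479-LB**. -/
theorem card_conjClasses_SL_gt {F : Type*} [Field F] [Fintype F] (n : ℕ) (hn : 2 ≤ n) :
    Fintype.card F ^ (n - 1) < Nat.card (ConjClasses (Matrix.SpecialLinearGroup (Fin n) F)) := by
  classical
  obtain ⟨k, rfl⟩ : ∃ k, n = k + 1 := ⟨n - 1, by omega⟩
  let g : (Fin k → F) → {g : F[X] // g.Monic ∧ g.natDegree = k + 1} :=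
    fun v => (Cfsg.Agent.H36.GLk.monicEquivFun F (k + 1)).symm (Fin.cons ((-1) ^ (k + 1)) v)
  have hg0 : ∀ v, (g v).1.coeff 0 = (-1) ^ (k + 1) := by
    intro v
    rw [← Cfsg.Agent.H36.GLk.monicEquivFun_zero]
    simp [g]
  have hginj : Function.Injective g := by
    intro v v' h
    have h' := (Cfsg.Agent.H36.GLk.monicEquivFun F (k + 1)).symm.injective h
    exact Fin.cons_right_injective _ h'
  have hA : ∀ v : Fin k → F, ∃ A : Matrix.SpecialLinearGroup (Fin (k + 1)) F,
      (A : Matrix (Fin (k + 1)) (Fin (k + 1)) F).charpoly = (g v).1 ∧ A ≠ 1 := by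
    intro v
    obtain ⟨A, hA, hA1⟩ := exists_charpoly_eq_ne_one (k + 1) hn (g v).1 (g v).2.1 (g v).2.2
    have hdet : A.det = 1 := by
      rw [Matrix.det_eq_sign_charpoly_coeff, hA, hg0, Fintype.card_fin, ← mul_pow]
      simp
    refine ⟨⟨A, hdet⟩, hA, ?_⟩
    intro h
    apply hA1
    have h' := congrArg (fun B : Matrix.SpecialLinearGroup (Fin (k + 1)) F =>
      (B : Matrix (Fin (k + 1)) (Fin (k + 1)) F)) h
    simpa using h'
  choose Φ hΦ hΦ1 using hA
  let ψ : Option (Fin k → F) → ConjClasses (Matrix.SpecialLinearGroup (Fin (k + 1)) F) :=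
    fun o => match o with
      | none => ConjClasses.mk 1
      | some v => ConjClasses.mk (Φ v)
  have hψ : Function.Injective ψ := by
    intro o o' h
    match o, o', h with
    | none, none, _ => rfl
    | none, some v, h =>
      exfalso
      have h2 : IsConj (1 : Matrix.SpecialLinearGroup (Fin (k + 1)) F) (Φ v) :=
        ConjClasses.mk_eq_mk_iff_isConj.mp h
      exact hΦ1 v (isConj_one_right.mp h2)
    | some v, none, h =>
      exfalso
      have h2 : IsConj (Φ v) (1 : Matrix.SpecialLinearGroup (Fin (k + 1)) F) :=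
        ConjClasses.mk_eq_mk_iff_isConj.mp h
      exact hΦ1 v (isConj_one_left.mp h2)
    | some v, some v', h =>
      have h2 : IsConj (Φ v) (Φ v') := ConjClasses.mk_eq_mk_iff_isConj.mp h
      obtain ⟨d, hd⟩ := isConj_iff.mp h2
      have h3 : (Φ v' : Matrix (Fin (k + 1)) (Fin (k + 1)) F).charpoly =
          (Φ v : Matrix (Fin (k + 1)) (Fin (k + 1)) F).charpoly := by
        rw [← hd, Matrix.SpecialLinearGroup.coe_mul, Matrix.charpoly_mul_comm,
          ← Matrix.SpecialLinearGroup.coe_mul, inv_mul_cancel_left]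
      rw [hΦ, hΦ] at h3
      exact congrArg some (hginj (Subtype.ext h3)).symm
  have hcard : Nat.card (Option (Fin k → F)) = Fintype.card F ^ k + 1 := by
    rw [Nat.card_eq_fintype_card, Fintype.card_option, Fintype.card_fun, Fintype.card_fin]
  have hfin : Finite (ConjClasses (Matrix.SpecialLinearGroup (Fin (k + 1)) F)) := inferInstance
  have hle := Nat.card_le_card_of_injective ψ hψ
  rw [hcard] at hle
  have hk : k + 1 - 1 = k := by omega
  rw [hk]
  omega

end Cfsg.Agent.H71.SLk
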